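import Mathlib
import Cfsg.Prelude.Def_Classical

set_option autoImplicit false

namespace Cfsg.Agent.Lib.Helper16

open Matrix

section
variable {F : Type*} {K : Type*} [Field F] [Field K] [Algebra F K] {n κ : Type} [Fintype n] [DecidableEq n]
  [Fintype κ] [DecidableEq κ]

noncomputable def transEnd (ψ : (n → K) ≃ₗ[F] (κ → F)) : Matrix n n K →* Module.End F (κ → F) where
  toFun A := ψ.toLinearMap ∘ₗ (A.mulVecLin.restrictScalars F) ∘ₗ ψ.symm.toLinearMap
  map_one' := by ext w; simp
  map_mul' A B := by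
    apply LinearMap.ext
    intro w
    simp [Matrix.mulVec_mulVec]

noncomputable def transMat (ψ : (n → K) ≃ₗ[F] (κ → F)) : Matrix n n K →* Matrix κ κ F :=
  ((LinearMap.toMatrixAlgEquiv' : Module.End F (κ → F) ≃ₐ[F] Matrix κ κ F) : Module.End F (κ → F) →* Matrix κ κ F).comp
    (transEnd ψ)

theorem transMat_mulVec (ψ : (n → K) ≃ₗ[F] (κ → F)) (A : Matrix n n K) (w : κ → F) :
    transMat ψ A *ᵥ w = ψ (A *ᵥ ψ.symm w) := by
  have h : transMat ψ A = LinearMap.toMatrix' (transEnd ψ A) := rfl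
  rw [h, LinearMap.toMatrix'_mulVec]
  rfl

theorem transMat_injective (ψ : (n → K) ≃ₗ[F] (κ → F)) : Function.Injective (transMat ψ) := by
  intro A B hAB
  apply Matrix.ext_of_mulVec_single
  intro i
  have h := congrArg (fun M => M *ᵥ ψ (Pi.single i 1)) hAB
  simp only [transMat_mulVec, LinearEquiv.symm_apply_apply] at h
  exact ψ.injective h

end

theorem exists_hom_isometryGroup {F : Type*} [Field F] {κ : Type} [Fintype κ] [DecidableEq κ]
    {G : Type*} [Group G] (ρ : G →* Matrix κ κ F) (hρ : Function.Injective ρ)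
    (Q : (κ → F) → F) (h : ∀ g w, Q (ρ g *ᵥ w) = Q w) :
    ∃ φ : G →* ↥(Cfsg.isometryGroup F Q), Function.Injective φ := by
  refine ⟨(ρ.toHomUnits).codRestrict _ (fun g => ?_), ?_⟩
  · intro u _
    exact h g u
  · intro a b hab
    apply hρ
    exact congrArg (fun x : ↥(Cfsg.isometryGroup F Q) => ((x : GL κ F) : Matrix κ κ F)) hab

theorem exists_hom_symplectic {F : Type*} [Field F] {l : Type} [Fintype l] [DecidableEq l]
    {G : Type*} [Group G] (ρ : G →* Matrix (l ⊕ l) (l ⊕ l) F) (hρ : Function.Injective ρ)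
    (h : ∀ g, ρ g ∈ Matrix.symplecticGroup l F) :
    ∃ φ : G →* ↥(Matrix.symplecticGroup l F), Function.Injective φ :=
  ⟨ρ.codRestrict _ h, fun _ _ hab => hρ (congrArg Subtype.val hab)⟩

end Cfsg.Agent.Lib.Helper16
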