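import Mathlib
import Cfsg.Agent.S0749
import Cfsg.Agent.S0752

set_option autoImplicit false
set_option linter.unusedSectionVars false

namespace Cfsg.Agent.Lib.Helper16.SpInv

open Module

section A

variable {F V : Type*} [Field F] [AddCommGroup V] [Module F V] [FiniteDimensional F V]
  {B : LinearMap.BilinForm F V}

/-- Witt for totally isotropic families (alternating forms) -/
theorem witt_ti (hB : B.Nondegenerate) (hA : B.IsAlt) {ι : Type*} (v v' : ι → V)
    (hv : LinearIndependent F v) (hv' : LinearIndependent F v')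
    (h0 : ∀ i j, B (v i) (v j) = 0) (h0' : ∀ i j, B (v' i) (v' j) = 0) :
    ∃ g : V ≃ₗ[F] V, (∀ x y, B (g x) (g y) = B x y) ∧ ∀ i, g (v i) = v' i := by
  have hti : ∀ (w : ι → V), (∀ i j, B (w i) (w j) = 0) →
      ∀ x ∈ Submodule.span F (Set.range w), ∀ y ∈ Submodule.span F (Set.range w), B x y = 0 := by
    intro w hw x hx y hy
    induction hx using Submodule.span_induction with
    | mem x hx =>
      obtain ⟨i, rfl⟩ := hx
      induction hy using Submodule.span_induction with
      | mem y hy => obtain ⟨j, rfl⟩ := hy; exact hw i j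
      | zero => simp
      | add y z _ _ h1 h2 => rw [map_add, h1, h2, add_zero]
      | smul c y _ h1 => rw [map_smul, h1, smul_zero]
    | zero => simp
    | add x z _ _ h1 h2 => rw [map_add, LinearMap.add_apply, h1, h2, add_zero]
    | smul c x _ h1 => rw [map_smul, LinearMap.smul_apply, h1, smul_zero]
  let φ := hv.linearCombinationEquiv.symm ≪≫ₗ hv'.linearCombinationEquiv
  obtain ⟨g, hg1, hg2⟩ := Cfsg.Agent.S0749.result B hB hA _ _ φ (fun x x' => by
    rw [hti v h0 _ x.2 _ x'.2, hti v' h0' _ (φ x).2 _ (φ x').2])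
  refine ⟨g, hg1, fun i => ?_⟩
  have h1 : hv.linearCombinationEquiv (Finsupp.single i 1) =
      ⟨v i, Submodule.subset_span (Set.mem_range_self i)⟩ := by
    apply Subtype.ext; simp
  have h2 : (hv'.linearCombinationEquiv (Finsupp.single i 1) : V) = v' i := by simp
  have h3 := hg2 ⟨v i, Submodule.subset_span (Set.mem_range_self i)⟩
  rw [← h1] at h3
  simp only [φ, LinearEquiv.trans_apply, LinearEquiv.symm_apply_apply] at h3
  rw [h2, h1] at h3
  exact h3

/-- dual vectors to an independent family -/
theorem exists_dual (hB : B.Nondegenerate) {ι : Type*} (r : ι → V)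
    (hr : LinearIndependent F r) (c : ι → F) : ∃ z, ∀ i, B z (r i) = c i := by
  obtain ⟨φ, hφ⟩ := LinearMap.exists_extend
    ((Finsupp.linearCombination F c).comp (hr.repr : _ →ₗ[F] _))
  refine ⟨(B.toDual hB).symm φ, fun i => ?_⟩
  have h1 : B ((B.toDual hB).symm φ) (r i) = φ (r i) := by
    rw [← LinearMap.BilinForm.toDual_def hB, LinearEquiv.apply_symm_apply]
  rw [h1]
  have h2 := LinearMap.congr_fun hφ ⟨r i, Submodule.subset_span (Set.mem_range_self i)⟩
  simp only [LinearMap.comp_apply, Submodule.subtype_apply] at h2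
  rw [h2]
  have h3 : hr.repr ⟨r i, Submodule.subset_span (Set.mem_range_self i)⟩ = Finsupp.single i 1 :=
    hr.repr_eq_single i _ rfl
  simp [h3]

/-- normal form data for a nilpotent self-adjoint map -/
structure NF (B : LinearMap.BilinForm F V) (N : V →ₗ[F] V) {ι : Type*} [Fintype ι] (π : ι → ι)
    (r : ι → V) : Prop where
  li : LinearIndependent F r
  iso : ∀ i j, B (r i) (r j) = 0
  formula : ∀ z, N z = ∑ i, B z (r i) • r (π i)

theorem NF.conj (hB : B.Nondegenerate) (hA : B.IsAlt) {N N' : V →ₗ[F] V} {ι : Type*} [Fintype ι]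
    {π : ι → ι} {r r' : ι → V} (h : NF B N π r) (h' : NF B N' π r') :
    ∃ g : V ≃ₗ[F] V, (∀ x y, B (g x) (g y) = B x y) ∧ ∀ z, g (N z) = N' (g z) := by
  obtain ⟨g, hg1, hg2⟩ := witt_ti hB hA r r' h.li h'.li h.iso h'.iso
  refine ⟨g, hg1, fun z => ?_⟩
  rw [h.formula, h'.formula, map_sum]
  refine Finset.sum_congr rfl fun i _ => ?_
  rw [map_smul, hg2, ← hg2 i, hg1]

theorem NF.finrank (hB : B.Nondegenerate) {N : V →ₗ[F] V} {ι : Type*} [Fintype ι]
    {π : ι → ι} (hπ : Function.Involutive π) {r : ι → V} (h : NF B N π r) :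
    finrank F (LinearMap.range N) = Fintype.card ι := by
  classical
  have h1 : LinearMap.range N = Submodule.span F (Set.range r) := by
    apply le_antisymm
    · rintro _ ⟨z, rfl⟩
      rw [h.formula]
      exact Submodule.sum_mem _ fun i _ => Submodule.smul_mem _ _
        (Submodule.subset_span (Set.mem_range_self _))
    · rw [Submodule.span_le]
      rintro _ ⟨j, rfl⟩
      obtain ⟨z, hz⟩ := exists_dual hB r h.li (fun i => if i = π j then 1 else 0)
      refine ⟨z, ?_⟩
      rw [h.formula]
      simp only [hz, ite_smul, one_smul, zero_smul, Finset.sum_ite_eq', Finset.mem_univ, if_true]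
      rw [hπ j]
  rw [h1, finrank_span_eq_card h.li]

theorem nf_of_gram (hB : B.Nondegenerate) {N : V →ₗ[F] V} (hN2 : ∀ x, N (N x) = 0)
    (hadj : ∀ x y, B (N x) y = B x (N y)) {ι : Type*} [Fintype ι] [DecidableEq ι]
    (π : ι → ι) (hπ : Function.Involutive π) (x : ι → V)
    (hG : ∀ i j, B (x i) (N (x j)) = if j = π i then 1 else 0)
    (hP : ∀ y, (∀ j, B y (N (x j)) = 0) → N y = 0) : NF B N π (fun i => N (x i)) := by
  refine ⟨?_, ?_, ?_⟩
  · rw [Fintype.linearIndependent_iff]
    intro c hc i
    have h1 : B (x (π i)) (∑ k, c k • N (x k)) = c i := by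
      rw [map_sum]
      simp only [map_smul, hG, hπ i, smul_eq_mul, mul_ite, mul_one, mul_zero, Finset.sum_ite_eq',
        Finset.mem_univ, if_true]
    rw [hc, map_zero] at h1
    exact h1.symm
  · intro i j
    rw [hadj, hN2, map_zero]
  · intro z
    have h1 : N (z - ∑ i, B z (N (x i)) • x (π i)) = 0 := by
      apply hP
      intro j
      rw [map_sub, LinearMap.sub_apply, map_sum, LinearMap.sum_apply]
      simp only [map_smul, LinearMap.smul_apply, hG, hπ _, smul_eq_mul, mul_ite, mul_one, mul_zero,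
        Finset.sum_ite_eq, Finset.mem_univ, if_true, sub_self]
    rw [map_sub, sub_eq_zero, map_sum] at h1
    rw [h1]
    simp only [map_smul]

end A

end Cfsg.Agent.Lib.Helper16.SpInv
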