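import Mathlib
import Cfsg.Agent.Lib.Helper16.SpInv1

set_option autoImplicit false
set_option linter.unusedSectionVars false

namespace Cfsg.Agent.Lib.Helper16.SpInv

open Module

universe u v

/-- orthonormal families for non-alternating symmetric forms, perfect field of characteristic 2 -/
theorem exists_orthonormal {F : Type u} [Field F] (h2 : (2 : F) = 0) (hsq : ∀ a : F, ∃ c, c * c = a) :
    ∀ (n : ℕ) (V : Type v) [AddCommGroup V] [Module F V] [FiniteDimensional F V]
      (g : LinearMap.BilinForm F V), finrank F V = n → (∀ x y, g x y = g y x) →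
      (∃ v, g v v ≠ 0) →
      ∃ (s : ℕ) (x : Fin s → V), (∀ i j, g (x i) (x j) = if i = j then 1 else 0) ∧
        ∀ y, (∀ j, g y (x j) = 0) → ∀ z, g y z = 0 := by
  intro n
  induction n using Nat.strong_induction_on with
  | _ n ih =>
    intro V _ _ _ g hn hs hv
    obtain ⟨v0, hv0⟩ := hv
    have h11 : (1 : F) + 1 = 0 := by rw [one_add_one_eq_two, h2]
    -- normalise
    obtain ⟨v1, hv1⟩ : ∃ v1, g v1 v1 = 1 := by
      obtain ⟨c, hc⟩ := hsq (g v0 v0)⁻¹
      refine ⟨c • v0, ?_⟩
      simp only [map_smul, LinearMap.smul_apply, smul_eq_mul]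
      rw [← mul_assoc, hc, inv_mul_cancel₀ hv0]
    -- choose a good vector
    obtain ⟨v, hv, hcase⟩ : ∃ v, g v v = 1 ∧
        ((∀ w w', g v w = 0 → g v w' = 0 → g w w' = 0) ∨ ∃ w, g v w = 0 ∧ g w w ≠ 0) := by
      by_cases h : ∃ w, g v1 w = 0 ∧ g w w ≠ 0
      · exact ⟨v1, hv1, Or.inr h⟩
      push Not at h
      by_cases h' : ∀ w w', g v1 w = 0 → g v1 w' = 0 → g w w' = 0
      · exact ⟨v1, hv1, Or.inl h'⟩
      push Not at h'
      obtain ⟨e, f, he, hf, hef⟩ := h'
      have hf' : g v1 ((g e f)⁻¹ • f) = 0 := by rw [map_smul, hf, smul_zero]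
      have hef' : g e ((g e f)⁻¹ • f) = 1 := by
        rw [map_smul, smul_eq_mul, inv_mul_cancel₀ hef]
      set f' := (g e f)⁻¹ • f with hf'def
      refine ⟨v1 + e, ?_, Or.inr ⟨v1 + f', ?_, ?_⟩⟩
      · simp only [map_add, LinearMap.add_apply]
        rw [hv1, he, hs e v1, he, h e he]; ring
      · simp only [map_add, LinearMap.add_apply]
        rw [hv1, hf', hs e v1, he, hef']; linear_combination h11
      · simp only [map_add, LinearMap.add_apply]
        rw [hv1, hf', hs f' v1, hf', h f' hf']; simp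
    have hdec : ∀ z, g v (z - g v z • v) = 0 := by
      intro z
      rw [map_sub, map_smul, hv, smul_eq_mul, mul_one, sub_self]
    rcases hcase with hz | ⟨w, hw1, hw2⟩
    · refine ⟨1, fun _ => v, fun i j => ?_, fun y hy z => ?_⟩
      · rw [hv, if_pos (Subsingleton.elim i j)]
      · have hy0 : g v y = 0 := by rw [hs]; exact hy 0
        have h1 := hz y _ hy0 (hdec z)
        rw [map_sub, map_smul, hy 0, smul_zero, sub_zero] at h1
        exact h1
    · set W : Submodule F V := LinearMap.ker (g v) with hW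
      have hlt : finrank F W < n := by
        rw [← hn]
        apply Submodule.finrank_lt
        intro htop
        have : v ∈ W := htop ▸ Submodule.mem_top
        rw [hW, LinearMap.mem_ker, hv] at this
        exact one_ne_zero this
      obtain ⟨s, x, hx1, hx2⟩ := ih _ hlt W (g.domRestrict₁₂ W W) rfl
        (fun a b => by simp only [LinearMap.domRestrict₁₂_apply]; exact hs _ _)
        ⟨⟨w, hw1⟩, by simpa only [LinearMap.domRestrict₁₂_apply] using hw2⟩
      simp only [LinearMap.domRestrict₁₂_apply] at hx1 hx2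
      refine ⟨s + 1, Fin.cons v (fun i => (x i : V)), ?_, ?_⟩
      · intro i j
        refine Fin.cases ?_ (fun i => ?_) i <;> refine Fin.cases ?_ (fun j => ?_) j
        · simp [hv]
        · simp only [Fin.cons_zero, Fin.cons_succ]
          rw [if_neg (Fin.succ_ne_zero j).symm]
          exact (x j).2
        · simp only [Fin.cons_zero, Fin.cons_succ]
          rw [if_neg (Fin.succ_ne_zero i), hs]
          exact (x i).2
        · simp only [Fin.cons_succ, hx1, Fin.succ_inj]
      · intro y hy z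
        have hy0 : g v y = 0 := by
          rw [hs]; simpa using hy 0
        have h1 := hx2 ⟨y, hy0⟩ (fun j => by simpa using hy j.succ) ⟨_, hdec z⟩
        simp only at h1
        rw [map_sub, map_smul, hs y v, hy0, smul_zero, sub_zero] at h1
        exact h1

section A

variable {F V : Type*} [Field F] [AddCommGroup V] [Module F V] [FiniteDimensional F V]
  {B : LinearMap.BilinForm F V}

theorem gram_symm (h2 : (2 : F) = 0) (hA : B.IsAlt) {N : V →ₗ[F] V}
    (hadj : ∀ x y, B (N x) y = B x (N y)) (x y : V) : B x (N y) = B y (N x) := by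
  rw [← hadj y x, ← hA.neg_eq (N y) x, hadj]
  have : B y (N x) + B y (N x) = 0 := by rw [← two_mul, h2, zero_mul]
  linear_combination -this

theorem nf_nonalt (h2 : (2 : F) = 0) (hsq : ∀ a : F, ∃ c, c * c = a) (hB : B.Nondegenerate)
    (hA : B.IsAlt) {N : V →ₗ[F] V} (hN2 : ∀ x, N (N x) = 0)
    (hadj : ∀ x y, B (N x) y = B x (N y)) (hna : ∃ v, B v (N v) ≠ 0) :
    ∃ (s : ℕ) (r : Fin s → V), NF B N (id : Fin s → Fin s) r := by
  obtain ⟨s, x, hx1, hx2⟩ := exists_orthonormal h2 hsq _ V (B.compRight N) rfl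
    (fun x y => by
      simp only [LinearMap.BilinForm.compRight_apply]; exact gram_symm h2 hA hadj x y)
    (by simpa only [LinearMap.BilinForm.compRight_apply] using hna)
  simp only [LinearMap.BilinForm.compRight_apply] at hx1 hx2
  refine ⟨s, _, nf_of_gram hB hN2 hadj id (fun _ => rfl) x (fun i j => ?_) (fun y hy => ?_)⟩
  · rw [hx1]; simp only [id, eq_comm]
  · apply hB.1
    intro z
    rw [hadj]
    exact hx2 y hy z

theorem nf_alt (h2 : (2 : F) = 0) (hB : B.Nondegenerate)
    (hA : B.IsAlt) {N : V →ₗ[F] V} (hN2 : ∀ x, N (N x) = 0)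
    (hadj : ∀ x y, B (N x) y = B x (N y)) (ha : ∀ v, B v (N v) = 0) :
    ∃ (m : ℕ) (r : Fin m ⊕ Fin m → V), NF B N (Sum.swap : Fin m ⊕ Fin m → Fin m ⊕ Fin m) r := by
  obtain ⟨m, k, b, h1, h2', h3, h4⟩ := Cfsg.Agent.S0752.result (B.compRight N)
    (fun v => by simp only [LinearMap.BilinForm.compRight_apply]; exact ha v)
  simp only [LinearMap.BilinForm.compRight_apply] at h1 h2' h3 h4
  refine ⟨m, _, nf_of_gram hB hN2 hadj Sum.swap Sum.swap_swap (fun i => b (Sum.inl i))
    (fun i j => ?_) (fun y hy => ?_)⟩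
  · rcases i with i | i <;> rcases j with j | j
    · simp [h2']
    · simp [h1, eq_comm]
    · rw [gram_symm h2 hA hadj, h1]; simp
    · simp [h3]
  · apply hB.1
    intro z
    rw [hadj]
    have h5 : (B y).comp N = 0 := by
      apply b.ext
      intro i
      rcases i with i | i
      · simpa using hy i
      · simp only [LinearMap.comp_apply, LinearMap.zero_apply]
        rw [gram_symm h2 hA hadj]; exact h4 i y
    exact LinearMap.congr_fun h5 z

/-- main abstract conjugacy criterion -/
theorem conj_of_invariants (h2 : (2 : F) = 0) (hsq : ∀ a : F, ∃ c, c * c = a)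
    (hB : B.Nondegenerate) (hA : B.IsAlt) {N N' : V →ₗ[F] V} (hN2 : ∀ x, N (N x) = 0)
    (hadj : ∀ x y, B (N x) y = B x (N y)) (hN2' : ∀ x, N' (N' x) = 0)
    (hadj' : ∀ x y, B (N' x) y = B x (N' y))
    (hrk : finrank F (LinearMap.range N) = finrank F (LinearMap.range N'))
    (halt : (∀ v, B v (N v) = 0) ↔ (∀ v, B v (N' v) = 0)) :
    ∃ g : V ≃ₗ[F] V, (∀ x y, B (g x) (g y) = B x y) ∧ ∀ z, g (N z) = N' (g z) := by
  by_cases ha : ∀ v, B v (N v) = 0
  · obtain ⟨m, r, hr⟩ := nf_alt h2 hB hA hN2 hadj ha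
    obtain ⟨m', r', hr'⟩ := nf_alt h2 hB hA hN2' hadj' (halt.1 ha)
    have e1 := hr.finrank hB Sum.swap_swap
    have e2 := hr'.finrank hB Sum.swap_swap
    have hm : m = m' := by
      simp only [Fintype.card_sum, Fintype.card_fin] at e1 e2
      omega
    subst hm
    exact hr.conj hB hA hr'
  · have ha' : ¬ ∀ v, B v (N' v) = 0 := fun h => ha (halt.2 h)
    push Not at ha ha'
    obtain ⟨m, r, hr⟩ := nf_nonalt h2 hsq hB hA hN2 hadj ha
    obtain ⟨m', r', hr'⟩ := nf_nonalt h2 hsq hB hA hN2' hadj' ha'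
    have e1 := hr.finrank hB (fun _ => rfl)
    have e2 := hr'.finrank hB (fun _ => rfl)
    have hm : m = m' := by
      simp only [Fintype.card_fin] at e1 e2
      omega
    subst hm
    exact hr.conj hB hA hr'

theorem even_of_alt (h2 : (2 : F) = 0) (hB : B.Nondegenerate)
    (hA : B.IsAlt) {N : V →ₗ[F] V} (hN2 : ∀ x, N (N x) = 0)
    (hadj : ∀ x y, B (N x) y = B x (N y)) (ha : ∀ v, B v (N v) = 0) :
    Even (finrank F (LinearMap.range N)) := by
  obtain ⟨m, r, hr⟩ := nf_alt h2 hB hA hN2 hadj ha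
  rw [hr.finrank hB Sum.swap_swap]
  simp

end A

end Cfsg.Agent.Lib.Helper16.SpInv
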