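import Mathlib
import Cfsg.Agent.S0750
import Cfsg.Agent.Lib.Helper16.SpInv2

set_option autoImplicit false
set_option linter.unusedSectionVars false

namespace Cfsg.Agent.Lib.Helper16.OInv

open Module QuadraticMap Cfsg.Agent.Lib.Helper16.SpInv

variable {F V : Type*} [Field F] [AddCommGroup V] [Module F V] [FiniteDimensional F V]
  (Q : QuadraticForm F V)

theorem polar_isAlt (h2 : (2 : F) = 0) : (polarBilin Q).IsAlt := by
  intro x
  rw [polarBilin_apply_apply, polar_self, two_smul]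
  rw [← two_mul, h2, zero_mul]

theorem Q_sum {ι : Type*} (r : ι → V) (h0 : ∀ i j, polarBilin Q (r i) (r j) = 0) (c : ι → F)
    (s : Finset ι) : Q (∑ i ∈ s, c i • r i) = ∑ i ∈ s, c i * c i * Q (r i) := by
  classical
  induction s using Finset.induction_on with
  | empty => simp
  | insert a s ha ih =>
    rw [Finset.sum_insert ha, Finset.sum_insert ha, QuadraticMap.map_add (⇑Q), ih,
      QuadraticMap.map_smul, smul_eq_mul]
    have : polar Q (c a • r a) (∑ i ∈ s, c i • r i) = 0 := by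
      rw [← polarBilin_apply_apply, map_sum]
      apply Finset.sum_eq_zero
      intro i _
      simp [h0]
    rw [this, add_zero]

/-- Witt for families with trivial polar form -/
theorem witt_q [Finite F] (hB : (polarBilin Q).Nondegenerate) {ι : Type*} (v v' : ι → V)
    (hv : LinearIndependent F v) (hv' : LinearIndependent F v')
    (h0 : ∀ i j, polarBilin Q (v i) (v j) = 0) (h0' : ∀ i j, polarBilin Q (v' i) (v' j) = 0)
    (hQ : ∀ i, Q (v i) = Q (v' i)) :
    ∃ g : V ≃ₗ[F] V, (∀ x, Q (g x) = Q x) ∧ ∀ i, g (v i) = v' i := by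
  let φ := hv.linearCombinationEquiv.symm ≪≫ₗ hv'.linearCombinationEquiv
  obtain ⟨g, hg1, hg2⟩ := Cfsg.Agent.S0750.result Q hB _ _ φ (fun x => by
    obtain ⟨l, rfl⟩ := hv.linearCombinationEquiv.surjective x
    simp only [φ, LinearEquiv.trans_apply, LinearEquiv.symm_apply_apply,
      LinearIndependent.linearCombinationEquiv_apply_coe, Finsupp.linearCombination_apply,
      Finsupp.sum]
    rw [Q_sum Q v h0, Q_sum Q v' h0']
    simp only [hQ])
  refine ⟨g, hg1, fun i => ?_⟩
  have h1 : hv.linearCombinationEquiv (Finsupp.single i 1) =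
      ⟨v i, Submodule.subset_span (Set.mem_range_self i)⟩ := by
    apply Subtype.ext; simp
  have h2 : (hv'.linearCombinationEquiv (Finsupp.single i 1) : V) = v' i := by simp
  have h3 := hg2 ⟨v i, Submodule.subset_span (Set.mem_range_self i)⟩
  rw [← h1] at h3
  simp only [φ, LinearEquiv.trans_apply, LinearEquiv.symm_apply_apply] at h3
  rw [h2, h1] at h3
  exact h3

variable {Q}

theorem Q_N (h2 : (2 : F) = 0) {N : V →ₗ[F] V} (hQN : ∀ x, Q (x + N x) = Q x) (x : V) :
    Q (N x) = polarBilin Q x (N x) := by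
  have h1 := hQN x
  rw [QuadraticMap.map_add (⇑Q)] at h1
  rw [polarBilin_apply_apply]
  have h3 : polar Q x (N x) + polar Q x (N x) = 0 := by rw [← two_mul, h2, zero_mul]
  linear_combination h1 - h3

theorem NF.Q_eq (h2 : (2 : F) = 0) (hB : (polarBilin Q).Nondegenerate) {N : V →ₗ[F] V}
    (hQN : ∀ x, Q (x + N x) = Q x) {ι : Type*} [Fintype ι] [DecidableEq ι] {π : ι → ι}
    (hπ : Function.Involutive π) {r : ι → V} (h : NF (polarBilin Q) N π r) (j : ι) :
    Q (r j) = if j = π j then 1 else 0 := by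
  obtain ⟨z, hz⟩ := exists_dual hB r h.li (fun i => if i = π j then 1 else 0)
  have h1 : N z = r j := by
    rw [h.formula]
    simp only [hz, ite_smul, one_smul, zero_smul, Finset.sum_ite_eq', Finset.mem_univ, if_true]
    rw [hπ j]
  rw [← h1, Q_N h2 hQN, h1, hz]

theorem NF.conjQ [Finite F] (h2 : (2 : F) = 0) (hB : (polarBilin Q).Nondegenerate)
    {N N' : V →ₗ[F] V} (hQN : ∀ x, Q (x + N x) = Q x) (hQN' : ∀ x, Q (x + N' x) = Q x)
    {ι : Type*} [Fintype ι] {π : ι → ι} (hπ : Function.Involutive π) {r r' : ι → V}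
    (h : NF (polarBilin Q) N π r) (h' : NF (polarBilin Q) N' π r') :
    ∃ g : V ≃ₗ[F] V, (∀ x, Q (g x) = Q x) ∧ ∀ z, g (N z) = N' (g z) := by
  classical
  obtain ⟨g, hg1, hg2⟩ := witt_q Q hB r r' h.li h'.li h.iso h'.iso (fun i => by
    rw [NF.Q_eq h2 hB hQN hπ h, NF.Q_eq h2 hB hQN' hπ h'])
  have hgB : ∀ x y, polarBilin Q (g x) (g y) = polarBilin Q x y := by
    intro x y
    simp only [polarBilin_apply_apply, polar, ← map_add, hg1]
  refine ⟨g, hg1, fun z => ?_⟩
  rw [h.formula, h'.formula, map_sum]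
  refine Finset.sum_congr rfl fun i _ => ?_
  rw [map_smul, hg2, ← hg2 i, hgB]

/-- main abstract conjugacy criterion, orthogonal version -/
theorem conj_of_invariants [Finite F] (h2 : (2 : F) = 0) (hsq : ∀ a : F, ∃ c, c * c = a)
    (hB : (polarBilin Q).Nondegenerate) {N N' : V →ₗ[F] V} (hN2 : ∀ x, N (N x) = 0)
    (hadj : ∀ x y, polarBilin Q (N x) y = polarBilin Q x (N y)) (hQN : ∀ x, Q (x + N x) = Q x)
    (hN2' : ∀ x, N' (N' x) = 0)
    (hadj' : ∀ x y, polarBilin Q (N' x) y = polarBilin Q x (N' y))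
    (hQN' : ∀ x, Q (x + N' x) = Q x)
    (hrk : finrank F (LinearMap.range N) = finrank F (LinearMap.range N'))
    (halt : (∀ v, polarBilin Q v (N v) = 0) ↔ (∀ v, polarBilin Q v (N' v) = 0)) :
    ∃ g : V ≃ₗ[F] V, (∀ x, Q (g x) = Q x) ∧ ∀ z, g (N z) = N' (g z) := by
  have hA := polar_isAlt Q h2
  by_cases ha : ∀ v, polarBilin Q v (N v) = 0
  · obtain ⟨m, r, hr⟩ := nf_alt h2 hB hA hN2 hadj ha
    obtain ⟨m', r', hr'⟩ := nf_alt h2 hB hA hN2' hadj' (halt.1 ha)
    have e1 := hr.finrank hB Sum.swap_swap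
    have e2 := hr'.finrank hB Sum.swap_swap
    have hm : m = m' := by
      simp only [Fintype.card_sum, Fintype.card_fin] at e1 e2
      omega
    subst hm
    exact NF.conjQ h2 hB hQN hQN' Sum.swap_swap hr hr'
  · have ha' : ¬ ∀ v, polarBilin Q v (N' v) = 0 := fun h => ha (halt.2 h)
    push Not at ha ha'
    obtain ⟨m, r, hr⟩ := nf_nonalt h2 hsq hB hA hN2 hadj ha
    obtain ⟨m', r', hr'⟩ := nf_nonalt h2 hsq hB hA hN2' hadj' ha'
    have e1 := hr.finrank hB (fun _ => rfl)
    have e2 := hr'.finrank hB (fun _ => rfl)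
    have hm : m = m' := by
      simp only [Fintype.card_fin] at e1 e2
      omega
    subst hm
    exact NF.conjQ h2 hB hQN hQN' (fun _ => rfl) hr hr'

end Cfsg.Agent.Lib.Helper16.OInv
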