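import Cfsg.Agent.Lib.Helper16.POAut6

set_option autoImplicit false

namespace Cfsg.Agent.Lib.Helper16.POAut

open Cfsg.Agent.Lib.Helper16 Cfsg.Agent.Lib.Helper6 Module Cfsg Matrix

section Chi

variable {F : Type*} [Field F] {ι : Type} [Fintype ι] [DecidableEq ι] {Q : QuadraticForm F (ι → F)}

theorem exists_gl_of_equiv (L : (ι → F) ≃ₗ[F] (ι → F)) :
    ∃ g : GL ι F, ∀ x, (g : Matrix ι ι F) *ᵥ x = L x :=
  ⟨(glEquiv F ι).symm L, fun x => by rw [← glEquiv_apply, MulEquiv.apply_symm_apply]⟩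

theorem exists_scalar (y : Fˣ) :
    ∃ z : ↥(SimG Q), ∀ x, ((z : GL ι F) : Matrix ι ι F) *ᵥ x = (y : F) • x := by
  obtain ⟨g, hg⟩ := exists_gl_of_equiv (LinearEquiv.smulOfUnit (R := F) (M := ι → F) y)
  have hg' : ∀ x, (g : Matrix ι ι F) *ᵥ x = (y : F) • x := fun x => by rw [hg]; rfl
  refine ⟨⟨g, y * y, fun v => ?_⟩, hg'⟩
  rw [hg', QuadraticMap.map_smul, smul_eq_mul, Units.val_mul]

theorem scalar_data {v0 : ι → F} (h0 : Q v0 ≠ 0) (w : ↥(SimG Q)) (c : Fˣ)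
    (hc : ∀ x, ((w : GL ι F) : Matrix ι ι F) *ᵥ x = (c : F) • x) :
    mu Q w = c ^ 2 ∧ Matrix.GeneralLinearGroup.det (w : GL ι F) = c ^ (Fintype.card ι) := by
  constructor
  · apply Units.ext
    apply mu_unique h0
    rw [hc, QuadraticMap.map_smul, smul_eq_mul, Units.val_pow_eq_pow_val, sq]
  · apply Units.ext
    rw [Matrix.GeneralLinearGroup.val_det_apply, Units.val_pow_eq_pow_val]
    have : ((w : GL ι F) : Matrix ι ι F) = (c : F) • 1 := by
      apply matrix_ext_mulVec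
      intro x
      rw [hc, Matrix.smul_mulVec, Matrix.one_mulVec]
    rw [this, Matrix.det_smul, Matrix.det_one, mul_one]

theorem mem_iso_of_mu (g : ↥(SimG Q)) (h : mu Q g = 1) : (g : GL ι F) ∈ isometryGroup F ⇑Q := by
  rw [mem_iso_iff]
  intro v
  rw [mu_spec, h, Units.val_one, one_mul]

theorem mu_of_iso {v0 : ι → F} (h0 : Q v0 ≠ 0) (g : ↥(SimG Q))
    (h : (g : GL ι F) ∈ isometryGroup F ⇑Q) : mu Q g = 1 := by
  apply Units.ext
  apply mu_unique h0
  rw [(mem_iso_iff Q _).1 h, Units.val_one, one_mul]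

/-- similitudes with square multiplier -/
noncomputable def H1 {v0 : ι → F} (h0 : Q v0 ≠ 0) : Subgroup ↥(SimG Q) :=
  (Subgroup.square Fˣ).comap (muHom h0)

theorem mem_H1 {v0 : ι → F} (h0 : Q v0 ≠ 0) (g : ↥(SimG Q)) : g ∈ H1 h0 ↔ IsSquare (mu Q g) :=
  Iff.rfl

theorem isSquare_units_iff (u : Fˣ) : IsSquare u ↔ IsSquare (u : F) := by
  constructor
  · rintro ⟨y, rfl⟩
    exact ⟨y, Units.val_mul y y⟩
  · rintro ⟨c, hc⟩
    have hc0 : c ≠ 0 := by
      rintro rfl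
      exact u.ne_zero (by rw [hc, mul_zero])
    exact ⟨Units.mk0 c hc0, Units.ext hc⟩

/-- the determinant character -/
noncomputable def delta {v0 : ι → F} (h0 : Q v0 ≠ 0) (m : ℕ) : ↥(SimG Q) →* Fˣ :=
  MonoidHom.mk' (fun g => Matrix.GeneralLinearGroup.det (g : GL ι F) * (mu Q g ^ m)⁻¹) (by
    intro a b
    rw [Subgroup.coe_mul, map_mul, mu_mul h0, mul_pow, mul_inv]
    exact mul_mul_mul_comm _ _ _ _)

theorem mem_ker_delta {v0 : ι → F} (h0 : Q v0 ≠ 0) (m : ℕ) (g : ↥(SimG Q)) :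
    g ∈ (delta h0 m).ker ↔ Matrix.GeneralLinearGroup.det (g : GL ι F) = mu Q g ^ m := by
  rw [MonoidHom.mem_ker]
  exact mul_inv_eq_one

theorem det_cases (hQ : (QuadraticMap.polarBilin Q).Nondegenerate) (m : ℕ)
    (hcard : Fintype.card ι = 2 * m) (g : ↥(SimG Q)) :
    Matrix.GeneralLinearGroup.det (g : GL ι F) = mu Q g ^ m ∨
      Matrix.GeneralLinearGroup.det (g : GL ι F) = - mu Q g ^ m := by
  have h := det_sq hQ g
  rw [hcard, mul_comm, pow_mul, sq_eq_sq_iff_eq_or_eq_neg] at h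
  rcases h with h | h
  · left
    apply Units.ext
    rw [Matrix.GeneralLinearGroup.val_det_apply, h, Units.val_pow_eq_pow_val]
  · right
    apply Units.ext
    rw [Matrix.GeneralLinearGroup.val_det_apply, h, Units.val_neg, Units.val_pow_eq_pow_val]

/-- the character `(μ mod squares, det / μ^m)` -/
noncomputable def chi [Fintype F] (hQ : (QuadraticMap.polarBilin Q).Nondegenerate)
    {v0 : ι → F} (h0 : Q v0 ≠ 0) (m : ℕ) (hcard : Fintype.card ι = 2 * m) :
    ↥(SimG Q) →* ℤˣ × ℤˣ :=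
  (signHom (H1 h0) (by
    intro a b ha hb
    rw [mem_H1, isSquare_units_iff] at ha hb ⊢
    rw [mu_mul h0, Units.val_mul, isSquare_mul_iff (mu Q a).ne_zero (mu Q b).ne_zero]
    exact ⟨fun h => absurd h ha, fun h => absurd h hb⟩)).prod
  (signHom (delta h0 m).ker (by
    intro a b ha hb
    rw [mem_ker_delta] at ha hb ⊢
    have ha' := (det_cases hQ m hcard a).resolve_left ha
    have hb' := (det_cases hQ m hcard b).resolve_left hb
    rw [Subgroup.coe_mul, map_mul, ha', hb', mu_mul h0, mul_pow, neg_mul_neg]))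

theorem chi_eq_one [Fintype F] (hQ : (QuadraticMap.polarBilin Q).Nondegenerate)
    {v0 : ι → F} (h0 : Q v0 ≠ 0) (m : ℕ) (hcard : Fintype.card ι = 2 * m) (g : ↥(SimG Q)) :
    chi hQ h0 m hcard g = 1 ↔ IsSquare (mu Q g) ∧
      Matrix.GeneralLinearGroup.det (g : GL ι F) = mu Q g ^ m := by
  rw [chi, MonoidHom.prod_apply, Prod.mk_eq_one, signHom_eq_one, signHom_eq_one, mem_H1,
    mem_ker_delta]

/-- the special orthogonal group inside the similarity group -/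
def SOC (Q : QuadraticForm F (ι → F)) : Subgroup ↥(SimG Q) :=
  (specialIsometryGL F ⇑Q).subgroupOf (SimG Q)

theorem mem_SOC (g : ↥(SimG Q)) : g ∈ SOC Q ↔ (g : GL ι F) ∈ isometryGroup F ⇑Q ∧
    Matrix.GeneralLinearGroup.det (g : GL ι F) = 1 := Iff.rfl

theorem pso_eq_C : psoAut F ⇑Q = (SOC Q).map (psiC Q) := by
  have h : specialIsometryGL F ⇑Q ≤ SimG Q := inf_le_left.trans (iso_le_sim Q)
  rw [← aut_eq_C, SOC, Subgroup.map_subgroupOf_eq_of_le h]
  rfl

theorem pgo_eq_C : pgoAut F ⇑Q = (⊤ : Subgroup ↥(SimG Q)).map (psiC Q) := by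
  rw [← aut_eq_C, ← MonoidHom.range_eq_map, Subgroup.range_subtype]
  rfl

theorem chi_ker [Fintype F] (h2 : (2 : F) ≠ 0) (hQ : (QuadraticMap.polarBilin Q).Nondegenerate)
    {e f : ι → F} (hp : HPair Q e f) (hn : 5 ≤ finrank F (ι → F))
    {v0 : ι → F} (h0 : Q v0 ≠ 0) (m : ℕ) (hcard : Fintype.card ι = 2 * m) (t : ↥(SimG Q)) :
    chi hQ h0 m hcard t = 1 ↔ ∃ s ∈ SOC Q, psiC Q t = psiC Q s := by
  rw [chi_eq_one]
  constructor
  · rintro ⟨⟨y, hy⟩, hdet⟩
    obtain ⟨z, hz⟩ := exists_scalar (Q := Q) y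
    obtain ⟨hz1, hz2⟩ := scalar_data h0 z y hz
    refine ⟨z⁻¹ * t, ?_, ?_⟩
    · rw [mem_SOC]
      constructor
      · apply mem_iso_of_mu
        rw [mu_mul h0, ← muHom_apply h0 z⁻¹, map_inv, muHom_apply, hz1, hy, sq, inv_mul_cancel]
      · rw [Subgroup.coe_mul, Subgroup.coe_inv, map_mul, map_inv, hz2, hdet, hy, hcard, ← sq,
          ← pow_mul, inv_mul_cancel]
    · rw [map_mul, map_inv, show psiC Q z = 1 from psi_scalar Q _ _ z y hz, inv_one, one_mul]
  · rintro ⟨s, hs, hts⟩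
    rw [mem_SOC] at hs
    have h1 : psiC Q (t * s⁻¹) = 1 := by rw [map_mul, map_inv, hts, mul_inv_cancel]
    obtain ⟨c, hc⟩ := ker_scalar Q h2 hQ hp hn _ _ (t * s⁻¹) (t * s⁻¹).2 h1
    have hc' : ∀ x, (((t * s⁻¹ : ↥(SimG Q)) : GL ι F) : Matrix ι ι F) *ᵥ x = c • x := hc
    have hc0 : c ≠ 0 := by
      rintro rfl
      have h3 := mu_spec Q (t * s⁻¹) v0
      rw [hc', zero_smul, map_zero] at h3
      exact (mul_ne_zero (mu Q (t * s⁻¹)).ne_zero h0) h3.symm
    obtain ⟨hw1, hw2⟩ := scalar_data h0 (t * s⁻¹) (Units.mk0 c hc0) hc'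
    have hts' : t = (t * s⁻¹) * s := by group
    have hmu : mu Q t = (Units.mk0 c hc0) ^ 2 := by
      rw [hts', mu_mul h0, hw1, mu_of_iso h0 s hs.1, mul_one]
    constructor
    · rw [hmu, sq]
      exact ⟨_, rfl⟩
    · rw [hmu]
      conv_lhs => rw [hts']
      rw [Subgroup.coe_mul, map_mul, hw2, hs.2, mul_one, hcard, pow_mul]

theorem pgo_mod_pso [Fintype F] (h2 : (2 : F) ≠ 0) (hQ : (QuadraticMap.polarBilin Q).Nondegenerate)
    {e f : ι → F} (hp : HPair Q e f) (hn : 5 ≤ finrank F (ι → F))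
    (m : ℕ) (hcard : Fintype.card ι = 2 * m) (d : ↥(SimG Q)) (hd : ¬ IsSquare (mu Q d : F)) :
    ∃ φ : ↥(pgoAut F ⇑Q) →* Multiplicative (ZMod 2 × ZMod 2), Function.Surjective φ ∧
      φ.ker = (psoAut F ⇑Q).subgroupOf (pgoAut F ⇑Q) := by
  obtain ⟨v0, hv0⟩ := represents_all Q hQ (by omega) 1 one_ne_zero
  have h0 : Q v0 ≠ 0 := by rw [hv0]; exact one_ne_zero
  let r : ↥(SimG Q) := ⟨((bridge Q).symm (rO Q v0)).1, iso_le_sim Q ((bridge Q).symm (rO Q v0)).2⟩
  have hr1 : mu Q r = 1 := mu_of_iso h0 r ((bridge Q).symm (rO Q v0)).2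
  have hr2 : Matrix.GeneralLinearGroup.det (r : GL ι F) = -1 := by
    apply Units.ext
    rw [Matrix.GeneralLinearGroup.val_det_apply]
    change (((bridge Q).symm (rO Q v0) : GL ι F) : Matrix ι ι F).det = _
    rw [bridge_symm_rO, det_reflectionMatrix Q v0 h0]
    simp
  have hsurj : Function.Surjective (chi hQ h0 m hcard) := by
    apply surj_of_two _ r d
    · rw [chi, MonoidHom.prod_apply]
      apply Prod.ext
      · rw [signHom_eq_one, mem_H1, hr1]
        exact IsSquare.one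
      · rw [signHom_eq_neg, mem_ker_delta, hr1, hr2, one_pow]
        intro h
        have := congrArg Units.val h
        rw [Units.val_neg, Units.val_one] at this
        exact h2 (by linear_combination -this)
    · rw [chi, MonoidHom.prod_apply]
      change signHom _ _ d = -1
      rw [signHom_eq_neg, mem_H1, isSquare_units_iff]
      exact hd
  obtain ⟨κ⟩ := exists_klein_equiv
  obtain ⟨φ, hφ1, hφ2⟩ := exists_lift (psiC Q) (κ.toMonoidHom.comp (chi hQ h0 m hcard))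
    (κ.surjective.comp hsurj) (SOC Q) (by
      intro t
      rw [← chi_ker h2 hQ hp hn h0 m hcard t]
      exact κ.map_eq_one_iff)
  rw [pgo_eq_C, pso_eq_C]
  exact ⟨φ, hφ1, hφ2⟩

end Chi

end Cfsg.Agent.Lib.Helper16.POAut
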