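import Mathlib
import Cfsg.Agent.Lib.Helper16.OInv1
import Cfsg.Agent.Lib.Helper16.POAut7

set_option autoImplicit false
set_option linter.unusedSectionVars false

namespace Cfsg.Agent.Lib.Helper16.OInv

open Cfsg Module QuadraticMap Matrix Cfsg.Agent.Lib.Helper16.SpInv Cfsg.Agent.Lib.Helper16.POAut

variable {F : Type*} [Field F] {ι : Type} [Fintype ι] [DecidableEq ι]

/-- `T - 1` as a linear map -/
noncomputable def NG (T : GL ι F) : (ι → F) →ₗ[F] (ι → F) :=
  Matrix.mulVecLin ((T : Matrix ι ι F) - 1)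

theorem NG_apply (T : GL ι F) (x : ι → F) : NG T x = (T : Matrix ι ι F) *ᵥ x - x := by
  simp [NG, Matrix.sub_mulVec]

theorem rank_eq (T : GL ι F) :
    ((T : Matrix ι ι F) - 1).rank = finrank F (LinearMap.range (NG T)) := rfl

theorem gl_mul_mulVec (A B : GL ι F) (x : ι → F) :
    ((A * B : GL ι F) : Matrix ι ι F) *ᵥ x = (A : Matrix ι ι F) *ᵥ ((B : Matrix ι ι F) *ᵥ x) := by
  rw [Units.val_mul, ← mulVec_mulVec]

theorem gl_ext {A B : GL ι F} (h : ∀ x, (A : Matrix ι ι F) *ᵥ x = (B : Matrix ι ι F) *ᵥ x) :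
    A = B := Units.ext (Matrix.ext_iff_mulVec.mpr h)

theorem sq_apply {T : GL ι F} (hT : T * T = 1) (x : ι → F) :
    (T : Matrix ι ι F) *ᵥ ((T : Matrix ι ι F) *ᵥ x) = x := by
  rw [← gl_mul_mulVec, hT]; simp

theorem NG_sq (h2 : (2 : F) = 0) {T : GL ι F} (hT : T * T = 1) (x : ι → F) :
    NG T (NG T x) = 0 := by
  simp only [NG_apply, Matrix.mulVec_sub, sq_apply hT]
  ext i
  simp only [Pi.sub_apply, Pi.zero_apply]
  linear_combination (x i - ((T : Matrix ι ι F) *ᵥ x) i) * h2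

variable (Q : QuadraticForm F (ι → F))

/-- preserves the polar form -/
def PB (T : GL ι F) : Prop :=
  ∀ u v, polarBilin Q ((T : Matrix ι ι F) *ᵥ u) ((T : Matrix ι ι F) *ᵥ v) = polarBilin Q u v

variable {Q}

theorem PB_of_iso {T : GL ι F} (hT : T ∈ isometryGroup F ⇑Q) : PB Q T := by
  intro u v
  rw [mem_iso_iff] at hT
  simp only [polarBilin_apply_apply, polar, ← Matrix.mulVec_add, hT]

theorem NG_adj {T : GL ι F} (hP : PB Q T) (hT : T * T = 1) (x y : ι → F) :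
    polarBilin Q (NG T x) y = polarBilin Q x (NG T y) := by
  simp only [NG_apply, map_sub, LinearMap.sub_apply]
  congr 1
  rw [← hP ((T : Matrix ι ι F) *ᵥ x) y, sq_apply hT]

theorem NG_Q {T : GL ι F} (hT : T ∈ isometryGroup F ⇑Q) (x : ι → F) : Q (x + NG T x) = Q x := by
  rw [NG_apply, add_sub_cancel, (mem_iso_iff Q T).1 hT]

theorem NG_form (h2 : (2 : F) = 0) (T : GL ι F) (v : ι → F) :
    polarBilin Q v (NG T v) = polarBilin Q v ((T : Matrix ι ι F) *ᵥ v) := by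
  rw [NG_apply, map_sub, polar_isAlt Q h2 v, sub_zero]

theorem inv_of_conj {t s g : GL ι F} (hg : PB Q g) (h : g * t = s * g) :
    ((t : Matrix ι ι F) - 1).rank = ((s : Matrix ι ι F) - 1).rank ∧
    ((∀ v, polarBilin Q v ((t : Matrix ι ι F) *ᵥ v) = 0) ↔
      (∀ v, polarBilin Q v ((s : Matrix ι ι F) *ᵥ v) = 0)) := by
  have hdet : IsUnit (g : Matrix ι ι F).det := (Matrix.isUnit_iff_isUnit_det _).1 g.isUnit
  have key : ∀ u, polarBilin Q ((g : Matrix ι ι F) *ᵥ u)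
      ((s : Matrix ι ι F) *ᵥ ((g : Matrix ι ι F) *ᵥ u)) =
      polarBilin Q u ((t : Matrix ι ι F) *ᵥ u) := by
    intro u
    rw [← gl_mul_mulVec, ← h, gl_mul_mulVec, hg]
  refine ⟨?_, fun ha v => ?_, fun ha v => ?_⟩
  · have h1 : (g : Matrix ι ι F) * ((t : Matrix ι ι F) - 1) =
        ((s : Matrix ι ι F) - 1) * (g : Matrix ι ι F) := by
      have h2 := congrArg (Units.val) h
      simp only [Units.val_mul] at h2
      rw [mul_sub, sub_mul, h2, mul_one, one_mul]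
    rw [← Matrix.rank_mul_eq_right_of_isUnit_det _ _ hdet, h1,
      Matrix.rank_mul_eq_left_of_isUnit_det _ _ hdet]
  · have h1 := key (((g⁻¹ : GL ι F) : Matrix ι ι F) *ᵥ v)
    rw [← gl_mul_mulVec g g⁻¹, mul_inv_cancel] at h1
    simp only [Units.val_one, Matrix.one_mulVec] at h1
    rw [h1]; exact ha _
  · rw [← key]; exact ha _

theorem isConj_of_equiv {t s : ↥(isometryGroup F ⇑Q)} (g : (ι → F) ≃ₗ[F] (ι → F))
    (hg : ∀ x, Q (g x) = Q x) (hN : ∀ z, g (NG (t : GL ι F) z) = NG (s : GL ι F) (g z)) :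
    IsConj t s := by
  obtain ⟨G, hG⟩ := exists_gl_of_equiv g
  have hmem : G ∈ isometryGroup F ⇑Q := by
    rw [mem_iso_iff]
    intro v
    rw [hG, hg]
  rw [isConj_iff]
  refine ⟨⟨G, hmem⟩, ?_⟩
  rw [mul_inv_eq_iff_eq_mul]
  apply Subtype.ext
  apply gl_ext
  intro x
  simp only [Subgroup.coe_mul]
  rw [gl_mul_mulVec, gl_mul_mulVec, hG, hG]
  have h1 := hN x
  simp only [NG_apply, map_sub] at h1
  exact sub_left_injective h1

theorem coe_sq {t : ↥(isometryGroup F ⇑Q)} (ht : t * t = 1) : (t : GL ι F) * (t : GL ι F) = 1 := by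
  rw [← Subgroup.coe_mul, ht, Subgroup.coe_one]

/-- conjugacy criterion for involutions of `O(Q)` in characteristic two -/
theorem isConj_iff_inv [Finite F] (h2 : (2 : F) = 0) (hsq : ∀ a : F, ∃ c, c * c = a)
    (hB : (polarBilin Q).Nondegenerate)
    {t s : ↥(isometryGroup F ⇑Q)} (ht : t * t = 1) (hs : s * s = 1) :
    IsConj t s ↔ ((((t : GL ι F) : Matrix ι ι F) - 1).rank = (((s : GL ι F) : Matrix ι ι F) - 1).rank ∧
    ((∀ v, polarBilin Q v (((t : GL ι F) : Matrix ι ι F) *ᵥ v) = 0) ↔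
      (∀ v, polarBilin Q v (((s : GL ι F) : Matrix ι ι F) *ᵥ v) = 0))) := by
  constructor
  · intro h
    obtain ⟨c, hc⟩ := isConj_iff.1 h
    rw [mul_inv_eq_iff_eq_mul] at hc
    exact inv_of_conj (PB_of_iso c.2) (by rw [← Subgroup.coe_mul, hc, Subgroup.coe_mul])
  · rintro ⟨h1, h3⟩
    obtain ⟨g, hg1, hg2⟩ := conj_of_invariants h2 hsq hB
      (NG_sq h2 (coe_sq ht)) (NG_adj (PB_of_iso t.2) (coe_sq ht)) (NG_Q t.2)
      (NG_sq h2 (coe_sq hs)) (NG_adj (PB_of_iso s.2) (coe_sq hs)) (NG_Q s.2) h1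
      (by simpa only [NG_form h2] using h3)
    exact isConj_of_equiv g hg1 hg2

/-- conjugate in `O(Q)` iff conjugate in the symplectic group of the polar form -/
theorem conj_iff_sp [Finite F] (h2 : (2 : F) = 0) (hsq : ∀ a : F, ∃ c, c * c = a)
    (hB : (polarBilin Q).Nondegenerate)
    (t s : ↥(isometryGroup F ⇑Q)) (ht : orderOf t = 2) (hs : orderOf s = 2) :
    IsConj t s ↔ ∃ g ∈ preserving (Units.coeHom (Matrix ι ι F)) (fun u v => Q (u + v) - Q u - Q v),
      g * (t : GL ι F) * g⁻¹ = (s : GL ι F) := by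
  have ht' : t * t = 1 := by rw [← _root_.sq, ← ht, pow_orderOf_eq_one]
  have hs' : s * s = 1 := by rw [← _root_.sq, ← hs, pow_orderOf_eq_one]
  constructor
  · intro h
    obtain ⟨c, hc⟩ := isConj_iff.1 h
    refine ⟨(c : GL ι F), PB_of_iso c.2, ?_⟩
    rw [← hc]; simp
  · rintro ⟨g, hg, h⟩
    rw [mul_inv_eq_iff_eq_mul] at h
    rw [isConj_iff_inv h2 hsq hB ht' hs']
    exact inv_of_conj hg h

end Cfsg.Agent.Lib.Helper16.OInv
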