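import Mathlib
import Cfsg.Agent.Lib.Helper6.SpMax
import Cfsg.Agent.Lib.Helper12.SpPerfect
import Cfsg.Agent.Lib.Helper16.SpInv2

set_option autoImplicit false
set_option linter.unusedSectionVars false

namespace Cfsg.Agent.Lib.Helper16.SpInv

open Cfsg Cfsg.Agent.Lib.Helper6 Cfsg.Agent.Lib.Helper12 Module Matrix

variable {F : Type*} [Field F] {m : ℕ}

/-- `a - 1` as a linear map -/
noncomputable def Nm (a : symplecticGroup (Fin m) F) :
    (Fin m ⊕ Fin m → F) →ₗ[F] (Fin m ⊕ Fin m → F) :=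
  Matrix.mulVecLin ((a : Matrix (Fin m ⊕ Fin m) (Fin m ⊕ Fin m) F) - 1)

theorem Nm_apply (a : symplecticGroup (Fin m) F) (x : Fin m ⊕ Fin m → F) :
    Nm a x = (a : Matrix (Fin m ⊕ Fin m) (Fin m ⊕ Fin m) F) *ᵥ x - x := by
  simp [Nm, Matrix.sub_mulVec]

theorem rank_eq (a : symplecticGroup (Fin m) F) :
    ((a : Matrix (Fin m ⊕ Fin m) (Fin m ⊕ Fin m) F) - 1).rank =
      finrank F (LinearMap.range (Nm a)) := rfl

theorem sq_apply {a : symplecticGroup (Fin m) F} (ha : a * a = 1) (x : Fin m ⊕ Fin m → F) :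
    (a : Matrix (Fin m ⊕ Fin m) (Fin m ⊕ Fin m) F) *ᵥ
      ((a : Matrix (Fin m ⊕ Fin m) (Fin m ⊕ Fin m) F) *ᵥ x) = x := by
  rw [← sp_mul_mulVec, ha]; simp

theorem Nm_sq (h2 : (2 : F) = 0) {a : symplecticGroup (Fin m) F} (ha : a * a = 1)
    (x : Fin m ⊕ Fin m → F) : Nm a (Nm a x) = 0 := by
  simp only [Nm_apply, Matrix.mulVec_sub, sq_apply ha]
  ext i
  simp only [Pi.sub_apply, Pi.zero_apply]
  linear_combination (x i - ((a : Matrix (Fin m ⊕ Fin m) (Fin m ⊕ Fin m) F) *ᵥ x) i) * h2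

theorem Nm_adj {a : symplecticGroup (Fin m) F} (ha : a * a = 1) (x y : Fin m ⊕ Fin m → F) :
    sympB m F (Nm a x) y = sympB m F x (Nm a y) := by
  simp only [Nm_apply, map_sub, LinearMap.sub_apply, sympB_apply]
  congr 1
  rw [← sympForm_mulVec m a ((a : Matrix (Fin m ⊕ Fin m) (Fin m ⊕ Fin m) F) *ᵥ x) y, sq_apply ha]

theorem Nm_form (a : symplecticGroup (Fin m) F) (v : Fin m ⊕ Fin m → F) :
    sympB m F v (Nm a v) =
      sympForm m F v ((a : Matrix (Fin m ⊕ Fin m) (Fin m ⊕ Fin m) F) *ᵥ v) := by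
  simp only [Nm_apply, map_sub, sympB_apply, sympForm_self, sub_zero]

theorem isConj_of_equiv {a b : symplecticGroup (Fin m) F}
    (g : (Fin m ⊕ Fin m → F) ≃ₗ[F] (Fin m ⊕ Fin m → F))
    (hg : ∀ x y, sympB m F (g x) (g y) = sympB m F x y)
    (hN : ∀ z, g (Nm a z) = Nm b (g z)) : IsConj a b := by
  have hC : LinearMap.toMatrix' (g : (Fin m ⊕ Fin m → F) →ₗ[F] (Fin m ⊕ Fin m → F)) ∈
      symplecticGroup (Fin m) F := by
    rw [mem_symplecticGroup_iff_sympForm]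
    intro u v
    simp only [LinearMap.toMatrix'_mulVec]
    exact hg u v
  rw [isConj_iff]
  refine ⟨⟨_, hC⟩, ?_⟩
  rw [mul_inv_eq_iff_eq_mul]
  apply sp_ext
  intro x
  rw [sp_mul_mulVec, sp_mul_mulVec]
  simp only [LinearMap.toMatrix'_mulVec]
  have h1 := hN x
  simp only [Nm_apply, map_sub] at h1
  exact sub_left_injective h1

/-- the permutation of vectors given by a symplectic matrix -/
def vecEquiv (c : symplecticGroup (Fin m) F) : (Fin m ⊕ Fin m → F) ≃ (Fin m ⊕ Fin m → F) where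
  toFun x := (c : Matrix (Fin m ⊕ Fin m) (Fin m ⊕ Fin m) F) *ᵥ x
  invFun x := ((c⁻¹ : symplecticGroup (Fin m) F) : Matrix (Fin m ⊕ Fin m) (Fin m ⊕ Fin m) F) *ᵥ x
  left_inv x := by beta_reduce; rw [← sp_mul_mulVec, inv_mul_cancel]; simp
  right_inv x := by beta_reduce; rw [← sp_mul_mulVec, mul_inv_cancel]; simp

theorem form_conj {a b c : symplecticGroup (Fin m) F} (h : c * a = b * c)
    (v : Fin m ⊕ Fin m → F) :
    sympForm m F (vecEquiv c v)
      ((b : Matrix (Fin m ⊕ Fin m) (Fin m ⊕ Fin m) F) *ᵥ (vecEquiv c v)) =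
    sympForm m F v ((a : Matrix (Fin m ⊕ Fin m) (Fin m ⊕ Fin m) F) *ᵥ v) := by
  show sympForm m F ((c : Matrix (Fin m ⊕ Fin m) (Fin m ⊕ Fin m) F) *ᵥ v)
    ((b : Matrix (Fin m ⊕ Fin m) (Fin m ⊕ Fin m) F) *ᵥ
      ((c : Matrix (Fin m ⊕ Fin m) (Fin m ⊕ Fin m) F) *ᵥ v)) = _
  rw [← sp_mul_mulVec, ← h, sp_mul_mulVec, sympForm_mulVec]

theorem rank_conj {a b c : symplecticGroup (Fin m) F} (h : c * a = b * c) :
    ((a : Matrix (Fin m ⊕ Fin m) (Fin m ⊕ Fin m) F) - 1).rank =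
      ((b : Matrix (Fin m ⊕ Fin m) (Fin m ⊕ Fin m) F) - 1).rank := by
  have hdet : IsUnit (c : Matrix (Fin m ⊕ Fin m) (Fin m ⊕ Fin m) F).det :=
    SymplecticGroup.symplectic_det c.2
  have h1 : (c : Matrix (Fin m ⊕ Fin m) (Fin m ⊕ Fin m) F) *
      ((a : Matrix (Fin m ⊕ Fin m) (Fin m ⊕ Fin m) F) - 1) =
      ((b : Matrix (Fin m ⊕ Fin m) (Fin m ⊕ Fin m) F) - 1) *
        (c : Matrix (Fin m ⊕ Fin m) (Fin m ⊕ Fin m) F) := by
    have h2 := congrArg (Subtype.val) h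
    simp only [Submonoid.coe_mul] at h2
    rw [mul_sub, sub_mul, h2, mul_one, one_mul]
  rw [← Matrix.rank_mul_eq_right_of_isUnit_det _ _ hdet, h1,
    Matrix.rank_mul_eq_left_of_isUnit_det _ _ hdet]

theorem card_conj {a b c : symplecticGroup (Fin m) F} (h : c * a = b * c) :
    Nat.card {v : Fin m ⊕ Fin m → F //
      sympForm m F v ((a : Matrix (Fin m ⊕ Fin m) (Fin m ⊕ Fin m) F) *ᵥ v) = 0} =
    Nat.card {v : Fin m ⊕ Fin m → F //
      sympForm m F v ((b : Matrix (Fin m ⊕ Fin m) (Fin m ⊕ Fin m) F) *ᵥ v) = 0} :=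
  Nat.card_congr (Equiv.subtypeEquiv (vecEquiv c) (fun v => by rw [form_conj h]))

theorem alt_conj {a b c : symplecticGroup (Fin m) F} (h : c * a = b * c)
    (ha : ∀ v, sympForm m F v ((a : Matrix (Fin m ⊕ Fin m) (Fin m ⊕ Fin m) F) *ᵥ v) = 0)
    (v : Fin m ⊕ Fin m → F) :
    sympForm m F v ((b : Matrix (Fin m ⊕ Fin m) (Fin m ⊕ Fin m) F) *ᵥ v) = 0 := by
  have h1 := form_conj h ((vecEquiv c).symm v)
  rw [Equiv.apply_symm_apply] at h1
  rw [h1]; exact ha _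

/-- conjugacy criterion for involutions of `Sp` in characteristic two -/
theorem isConj_iff_inv (h2 : (2 : F) = 0) (hsq : ∀ a : F, ∃ c, c * c = a)
    {a b : symplecticGroup (Fin m) F} (ha : a * a = 1) (hb : b * b = 1) :
    IsConj a b ↔ (((a : Matrix (Fin m ⊕ Fin m) (Fin m ⊕ Fin m) F) - 1).rank =
      ((b : Matrix (Fin m ⊕ Fin m) (Fin m ⊕ Fin m) F) - 1).rank ∧
      ((∀ v, sympForm m F v ((a : Matrix (Fin m ⊕ Fin m) (Fin m ⊕ Fin m) F) *ᵥ v) = 0) ↔
       (∀ v, sympForm m F v ((b : Matrix (Fin m ⊕ Fin m) (Fin m ⊕ Fin m) F) *ᵥ v) = 0))) := by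
  constructor
  · intro h
    obtain ⟨c, hc⟩ := isConj_iff.1 h
    rw [mul_inv_eq_iff_eq_mul] at hc
    refine ⟨rank_conj hc, alt_conj hc, ?_⟩
    have hc' : c⁻¹ * b = a * c⁻¹ := by
      rw [inv_mul_eq_iff_eq_mul, ← mul_assoc, hc, mul_assoc, mul_inv_cancel, mul_one]
    exact alt_conj hc'
  · rintro ⟨h1, h3⟩
    obtain ⟨g, hg1, hg2⟩ := conj_of_invariants h2 hsq sympB_nondegenerate sympB_isAlt
      (Nm_sq h2 ha) (Nm_adj ha) (Nm_sq h2 hb) (Nm_adj hb) h1
      (by simpa only [Nm_form] using h3)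
    exact isConj_of_equiv g hg1 hg2

theorem even_rank_of_alt (h2 : (2 : F) = 0) {a : symplecticGroup (Fin m) F} (ha : a * a = 1)
    (h : ∀ v, sympForm m F v ((a : Matrix (Fin m ⊕ Fin m) (Fin m ⊕ Fin m) F) *ᵥ v) = 0) :
    Even ((a : Matrix (Fin m ⊕ Fin m) (Fin m ⊕ Fin m) F) - 1).rank := by
  rw [rank_eq]
  exact even_of_alt h2 sympB_nondegenerate sympB_isAlt (Nm_sq h2 ha) (Nm_adj ha)
    (by simpa only [Nm_form] using h)

theorem forall_of_card_eq {α : Type*} [Finite α] (P : α → Prop)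
    (h : Nat.card {v // P v} = Nat.card α) : ∀ v, P v := by
  classical
  haveI := Fintype.ofFinite α
  by_contra hcon
  push Not at hcon
  obtain ⟨x, hx⟩ := hcon
  have := Fintype.card_subtype_lt hx
  rw [Nat.card_eq_fintype_card, Nat.card_eq_fintype_card] at h
  omega

theorem card_of_forall {α : Type*} (P : α → Prop) (h : ∀ v, P v) :
    Nat.card {v // P v} = Nat.card α :=
  Nat.card_congr (Equiv.subtypeUnivEquiv h)

/-- the size of `V(a)` -/
theorem card_V [Fintype F] (h2 : (2 : F) = 0) (hsq : ∀ a : F, ∃ c, c * c = a)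
    {a : symplecticGroup (Fin m) F} (ha : a * a = 1) :
    Nat.card {v : Fin m ⊕ Fin m → F //
      sympForm m F v ((a : Matrix (Fin m ⊕ Fin m) (Fin m ⊕ Fin m) F) *ᵥ v) = 0} =
        Fintype.card F ^ (2 * m) ∨
    Nat.card {v : Fin m ⊕ Fin m → F //
      sympForm m F v ((a : Matrix (Fin m ⊕ Fin m) (Fin m ⊕ Fin m) F) *ᵥ v) = 0} * Fintype.card F =
        Fintype.card F ^ (2 * m) := by
  have hV : Nat.card (Fin m ⊕ Fin m → F) = Fintype.card F ^ (2 * m) := by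
    rw [Nat.card_eq_fintype_card, Fintype.card_fun, Fintype.card_sum, Fintype.card_fin, two_mul]
  by_cases hall : ∀ v, sympForm m F v ((a : Matrix (Fin m ⊕ Fin m) (Fin m ⊕ Fin m) F) *ᵥ v) = 0
  · left
    rw [card_of_forall _ hall, hV]
  right
  push Not at hall
  obtain ⟨x, hx⟩ := hall
  let φ : (Fin m ⊕ Fin m → F) →+ F :=
    { toFun := fun v => sympB m F v (Nm a v)
      map_zero' := by simp
      map_add' := by
        intro u v
        simp only [map_add, LinearMap.add_apply]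
        rw [gram_symm h2 sympB_isAlt (Nm_adj ha) v u]
        linear_combination (sympB m F u (Nm a v)) * h2 }
  have hφ : ∀ v, φ v = sympForm m F v ((a : Matrix (Fin m ⊕ Fin m) (Fin m ⊕ Fin m) F) *ᵥ v) :=
    fun v => Nm_form a v
  have hsurj : Function.Surjective φ := by
    intro d
    obtain ⟨c, hc⟩ := hsq (d * (φ x)⁻¹)
    refine ⟨c • x, ?_⟩
    show sympB m F (c • x) (Nm a (c • x)) = d
    simp only [map_smul, LinearMap.smul_apply, smul_eq_mul]
    rw [← mul_assoc, hc]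
    show d * (φ x)⁻¹ * φ x = d
    rw [mul_assoc, inv_mul_cancel₀ (by rw [hφ]; exact hx), mul_one]
  have h3 := AddSubgroup.card_mul_index φ.ker
  rw [AddSubgroup.index_ker, AddMonoidHom.range_eq_top.2 hsurj, hV] at h3
  rw [← h3]
  congr 1
  · exact Nat.card_congr (Equiv.subtypeEquivRight (fun v => by rw [AddMonoidHom.mem_ker, hφ]))
  · rw [← Nat.card_eq_fintype_card]
    exact (Nat.card_congr AddSubgroup.topEquiv.toEquiv).symm

end Cfsg.Agent.Lib.Helper16.SpInv
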