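import Mathlib
import Cfsg.Agent.Lib.Helper16.SpInv3

set_option autoImplicit false
set_option linter.unusedSectionVars false

namespace Cfsg.Agent.Lib.Helper16.SpInv

open Cfsg Cfsg.Agent.Lib.Helper6 Cfsg.Agent.Lib.Helper12 Module Matrix

section A

variable {F V : Type*} [Field F] [AddCommGroup V] [Module F V] [FiniteDimensional F V]
  (B : LinearMap.BilinForm F V)

/-- the nilpotent map built from a family -/
noncomputable def mkN {ι : Type*} [Fintype ι] (π : ι → ι) (r : ι → V) : V →ₗ[F] V :=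
  ∑ i, (B.flip (r i)).smulRight (r (π i))

theorem mkN_apply {ι : Type*} [Fintype ι] (π : ι → ι) (r : ι → V) (z : V) :
    mkN B π r z = ∑ i, B z (r i) • r (π i) := by
  simp [mkN, LinearMap.sum_apply]

variable {B}

theorem mkN_nf {ι : Type*} [Fintype ι] (π : ι → ι) (r : ι → V) (hr : LinearIndependent F r)
    (h0 : ∀ i j, B (r i) (r j) = 0) : NF B (mkN B π r) π r :=
  ⟨hr, h0, mkN_apply B π r⟩

theorem mkN_sq {ι : Type*} [Fintype ι] (π : ι → ι) (r : ι → V)
    (h0 : ∀ i j, B (r i) (r j) = 0) (x : V) : mkN B π r (mkN B π r x) = 0 := by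
  rw [mkN_apply B π r (mkN B π r x)]
  apply Finset.sum_eq_zero
  intro i _
  rw [mkN_apply, map_sum, LinearMap.sum_apply]
  simp [h0]

theorem mkN_adj (h2 : (2 : F) = 0) (hA : B.IsAlt) {ι : Type*} [Fintype ι] (π : ι → ι)
    (hπ : Function.Involutive π) (r : ι → V) (x y : V) :
    B (mkN B π r x) y = B x (mkN B π r y) := by
  rw [mkN_apply, mkN_apply, map_sum, map_sum, LinearMap.sum_apply]
  rw [← Equiv.sum_comp (hπ.toPerm π) (fun i => B x (B y (r i) • r (π i)))]
  refine Finset.sum_congr rfl fun i _ => ?_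
  simp only [Function.Involutive.coe_toPerm, hπ i, map_smul, LinearMap.smul_apply, smul_eq_mul]
  have hsw : B (r (π i)) y = - B y (r (π i)) := (hA.neg_eq y (r (π i))).symm
  have : B y (r (π i)) + B y (r (π i)) = 0 := by rw [← two_mul, h2, zero_mul]
  linear_combination (B x (r i)) * hsw - (B x (r i)) * this

end A

variable {F : Type*} [Field F] {m : ℕ}

/-- build a symplectic involution from a nilpotent self-adjoint map -/
theorem exists_sp_of_N (h2 : (2 : F) = 0) (N : (Fin m ⊕ Fin m → F) →ₗ[F] (Fin m ⊕ Fin m → F))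
    (hN2 : ∀ x, N (N x) = 0) (hadj : ∀ x y, sympB m F (N x) y = sympB m F x (N y)) :
    ∃ t : symplecticGroup (Fin m) F, t * t = 1 ∧ Nm t = N := by
  have hmul : ∀ x, (1 + LinearMap.toMatrix' N) *ᵥ x = x + N x := by
    intro x
    rw [Matrix.add_mulVec, Matrix.one_mulVec, LinearMap.toMatrix'_mulVec]
  have hmem : (1 + LinearMap.toMatrix' N) ∈ symplecticGroup (Fin m) F := by
    rw [mem_symplecticGroup_iff_sympForm]
    intro u v
    rw [hmul, hmul, ← sympB_apply, ← sympB_apply]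
    simp only [map_add, LinearMap.add_apply]
    rw [hadj u (N v), hN2, map_zero, hadj u v]
    linear_combination (sympB m F u (N v)) * h2
  refine ⟨⟨_, hmem⟩, ?_, ?_⟩
  · apply sp_ext
    intro x
    rw [sp_mul_mulVec]
    simp only [hmul, map_add, hN2, OneMemClass.coe_one, Matrix.one_mulVec]
    ext i
    simp only [Pi.add_apply, Pi.zero_apply]
    linear_combination (N x i) * h2
  · apply LinearMap.ext
    intro x
    rw [Nm_apply]
    simp only [hmul, add_sub_cancel_left]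

/-- standard totally isotropic family -/
def stdR (F : Type*) [Field F] {m : ℕ} {ι : Type*} (e : ι → Fin m) (i : ι) : Fin m ⊕ Fin m → F :=
  Pi.single (Sum.inl (e i)) 1

theorem stdR_li {ι : Type*} (e : ι → Fin m) (he : Function.Injective e) :
    LinearIndependent F (stdR F e) := by
  have h1 := (Pi.basisFun F (Fin m ⊕ Fin m)).linearIndependent.comp (fun i => Sum.inl (e i))
    (fun i j h => he (Sum.inl_injective h))
  convert h1 using 1
  ext i : 1
  simp [stdR]

theorem stdR_iso {ι : Type*} (e : ι → Fin m) (i j : ι) :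
    sympB m F (stdR F e i) (stdR F e j) = 0 := by
  rw [sympB_apply, sympForm_explicit]
  simp [stdR]

theorem exists_invol (h2 : (2 : F) = 0) {ι : Type*} [Fintype ι] (π : ι → ι)
    (hπ : Function.Involutive π) (e : ι → Fin m) (he : Function.Injective e) :
    ∃ t : symplecticGroup (Fin m) F, t * t = 1 ∧
      ((t : Matrix (Fin m ⊕ Fin m) (Fin m ⊕ Fin m) F) - 1).rank = Fintype.card ι ∧
      ∃ r : ι → (Fin m ⊕ Fin m → F), LinearIndependent F r ∧
      ∀ v, sympForm m F v ((t : Matrix (Fin m ⊕ Fin m) (Fin m ⊕ Fin m) F) *ᵥ v) =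
        ∑ i, sympForm m F v (r i) * sympForm m F v (r (π i)) := by
  obtain ⟨t, ht1, ht2⟩ := exists_sp_of_N h2 (mkN (sympB m F) π (stdR F e))
    (mkN_sq π _ (stdR_iso e)) (mkN_adj h2 sympB_isAlt π hπ _)
  refine ⟨t, ht1, ?_, stdR F e, stdR_li e he, ?_⟩
  · rw [rank_eq, ht2]
    have hnf : NF (sympB m F) (mkN (sympB m F) π (stdR F e)) π (stdR F e) :=
      mkN_nf π _ (stdR_li e he) (stdR_iso e)
    exact hnf.finrank sympB_nondegenerate hπ
  · intro v
    rw [← Nm_form, ht2, mkN_apply, map_sum]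
    simp only [map_smul, smul_eq_mul, sympB_apply]

theorem exists_nonalt (h2 : (2 : F) = 0) (s : ℕ) (hs1 : 1 ≤ s) (hs : s ≤ m) :
    ∃ t : symplecticGroup (Fin m) F, t * t = 1 ∧
      ((t : Matrix (Fin m ⊕ Fin m) (Fin m ⊕ Fin m) F) - 1).rank = s ∧
      ¬ ∀ v, sympForm m F v ((t : Matrix (Fin m ⊕ Fin m) (Fin m ⊕ Fin m) F) *ᵥ v) = 0 := by
  obtain ⟨t, h1, h3, r, hr, h4⟩ := exists_invol (F := F) h2 (id : Fin s → Fin s) (fun _ => rfl)
    (Fin.castLE hs) (Fin.castLE_injective hs)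
  refine ⟨t, h1, by simpa using h3, fun hall => ?_⟩
  obtain ⟨z, hz⟩ := exists_dual (B := sympB m F) sympB_nondegenerate r hr
    (fun i => if i = ⟨0, hs1⟩ then 1 else 0)
  have h5 := h4 z
  rw [hall z] at h5
  simp only [sympB_apply] at hz
  simp [hz] at h5

theorem exists_alt (h2 : (2 : F) = 0) (k : ℕ) (hk : 2 * k ≤ m) :
    ∃ t : symplecticGroup (Fin m) F, t * t = 1 ∧
      ((t : Matrix (Fin m ⊕ Fin m) (Fin m ⊕ Fin m) F) - 1).rank = 2 * k ∧
      ∀ v, sympForm m F v ((t : Matrix (Fin m ⊕ Fin m) (Fin m ⊕ Fin m) F) *ᵥ v) = 0 := by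
  obtain ⟨t, h1, h3, r, hr, h4⟩ := exists_invol (F := F) h2
    (Sum.swap : Fin k ⊕ Fin k → Fin k ⊕ Fin k) Sum.swap_swap
    (fun i => Fin.castLE (by omega : k + k ≤ m) (finSumFinEquiv i))
    (fun i j h => finSumFinEquiv.injective (Fin.castLE_injective _ h))
  refine ⟨t, h1, by simpa [two_mul] using h3, fun v => ?_⟩
  rw [h4, Fintype.sum_sum_type]
  simp only [Sum.swap_inl, Sum.swap_inr]
  rw [← Finset.sum_add_distrib]
  apply Finset.sum_eq_zero
  intro i _
  linear_combination (sympForm m F v (r (Sum.inl i)) * sympForm m F v (r (Sum.inr i))) * h2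

theorem rank_le (h2 : (2 : F) = 0) {a : symplecticGroup (Fin m) F} (ha : a * a = 1) :
    ((a : Matrix (Fin m ⊕ Fin m) (Fin m ⊕ Fin m) F) - 1).rank ≤ m := by
  rw [rank_eq]
  have h1 := LinearMap.finrank_range_add_finrank_ker (Nm a)
  have h3 : LinearMap.range (Nm a) ≤ LinearMap.ker (Nm a) := by
    rintro _ ⟨x, rfl⟩
    exact Nm_sq h2 ha x
  have h4 := Submodule.finrank_mono h3
  have h5 : finrank F (Fin m ⊕ Fin m → F) = 2 * m := by simp [two_mul]
  omega

theorem rank_pos {a : symplecticGroup (Fin m) F} (ha : a ≠ 1) :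
    1 ≤ ((a : Matrix (Fin m ⊕ Fin m) (Fin m ⊕ Fin m) F) - 1).rank := by
  rw [rank_eq, Nat.one_le_iff_ne_zero]
  intro h
  rw [Submodule.finrank_eq_zero, LinearMap.range_eq_bot] at h
  apply ha
  apply sp_ext
  intro x
  have := LinearMap.congr_fun h x
  rw [Nm_apply, LinearMap.zero_apply, sub_eq_zero] at this
  rw [this]; simp

end Cfsg.Agent.Lib.Helper16.SpInv
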