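import Mathlib
import Cfsg.Agent.Lib.Helper16.OInv2
import Cfsg.Agent.Lib.Helper16.SpInv4

set_option autoImplicit false
set_option linter.unusedSectionVars false

namespace Cfsg.Agent.Lib.Helper16.OInv

open Cfsg Module QuadraticMap Matrix Cfsg.Agent.Lib.Helper16.SpInv Cfsg.Agent.Lib.Helper16.POAut

variable {F : Type*} [Field F] {ι : Type} [Fintype ι] [DecidableEq ι]
  {Q : QuadraticForm F (ι → F)}

theorem exists_O_of_N (h2 : (2 : F) = 0) (N : (ι → F) →ₗ[F] (ι → F))
    (hN2 : ∀ x, N (N x) = 0) (hQN : ∀ x, Q (x + N x) = Q x) :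
    ∃ t : ↥(isometryGroup F ⇑Q), t * t = 1 ∧ NG (t : GL ι F) = N := by
  have hmul : ∀ x, (1 + LinearMap.toMatrix' N) *ᵥ x = x + N x := by
    intro x
    rw [Matrix.add_mulVec, Matrix.one_mulVec, LinearMap.toMatrix'_mulVec]
  have hMM : (1 + LinearMap.toMatrix' N) * (1 + LinearMap.toMatrix' N) = 1 := by
    apply Matrix.ext_iff_mulVec.mpr
    intro x
    rw [← mulVec_mulVec, hmul, hmul]
    simp only [map_add, hN2, Matrix.one_mulVec]
    ext i
    simp only [Pi.add_apply, Pi.zero_apply]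
    linear_combination (N x i) * h2
  let T : GL ι F := ⟨_, _, hMM, hMM⟩
  have hT : ∀ x, (T : Matrix ι ι F) *ᵥ x = x + N x := hmul
  have hmem : T ∈ isometryGroup F ⇑Q := by
    rw [mem_iso_iff]
    intro v
    rw [hT, hQN]
  refine ⟨⟨T, hmem⟩, ?_, ?_⟩
  · apply Subtype.ext
    exact Units.ext hMM
  · apply LinearMap.ext
    intro x
    rw [NG_apply]
    show (T : Matrix ι ι F) *ᵥ x - x = N x
    rw [hT, add_sub_cancel_left]

theorem exists_invol_O (h2 : (2 : F) = 0) (hB : (polarBilin Q).Nondegenerate)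
    {κ : Type*} [Fintype κ] [DecidableEq κ] (π : κ → κ)
    (hπ : Function.Involutive π) (r : κ → (ι → F)) (hli : LinearIndependent F r)
    (h0 : ∀ i j, polarBilin Q (r i) (r j) = 0)
    (hQr : ∀ i, Q (r i) = if i = π i then 1 else 0)
    (hsum : ∀ b : κ → F, ∑ i, (b i * b i * (if π i = π (π i) then 1 else 0) + b i * b (π i)) = 0) :
    ∃ t : ↥(isometryGroup F ⇑Q), t * t = 1 ∧
      (((t : GL ι F) : Matrix ι ι F) - 1).rank = Fintype.card κ ∧
      ∀ v, polarBilin Q v (((t : GL ι F) : Matrix ι ι F) *ᵥ v) =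
        ∑ i, polarBilin Q v (r i) * polarBilin Q v (r (π i)) := by
  have hform : ∀ v, polarBilin Q v (mkN (polarBilin Q) π r v) =
      ∑ i, polarBilin Q v (r i) * polarBilin Q v (r (π i)) := by
    intro v
    rw [mkN_apply, map_sum]
    simp only [map_smul, smul_eq_mul]
  obtain ⟨t, ht1, ht2⟩ := exists_O_of_N (Q := Q) h2 (mkN (polarBilin Q) π r)
    (mkN_sq π _ h0) (fun x => by
      rw [QuadraticMap.map_add (⇑Q), ← polarBilin_apply_apply, hform, mkN_apply,
        Q_sum Q (fun i => r (π i)) (fun i j => h0 _ _) (fun i => polarBilin Q x (r i)) Finset.univ]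
      simp only [hQr]
      rw [add_assoc, ← Finset.sum_add_distrib, hsum, add_zero])
  refine ⟨t, ht1, ?_, ?_⟩
  · rw [rank_eq, ht2]
    have hnf : NF (polarBilin Q) (mkN (polarBilin Q) π r) π r := mkN_nf π _ hli h0
    exact hnf.finrank hB hπ
  · intro v
    rw [← NG_form h2, ht2, hform]

theorem exists_nonalt_O (h2 : (2 : F) = 0) (hB : (polarBilin Q).Nondegenerate)
    {κ : Type*} [Fintype κ] (R : κ → (ι → F)) (hli : LinearIndependent F R)
    (h0 : ∀ i j, polarBilin Q (R i) (R j) = 0) (hQR : ∀ i, Q (R i) = 1)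
    (s : ℕ) (hs1 : 1 ≤ s) (hs : s ≤ Fintype.card κ) :
    ∃ t : ↥(isometryGroup F ⇑Q), t * t = 1 ∧
      (((t : GL ι F) : Matrix ι ι F) - 1).rank = s ∧
      ¬ ∀ v, polarBilin Q v (((t : GL ι F) : Matrix ι ι F) *ᵥ v) = 0 := by
  obtain ⟨e⟩ := Function.Embedding.nonempty_of_card_le (α := Fin s) (β := κ) (by simpa using hs)
  have hli' : LinearIndependent F (fun i => R (e i)) := hli.comp e e.injective
  obtain ⟨t, h1, h3, h4⟩ := exists_invol_O (Q := Q) h2 hB (id : Fin s → Fin s) (fun _ => rfl)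
    (fun i => R (e i)) hli' (fun i j => h0 _ _) (fun i => by simp [hQR])
    (fun b => by
      apply Finset.sum_eq_zero
      intro i _
      simp only [id, if_true]
      linear_combination (b i * b i) * h2)
  refine ⟨t, h1, by simpa using h3, fun hall => ?_⟩
  obtain ⟨z, hz⟩ := exists_dual hB _ hli' (fun i => if i = ⟨0, hs1⟩ then 1 else 0)
  have h5 := h4 z
  rw [hall z] at h5
  simp [hz] at h5

theorem exists_alt_O (h2 : (2 : F) = 0) (hB : (polarBilin Q).Nondegenerate)
    {κ : Type*} [Fintype κ] (R : κ → (ι → F)) (hli : LinearIndependent F R)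
    (h0 : ∀ i j, polarBilin Q (R i) (R j) = 0) (hQR : ∀ i, Q (R i) = 0)
    (k : ℕ) (hk : 2 * k ≤ Fintype.card κ) :
    ∃ t : ↥(isometryGroup F ⇑Q), t * t = 1 ∧
      (((t : GL ι F) : Matrix ι ι F) - 1).rank = 2 * k ∧
      ∀ v, polarBilin Q v (((t : GL ι F) : Matrix ι ι F) *ᵥ v) = 0 := by
  obtain ⟨e⟩ := Function.Embedding.nonempty_of_card_le (α := Fin k ⊕ Fin k) (β := κ)
    (by simpa [two_mul] using hk)
  have hli' : LinearIndependent F (fun i => R (e i)) := hli.comp e e.injective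
  obtain ⟨t, h1, h3, h4⟩ := exists_invol_O (Q := Q) h2 hB
    (Sum.swap : Fin k ⊕ Fin k → Fin k ⊕ Fin k) Sum.swap_swap
    (fun i => R (e i)) hli' (fun i j => h0 _ _)
    (fun i => by rcases i with i | i <;> simp [hQR])
    (fun b => by
      rw [Fintype.sum_sum_type]
      simp only [Sum.swap_inl, Sum.swap_inr, reduceCtorEq, if_false, mul_zero, zero_add]
      rw [← Finset.sum_add_distrib]
      apply Finset.sum_eq_zero
      intro i _
      linear_combination (b (Sum.inl i) * b (Sum.inr i)) * h2)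
  refine ⟨t, h1, by simpa [two_mul] using h3, fun v => ?_⟩
  rw [h4, Fintype.sum_sum_type]
  simp only [Sum.swap_inl, Sum.swap_inr]
  rw [← Finset.sum_add_distrib]
  apply Finset.sum_eq_zero
  intro i _
  linear_combination (polarBilin Q v (R (e (Sum.inl i))) * polarBilin Q v (R (e (Sum.inr i)))) * h2

theorem rank_le (h2 : (2 : F) = 0) {a : GL ι F} (ha : a * a = 1) :
    2 * ((a : Matrix ι ι F) - 1).rank ≤ Fintype.card ι := by
  rw [rank_eq]
  have h1 := LinearMap.finrank_range_add_finrank_ker (NG a)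
  have h3 : LinearMap.range (NG a) ≤ LinearMap.ker (NG a) := by
    rintro _ ⟨x, rfl⟩
    exact NG_sq h2 ha x
  have h4 := Submodule.finrank_mono h3
  have h5 : finrank F (ι → F) = Fintype.card ι := by simp
  omega

theorem rank_pos {a : GL ι F} (ha : a ≠ 1) : 1 ≤ ((a : Matrix ι ι F) - 1).rank := by
  rw [rank_eq, Nat.one_le_iff_ne_zero]
  intro h
  rw [Submodule.finrank_eq_zero, LinearMap.range_eq_bot] at h
  apply ha
  apply gl_ext
  intro x
  have := LinearMap.congr_fun h x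
  rw [NG_apply, LinearMap.zero_apply, sub_eq_zero] at this
  rw [this]; simp

theorem even_rank_of_alt (h2 : (2 : F) = 0) (hB : (polarBilin Q).Nondegenerate)
    {t : ↥(isometryGroup F ⇑Q)} (ht : t * t = 1)
    (h : ∀ v, polarBilin Q v (((t : GL ι F) : Matrix ι ι F) *ᵥ v) = 0) :
    Even (((t : GL ι F) : Matrix ι ι F) - 1).rank := by
  rw [rank_eq]
  exact even_of_alt h2 hB (polar_isAlt Q h2) (NG_sq h2 (coe_sq ht))
    (NG_adj (PB_of_iso t.2) (coe_sq ht)) (by simpa only [NG_form h2] using h)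

theorem range_singular (h2 : (2 : F) = 0) {t : ↥(isometryGroup F ⇑Q)}
    (h : ∀ v, polarBilin Q v (((t : GL ι F) : Matrix ι ι F) *ᵥ v) = 0) :
    ∀ u ∈ LinearMap.range (NG (t : GL ι F)), Q u = 0 := by
  rintro _ ⟨x, rfl⟩
  rw [Q_N h2 (NG_Q t.2), NG_form h2, h]

end Cfsg.Agent.Lib.Helper16.OInv
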