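import Mathlib
import Cfsg.Agent.Lib.Helper16.OInv3
import Cfsg.Agent.Lib.Helper16.StdForms
import Cfsg.Agent.Lib.Helper16.QuadForm2

set_option autoImplicit false
set_option linter.unusedSectionVars false

namespace Cfsg.Agent.Lib.Helper16.OInv

open Cfsg Module QuadraticMap Matrix Cfsg.Agent.Lib.Helper16.SpInv Cfsg.Agent.Lib.Helper16.POAut

variable {F : Type*} [Field F] {ι : Type} [Fintype ι] [DecidableEq ι]
  {Q : QuadraticForm F (ι → F)}

/-- number of classes of involutions in `O(Q)`, characteristic two -/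
theorem card_classes [Finite F] (h2 : (2 : F) = 0) (hsq : ∀ a : F, ∃ c, c * c = a)
    (hB : (polarBilin Q).Nondegenerate) (m w : ℕ) (hcard : Fintype.card ι = 2 * m)
    {κ : Type*} [Fintype κ] (R : κ → (ι → F)) (hli : LinearIndependent F R)
    (h0 : ∀ i j, polarBilin Q (R i) (R j) = 0) (hQR : ∀ i, Q (R i) = 1) (hκ : Fintype.card κ = m)
    {κ' : Type*} [Fintype κ'] (R' : κ' → (ι → F)) (hli' : LinearIndependent F R')
    (h0' : ∀ i j, polarBilin Q (R' i) (R' j) = 0) (hQR' : ∀ i, Q (R' i) = 0)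
    (hκ' : Fintype.card κ' = w)
    (hw : ∀ U : Submodule F (ι → F), (∀ u ∈ U, Q u = 0) → finrank F U ≤ w) :
    Nat.card {C : ConjClasses ↥(isometryGroup F ⇑Q) //
      ∃ g : ↥(isometryGroup F ⇑Q), ConjClasses.mk g = C ∧ orderOf g = 2} = m + w / 2 := by
  classical
  let alt : ↥(isometryGroup F ⇑Q) → Prop := fun t =>
    ∀ v, polarBilin Q v (((t : GL ι F) : Matrix ι ι F) *ᵥ v) = 0
  let rk : ↥(isometryGroup F ⇑Q) → ℕ := fun t => (((t : GL ι F) : Matrix ι ι F) - 1).rank
  let spec : Fin m ⊕ Fin (w / 2) → ↥(isometryGroup F ⇑Q) → Prop := fun x t =>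
    t * t = 1 ∧ rk t = Sum.elim (fun i : Fin m => (i : ℕ) + 1)
      (fun j : Fin (w / 2) => 2 * ((j : ℕ) + 1)) x ∧ (alt t ↔ x.isRight = true)
  have H1 : ∀ x, ∃ t, spec x t := by
    rintro (i | j)
    · obtain ⟨t, h1, h3, h4⟩ := exists_nonalt_O h2 hB R hli h0 hQR ((i : ℕ) + 1) (by omega)
        (by have := i.2; omega)
      exact ⟨t, h1, h3, by simpa [alt] using h4⟩
    · obtain ⟨t, h1, h3, h4⟩ := exists_alt_O h2 hB R' hli' h0' hQR' ((j : ℕ) + 1)
        (by have := j.2; omega)
      exact ⟨t, h1, h3, by simpa [alt] using h4⟩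
  have H5 : ∀ x t, spec x t → orderOf t = 2 := by
    intro x t ⟨h1, h3, _⟩
    apply orderOf_eq_prime (by rw [_root_.sq, h1])
    rintro rfl
    have : rk (1 : ↥(isometryGroup F ⇑Q)) = 0 := by simp [rk]
    rw [this] at h3
    rcases x with i | j <;> simp at h3
  have H2 : ∀ t, orderOf t = 2 → ∃ x, spec x t := by
    intro t ht
    have h1 : t * t = 1 := by rw [← _root_.sq, ← ht, pow_orderOf_eq_one]
    have hne : t ≠ 1 := by
      rintro rfl
      simp at ht
    have h3 := rank_le h2 (coe_sq h1)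
    have h4 := rank_pos (a := (t : GL ι F)) (fun h => hne (Subtype.ext h))
    by_cases ha : alt t
    · obtain ⟨k, hk⟩ := even_rank_of_alt h2 hB h1 ha
      have h5 := hw _ (range_singular h2 ha)
      rw [← rank_eq] at h5
      refine ⟨Sum.inr ⟨k - 1, by omega⟩, h1, ?_, by simpa using ha⟩
      show (((t : GL ι F) : Matrix ι ι F) - 1).rank = 2 * (k - 1 + 1)
      omega
    · refine ⟨Sum.inl ⟨rk t - 1, by simp only [rk]; omega⟩, h1, ?_, by simpa using ha⟩
      show (((t : GL ι F) : Matrix ι ι F) - 1).rank = (((t : GL ι F) : Matrix ι ι F) - 1).rank - 1 + 1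
      omega
  have H3 : ∀ x t t', spec x t → spec x t' → IsConj t t' := by
    intro x t t' ⟨h1, h3, h4⟩ ⟨h1', h3', h4'⟩
    rw [isConj_iff_inv h2 hsq hB h1 h1']
    exact ⟨h3.trans h3'.symm, h4.trans h4'.symm⟩
  have H4 : ∀ x x' t t', spec x t → spec x' t' → IsConj t t' → x = x' := by
    intro x x' t t' ⟨h1, h3, h4⟩ ⟨h1', h3', h4'⟩ hc
    rw [isConj_iff_inv h2 hsq hB h1 h1'] at hc
    obtain ⟨e1, e2⟩ := hc
    have e1' : rk t = rk t' := e1
    have e2' : alt t ↔ alt t' := e2
    rw [h3, h3'] at e1'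
    rw [h4, h4'] at e2'
    rcases x with i | j <;> rcases x' with i' | j'
    · simp only [Sum.elim_inl] at e1'
      congr 1; apply Fin.ext; omega
    · simp at e2'
    · simp at e2'
    · simp only [Sum.elim_inr] at e1'
      congr 1; apply Fin.ext; omega
  have hbij : Function.Bijective (fun x : Fin m ⊕ Fin (w / 2) =>
      (⟨ConjClasses.mk (H1 x).choose, (H1 x).choose, rfl, H5 x _ (H1 x).choose_spec⟩ :
        {C : ConjClasses ↥(isometryGroup F ⇑Q) //
          ∃ g : ↥(isometryGroup F ⇑Q), ConjClasses.mk g = C ∧ orderOf g = 2})) := by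
    constructor
    · intro x x' h
      have h' := congrArg Subtype.val h
      simp only [ConjClasses.mk_eq_mk_iff_isConj] at h'
      exact H4 x x' _ _ (H1 x).choose_spec (H1 x').choose_spec h'
    · rintro ⟨_, g, rfl, hg⟩
      obtain ⟨x, hx⟩ := H2 g hg
      refine ⟨x, Subtype.ext ?_⟩
      simp only [ConjClasses.mk_eq_mk_iff_isConj]
      exact H3 x _ _ (H1 x).choose_spec hx
  rw [← Nat.card_congr (Equiv.ofBijective _ hbij)]
  simp

section Hyp

variable {V : Type*} [AddCommGroup V] [Module F V] {P : QuadraticForm F V}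

/-- the family `e i + f i` (and possibly extra vectors) -/
theorem hyp_on (h2 : (2 : F) = 0) {k : ℕ} {e f : Fin k → V} (hs : HypSystem P e f)
    {κ : Type*} [Fintype κ] (c : κ → V) (hc : LinearIndependent F c)
    (hce : ∀ i j, polar P (e i) (c j) = 0 ∧ polar P (f i) (c j) = 0)
    (hcc : ∀ i j, polar P (c i) (c j) = 0) (hc1 : ∀ i, P (c i) = 1) :
    LinearIndependent F (Sum.elim (fun i => e i + f i) c) ∧
    (∀ i j, polarBilin P (Sum.elim (fun i => e i + f i) c i) (Sum.elim (fun i => e i + f i) c j) = 0) ∧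
    ∀ i, P (Sum.elim (fun i => e i + f i) c i) = 1 := by
  classical
  have hli := hyp_linIndep P e f hs c hc hce
  obtain ⟨h1, h3, h4, h5, h6⟩ := hs
  refine ⟨?_, ?_, ?_⟩
  · rw [Fintype.linearIndependent_iff] at hli ⊢
    intro g hg
    have := hli (Sum.elim (Sum.elim (fun i => g (Sum.inl i)) (fun i => g (Sum.inl i)))
      (fun j => g (Sum.inr j))) (by
        rw [← hg]
        simp only [Fintype.sum_sum_type, Sum.elim_inl, Sum.elim_inr, smul_add,
          Finset.sum_add_distrib])
    rintro (i | j)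
    · exact this (Sum.inl (Sum.inl i))
    · exact this (Sum.inr j)
  · rintro (i | i) (j | j)
    · simp only [Sum.elim_inl, polarBilin_apply_apply, polar_add_left, polar_add_right, h4, h5, h6,
        polar_comm (⇑P) (f i) (e j)]
      by_cases hij : i = j
      · subst hij; simp only [if_true]; linear_combination h2
      · rw [if_neg hij, if_neg (Ne.symm hij)]; ring
    · simp only [Sum.elim_inl, Sum.elim_inr, polarBilin_apply_apply, polar_add_left, (hce i j).1,
        (hce i j).2, add_zero]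
    · simp only [Sum.elim_inl, Sum.elim_inr, polarBilin_apply_apply]
      rw [polar_comm, polar_add_left, (hce j i).1, (hce j i).2, add_zero]
    · simp only [Sum.elim_inr, polarBilin_apply_apply, hcc]
  · rintro (i | i)
    · simp only [Sum.elim_inl]
      rw [QuadraticMap.map_add (⇑P), h1, h3, h4]; simp
    · exact hc1 i

end Hyp

end Cfsg.Agent.Lib.Helper16.OInv
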