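import Cfsg.Agent.Lib.Helper16.Orth15

set_option autoImplicit false

namespace Cfsg.Agent.Lib.Helper16

open Cfsg.Agent.Lib.Helper6 Module

section Abstract

variable {F V : Type*} [Field F] [AddCommGroup V] [Module F V] (Q : QuadraticForm F V)

local notation "P" => QuadraticMap.polarBilin Q

/-- Siegel maps are products of reflections when the Witt index is at most one -/
theorem siegel_mem' [FiniteDimensional F V] (G : Subgroup (V ≃ₗ[F] V))
    (hG : ∀ a a', Q a = Q a' → Q a ≠ 0 → reflE Q a * reflE Q a' ∈ G)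
    (hsplit : ∀ w u, Q w = 0 → Q u = 0 → P u w = 0 → w ≠ 0 → u ∈ Submodule.span F {w})
    (w u : V) (hw : Q w = 0) (huw : P u w = 0) : ∃ g ∈ G, ∀ z, g z = siegL Q w u z := by
  have key : ∀ t, P t w = 0 → Q t ≠ 0 → ∃ g ∈ G, ∀ z, g z = siegL Q w t z := by
    intro t htw ht
    refine ⟨reflE Q t * reflE Q (t - Q t • w), hG _ _ ?_ ht, fun z => ?_⟩
    · rw [wq_sub, wq_smul, hw, map_smul, htw]; simp
    · rw [LinearEquiv.mul_apply, siegL_eq_refl Q w t hw htw ht]
  by_cases hu : Q u = 0
  · by_cases hw0 : w = 0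
    · subst hw0
      exact ⟨1, G.one_mem, fun z => (siegL_zero_left Q u z).symm⟩
    obtain ⟨c, rfl⟩ := Submodule.mem_span_singleton.1 (hsplit w u hw hu huw hw0)
    exact ⟨1, G.one_mem, fun z => (siegL_smul_self Q w c hw z).symm⟩
  · exact key u huw hu

theorem cartan_dieudonne' [FiniteDimensional F V] (hQ : (P).Nondegenerate)
    (hsplit : ∀ w u, Q w = 0 → Q u = 0 → P u w = 0 → w ≠ 0 → u ∈ Submodule.span F {w}) :
    Subgroup.closure (Set.range (reflE Q)) = OG Q := by
  apply gen_top Q _ _ _ _ hQ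
  · rw [Subgroup.closure_le]
    rintro _ ⟨v, rfl⟩
    exact reflE_mem Q v
  · intro v
    exact Subgroup.subset_closure (Set.mem_range_self v)
  · intro w u hw huw
    exact siegel_mem' Q _ (fun a a' _ _ => Subgroup.mul_mem _
      (Subgroup.subset_closure (Set.mem_range_self a))
      (Subgroup.subset_closure (Set.mem_range_self a'))) hsplit w u hw huw

theorem exists_eps' [Fintype F] [FiniteDimensional F V] (hQ : (P).Nondegenerate)
    (hcd : Subgroup.closure (Set.range (reflE Q)) = OG Q) :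
    ∃ ε : ↥(OG Q) →* ℤˣ, (∀ v, Q v ≠ 0 → ε (rO Q v) = -1) ∧
      ∀ g : ↥(OG Q), ε g = delta (g : V ≃ₗ[F] V) * delta (1 : V ≃ₗ[F] V) := by
  have key : ∀ g ∈ OG Q, ∀ h ∈ OG Q, delta (h * g) * delta (1 : V ≃ₗ[F] V) = delta h * delta g := by
    intro g hg
    rw [← hcd] at hg
    induction hg using Subgroup.closure_induction with
    | mem x hx =>
      obtain ⟨v, rfl⟩ := hx
      intro h hh
      by_cases hv : Q v = 0
      · have : reflE Q v = 1 := by
          ext z
          rw [reflE_apply, hv]; simp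
        rw [this, mul_one, mul_comm]
      · rw [delta_mul_refl Q hQ hh v hv]
        have := delta_mul_refl Q hQ (OG Q).one_mem v hv
        rw [one_mul] at this
        rw [this]
        simp
    | one =>
      intro h _
      rw [mul_one]
    | mul x y hx hy ihx ihy =>
      intro h hh
      have hxO : x ∈ OG Q := hcd ▸ hx
      have e1 := ihy (h * x) ((OG Q).mul_mem hh hxO)
      have e2 := ihx h hh
      have e3 := ihy x hxO
      have d1 := delta_mul_self (1 : V ≃ₗ[F] V)
      rw [← mul_assoc]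
      calc delta (h * x * y) * delta (1 : V ≃ₗ[F] V) = delta (h * x) * delta y := e1
        _ = (delta (h * x) * delta (1 : V ≃ₗ[F] V)) * delta (1 : V ≃ₗ[F] V) * delta y := by
            rw [mul_assoc (delta (h * x)), d1, mul_one]
        _ = delta h * (delta x * delta y) * delta (1 : V ≃ₗ[F] V) := by
            rw [e2]; ac_rfl
        _ = delta h * (delta (x * y) * delta (1 : V ≃ₗ[F] V)) * delta (1 : V ≃ₗ[F] V) := by rw [e3]
        _ = delta h * delta (x * y) := by
            rw [mul_assoc, mul_assoc, d1, mul_one]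
    | inv x hx ih =>
      intro h hh
      have hxO : x ∈ OG Q := hcd ▸ hx
      have hxi : x⁻¹ ∈ OG Q := (OG Q).inv_mem hxO
      have e1 := ih (h * x⁻¹) ((OG Q).mul_mem hh hxi)
      have e2 := ih x⁻¹ hxi
      rw [inv_mul_cancel_right] at e1
      rw [inv_mul_cancel] at e2
      have d1 := delta_mul_self (1 : V ≃ₗ[F] V)
      have dx := delta_mul_self x
      have e3 : delta x⁻¹ = delta x := by
        calc delta x⁻¹ = delta x⁻¹ * (delta x * delta x) := by rw [dx, mul_one]
          _ = (delta x⁻¹ * delta x) * delta x := by rw [mul_assoc]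
          _ = delta x := by rw [← e2, d1, one_mul]
      calc delta (h * x⁻¹) * delta (1 : V ≃ₗ[F] V)
          = (delta (h * x⁻¹) * delta x) * delta x * delta (1 : V ≃ₗ[F] V) := by
            rw [mul_assoc (delta (h * x⁻¹)), dx, mul_one]
        _ = delta h * delta x * (delta (1 : V ≃ₗ[F] V) * delta (1 : V ≃ₗ[F] V)) := by
            rw [← e1]; ac_rfl
        _ = delta h * delta x⁻¹ := by rw [d1, mul_one, e3]
  refine ⟨MonoidHom.mk' (fun g => delta (g : V ≃ₗ[F] V) * delta (1 : V ≃ₗ[F] V)) ?_, ?_, fun g => rfl⟩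
  · intro a b
    have := key b.1 b.2 a.1 a.2
    have d1 := delta_mul_self (1 : V ≃ₗ[F] V)
    change delta (a.1 * b.1) * delta (1 : V ≃ₗ[F] V) = _
    rw [this]
    calc delta a.1 * delta b.1 = delta a.1 * delta b.1 * (delta (1 : V ≃ₗ[F] V) * delta (1 : V ≃ₗ[F] V)) := by
          rw [d1, mul_one]
      _ = _ := by ac_rfl
  · intro v hv
    change delta (reflE Q v) * delta (1 : V ≃ₗ[F] V) = -1
    have := delta_mul_refl Q hQ (OG Q).one_mem v hv
    rw [one_mul] at this
    rw [this, neg_mul, delta_mul_self]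

theorem exists_list_refl' [Fintype F] [FiniteDimensional F V] (hQ : (P).Nondegenerate)
    (hcd : Subgroup.closure (Set.range (reflE Q)) = OG Q) (g : ↥(OG Q)) :
    ∃ vs : List V, (∀ v ∈ vs, Q v ≠ 0) ∧ g = (vs.map (rO Q)).prod := by
  have hg : g.1 ∈ Subgroup.closure (Set.range (reflE Q)) := by rw [hcd]; exact g.2
  have key : ∀ x ∈ Subgroup.closure (Set.range (reflE Q)),
      ∃ vs : List V, (∀ v ∈ vs, Q v ≠ 0) ∧ x = (vs.map (reflE Q)).prod := by
    intro x hx
    induction hx using Subgroup.closure_induction with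
    | mem x hx =>
      obtain ⟨v, rfl⟩ := hx
      by_cases hv : Q v = 0
      · refine ⟨[], by simp, ?_⟩
        ext z
        rw [reflE_apply, hv]; simp
      · exact ⟨[v], by simpa using hv, by simp⟩
    | one => exact ⟨[], by simp, by simp⟩
    | mul x y _ _ ihx ihy =>
      obtain ⟨l1, h1, e1⟩ := ihx
      obtain ⟨l2, h2, e2⟩ := ihy
      refine ⟨l1 ++ l2, ?_, by rw [List.map_append, List.prod_append, e1, e2]⟩
      intro v hv
      rcases List.mem_append.1 hv with h | h
      · exact h1 v h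
      · exact h2 v h
    | inv x _ ih =>
      obtain ⟨l, h1, e1⟩ := ih
      refine ⟨l.reverse, fun v hv => h1 v (List.mem_reverse.1 hv), ?_⟩
      have hm : List.map ((fun x => x⁻¹) ∘ reflE Q) l = List.map (reflE Q) l :=
        List.map_congr_left (fun v _ => reflE_inv Q v)
      rw [e1, List.prod_inv_reverse, List.map_map, List.map_reverse, hm]
  obtain ⟨vs, h1, h2⟩ := key g.1 hg
  exact ⟨vs, h1, Subtype.ext (by rw [h2, coe_prod_rO])⟩

theorem omega_iff_even' [Fintype F] [FiniteDimensional F V] (h2 : (2 : F) = 0) (hQ : (P).Nondegenerate)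
    (hcd : Subgroup.closure (Set.range (reflE Q)) = OG Q) :
    ∃ (ε : ↥(OG Q) →* ℤˣ), (∀ v, Q v ≠ 0 → ε (rO Q v) = -1) ∧
      (∀ g : ↥(OG Q), ε g = delta (g : V ≃ₗ[F] V) * delta (1 : V ≃ₗ[F] V)) ∧
      ∀ g, g ∈ commutator ↥(OG Q) ↔ ε g = 1 := by
  obtain ⟨ε, hε, hε'⟩ := exists_eps' Q hQ hcd
  refine ⟨ε, hε, hε', fun g => ⟨fun hg => hom_eq_one_of_mem_comm ε hg, ?_⟩⟩
  intro h1
  obtain ⟨vs, hvs, rfl⟩ := exists_list_refl' Q hQ hcd g
  rw [hom_prod_len Q ε vs (fun v hv => hε v (hvs v hv)), neg_one_pow_units] at h1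
  have hch : ringChar F = 2 := CharP.ringChar_of_prime_eq_zero Nat.prime_two (by exact_mod_cast h2)
  exact prod_mem_comm Q hQ vs hvs h1 (FiniteField.isSquare_of_char_two hch _)

theorem prod_mem_comm_iff_even' [Fintype F] [FiniteDimensional F V] (h2 : (2 : F) = 0)
    (hQ : (P).Nondegenerate) (hcd : Subgroup.closure (Set.range (reflE Q)) = OG Q)
    (vs : List V) (hvs : ∀ v ∈ vs, Q v ≠ 0) :
    (vs.map (rO Q)).prod ∈ commutator ↥(OG Q) ↔ Even vs.length := by
  obtain ⟨ε, hε, -, hiff⟩ := omega_iff_even' Q h2 hQ hcd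
  rw [hiff, hom_prod_len Q ε vs (fun v hv => hε v (hvs v hv)), neg_one_pow_units]

end Abstract

section Rank

open Matrix Cfsg

variable {F : Type*} [Field F] {ι : Type} [Fintype ι] [DecidableEq ι] (Q : QuadraticForm F (ι → F))

/-- the Dickson homomorphism on the matrix group -/
theorem exists_dickson [Fintype F] (h2 : (2 : F) = 0)
    (hQ : (QuadraticMap.polarBilin Q).Nondegenerate)
    (hcd : Subgroup.closure (Set.range (reflE Q)) = OG Q) :
    ∃ ε : ↥(isometryGroup F ⇑Q) →* ℤˣ, (∀ g, g ∈ Omega F ⇑Q ↔ ε g = 1) ∧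
      ∀ g : ↥(isometryGroup F ⇑Q), ε g = 1 ↔ Even (((g : GL ι F) : Matrix ι ι F) - 1).rank := by
  obtain ⟨ε, -, hε, hiff⟩ := omega_iff_even' Q h2 hQ hcd
  refine ⟨ε.comp (bridge Q).toMonoidHom, fun g => ?_, fun g => ?_⟩
  · rw [mem_Omega_iff, hiff]; rfl
  · show ε (bridge Q g) = 1 ↔ _
    rw [hε, delta, delta, ← pow_add, neg_one_pow_units]
    have h1 := finrank_fixS_bridge Q g
    have h3 : finrank F (fixS (1 : (ι → F) ≃ₗ[F] (ι → F))) = Fintype.card ι := by
      have : fixS (1 : (ι → F) ≃ₗ[F] (ι → F)) = ⊤ := by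
        rw [eq_top_iff]
        intro x _
        rw [mem_fixS]; rfl
      rw [this, finrank_top, Module.finrank_fintype_fun_eq_card]
    rw [h3, Nat.even_iff, Nat.even_iff]
    omega

end Rank

end Cfsg.Agent.Lib.Helper16
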