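import Mathlib
import Cfsg.Agent.Lib.Helper16.OInv4
import Cfsg.Agent.Lib.Helper16.Orth46

set_option autoImplicit false
set_option linter.unusedSectionVars false

namespace Cfsg.Agent.Lib.Helper16.OInv

open Cfsg Module QuadraticMap Matrix Cfsg.Agent.Lib.Helper16 Cfsg.Agent.Lib.Helper16.SpInv
  Cfsg.Agent.Lib.Helper16.POAut

variable {F : Type*} [Field F] {ι : Type} [Fintype ι] [DecidableEq ι]
  {Q : QuadraticForm F (ι → F)}

/-- a reflection commuting with `t`, from a nonsingular fixed vector -/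
theorem exists_comm_refl (h2 : (2 : F) = 0) (hsq : ∀ a : F, ∃ c, c * c = a)
    (hB : (polarBilin Q).Nondegenerate) (t : ↥(isometryGroup F ⇑Q)) (u : ι → F)
    (hu : NG (t : GL ι F) u = 0) (hQu : Q u ≠ 0) :
    ∃ c : ↥(isometryGroup F ⇑Q), c * t = t * c ∧ (((c : GL ι F) : Matrix ι ι F) - 1).rank = 1 := by
  obtain ⟨a, ha⟩ := hsq (Q u)⁻¹
  set u' := a • u with hu'
  have hQu' : Q u' = 1 := by
    rw [hu', QuadraticMap.map_smul, ha, smul_eq_mul, inv_mul_cancel₀ hQu]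
  have hNu' : NG (t : GL ι F) u' = 0 := by rw [hu', map_smul, hu, smul_zero]
  have htu' : ((t : GL ι F) : Matrix ι ι F) *ᵥ u' = u' := by
    rw [NG_apply, sub_eq_zero] at hNu'; exact hNu'
  have hne : u' ≠ 0 := by
    intro h
    rw [h, map_zero] at hQu'
    exact zero_ne_one hQu'
  have hA := polar_isAlt Q h2
  have happ : ∀ x, mkN (polarBilin Q) (id : Fin 1 → Fin 1) (fun _ => u') x =
      polarBilin Q x u' • u' := by
    intro x
    rw [mkN_apply]; simp
  have h0 : ∀ i j : Fin 1, polarBilin Q ((fun _ : Fin 1 => u') i) ((fun _ : Fin 1 => u') j) = 0 :=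
    fun _ _ => hA u'
  obtain ⟨c, hc1, hc2⟩ := exists_O_of_N (Q := Q) h2
    (mkN (polarBilin Q) (id : Fin 1 → Fin 1) (fun _ => u')) (mkN_sq _ _ h0) (fun x => by
      rw [happ, QuadraticMap.map_add (⇑Q), QuadraticMap.map_smul, hQu', polar_smul_right,
        ← polarBilin_apply_apply]
      simp only [smul_eq_mul, mul_one]
      linear_combination (polarBilin Q x u' * polarBilin Q x u') * h2)
  have hcx : ∀ x, ((c : GL ι F) : Matrix ι ι F) *ᵥ x = x + polarBilin Q x u' • u' := by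
    intro x
    have := NG_apply (c : GL ι F) x
    rw [hc2, happ] at this
    rw [this]; abel
  refine ⟨c, ?_, ?_⟩
  · apply Subtype.ext
    apply gl_ext
    intro x
    simp only [Subgroup.coe_mul]
    rw [gl_mul_mulVec, gl_mul_mulVec, hcx, hcx, Matrix.mulVec_add, Matrix.mulVec_smul, htu']
    congr 2
    conv_lhs => rw [← htu']
    exact PB_of_iso t.2 x u'
  · rw [rank_eq, hc2]
    have hnf : NF (polarBilin Q) (mkN (polarBilin Q) (id : Fin 1 → Fin 1) (fun _ => u')) id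
        (fun _ => u') := mkN_nf _ _ (LinearIndependent.of_subsingleton 0 hne) h0
    simpa using hnf.finrank hB (fun _ => rfl)

theorem alt_iff_Q (h2 : (2 : F) = 0) (t : ↥(isometryGroup F ⇑Q)) :
    (∀ v, polarBilin Q v (((t : GL ι F) : Matrix ι ι F) *ᵥ v) = 0) ↔
      ∀ v, Q (v + ((t : GL ι F) : Matrix ι ι F) *ᵥ v) = 0 := by
  have key : ∀ v, Q (v + ((t : GL ι F) : Matrix ι ι F) *ᵥ v) =
      polarBilin Q v (((t : GL ι F) : Matrix ι ι F) *ᵥ v) := by
    intro v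
    rw [QuadraticMap.map_add (⇑Q), (mem_iso_iff Q _).1 t.2, polarBilin_apply_apply]
    linear_combination (Q v) * h2
  simp only [key]

/-- a nonsingular fixed vector exists outside the exceptional case -/
theorem exists_nonsingular_ker (h2 : (2 : F) = 0) {m : ℕ} (hcard : Fintype.card ι = 2 * m)
    (hw : ∀ U : Submodule F (ι → F), (∀ u ∈ U, Q u = 0) → finrank F U ≤ m)
    {t : ↥(isometryGroup F ⇑Q)} (ht : t * t = 1)
    (hne : ¬ ((((t : GL ι F) : Matrix ι ι F) - 1).rank = m ∧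
      ∀ v, polarBilin Q v (((t : GL ι F) : Matrix ι ι F) *ᵥ v) = 0)) :
    ∃ u, NG (t : GL ι F) u = 0 ∧ Q u ≠ 0 := by
  by_contra hcon
  push Not at hcon
  apply hne
  have h1 := hw (LinearMap.ker (NG (t : GL ι F))) (fun u hu => hcon u hu)
  have h3 := LinearMap.finrank_range_add_finrank_ker (NG (t : GL ι F))
  have h4 := rank_le h2 (coe_sq ht)
  have h5 : finrank F (ι → F) = Fintype.card ι := by simp
  rw [rank_eq] at h4 ⊢
  refine ⟨by omega, fun v => ?_⟩
  rw [← NG_form h2, ← Q_N h2 (NG_Q t.2)]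
  exact hcon _ (NG_sq h2 (coe_sq ht) v)

/-- passing from `O`-conjugacy to `Ω`-conjugacy -/
theorem omega_conj_of_comm {G : Type*} [Group G] (ε : G →* ℤˣ) {t s g c : G}
    (hg : g * t * g⁻¹ = s) (hc : c * t = t * c) (hc1 : ε c ≠ 1) :
    ∃ g', ε g' = 1 ∧ g' * t * g'⁻¹ = s := by
  by_cases h : ε g = 1
  · exact ⟨g, h, hg⟩
  · refine ⟨g * c, ?_, ?_⟩
    · rw [map_mul]
      rcases Int.units_eq_one_or (ε g) with h1 | h1
      · exact absurd h1 h
      rcases Int.units_eq_one_or (ε c) with h3 | h3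
      · exact absurd h3 hc1
      rw [h1, h3]; rfl
    · rw [← hg, _root_.mul_inv_rev]
      have : c * t * c⁻¹ = t := by rw [hc, mul_inv_cancel_right]
      calc g * c * t * (c⁻¹ * g⁻¹) = g * (c * t * c⁻¹) * g⁻¹ := by group
        _ = g * t * g⁻¹ := by rw [this]

theorem omega_conj_generic (h2 : (2 : F) = 0) (hsq : ∀ a : F, ∃ c, c * c = a)
    (hB : (polarBilin Q).Nondegenerate) {m : ℕ} (hcard : Fintype.card ι = 2 * m)
    (hw : ∀ U : Submodule F (ι → F), (∀ u ∈ U, Q u = 0) → finrank F U ≤ m)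
    (ε : ↥(isometryGroup F ⇑Q) →* ℤˣ)
    (hε : ∀ g : ↥(isometryGroup F ⇑Q), ε g = 1 ↔ Even (((g : GL ι F) : Matrix ι ι F) - 1).rank)
    {t s : ↥(isometryGroup F ⇑Q)} (ht : t * t = 1)
    (hne : ¬ ((((t : GL ι F) : Matrix ι ι F) - 1).rank = m ∧
      ∀ v, polarBilin Q v (((t : GL ι F) : Matrix ι ι F) *ᵥ v) = 0))
    (hconj : IsConj t s) : ∃ g', ε g' = 1 ∧ g' * t * g'⁻¹ = s := by
  obtain ⟨g, hg⟩ := isConj_iff.1 hconj
  obtain ⟨u, hu1, hu2⟩ := exists_nonsingular_ker h2 hcard hw ht hne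
  obtain ⟨c, hc1, hc2⟩ := exists_comm_refl h2 hsq hB t u hu1 hu2
  exact omega_conj_of_comm ε hg hc1 (by rw [Ne, hε, hc2]; decide)

theorem range_conj {t s g : GL ι F} (h : g * t = s * g) :
    LinearMap.range (NG s) = (LinearMap.range (NG t)).map (glEquiv F ι g).toLinearMap := by
  have key : ∀ y, NG s ((g : Matrix ι ι F) *ᵥ y) = (g : Matrix ι ι F) *ᵥ (NG t y) := by
    intro y
    rw [NG_apply, NG_apply, ← gl_mul_mulVec, ← h, gl_mul_mulVec, Matrix.mulVec_sub]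
  ext x
  constructor
  · rintro ⟨y, rfl⟩
    refine ⟨NG t (((g⁻¹ : GL ι F) : Matrix ι ι F) *ᵥ y), ⟨_, rfl⟩, ?_⟩
    show (g : Matrix ι ι F) *ᵥ _ = _
    rw [← key, ← gl_mul_mulVec, mul_inv_cancel]; simp
  · rintro ⟨_, ⟨y, rfl⟩, rfl⟩
    exact ⟨(g : Matrix ι ι F) *ᵥ y, key y⟩

/-- `Ω` is detected by the parity of intersections of maximal totally singular subspaces -/
theorem mem_omega_iff_parity [Fintype F] (h2 : (2 : F) = 0) (hB : (polarBilin Q).Nondegenerate)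
    (hcd : Subgroup.closure (Set.range (reflE Q)) = OG Q) {U W : Submodule F (ι → F)}
    (hU : IsMTS Q U) (hW : IsMTS Q W) (g : ↥(isometryGroup F ⇑Q)) :
    g ∈ Omega F ⇑Q ↔ finrank F ↥(U ⊓ W.map (glEquiv F ι g.1).toLinearMap) % 2 =
      finrank F ↥(U ⊓ W) % 2 := by
  obtain ⟨vs, hvs, hg⟩ := exists_list_refl' Q hB hcd (bridge Q g)
  have hE : glEquiv F ι g.1 = (vs.map (reflE Q)).prod := by
    rw [← coe_prod_rO, ← hg]
    rfl
  have hpar := IsMTS.parity hB hU hW vs hvs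
  rw [mem_Omega_iff, hg, prod_mem_comm_iff_even' Q h2 hB hcd vs hvs, hE, Nat.even_iff]
  omega

end Cfsg.Agent.Lib.Helper16.OInv
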