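import Cfsg.Agent.Lib.Helper16.Orth27
import Cfsg.Prelude.Def_LieTypeDatum

set_option autoImplicit false

namespace Cfsg.Agent.Lib.Helper16.POAut

open Cfsg.Agent.Lib.Helper16 Cfsg

section Abs

theorem pEquiv_mk {G H : Type*} [Group G] [Group H] (e : G ≃* H) (x : commutator G) :
    pEquiv e (QuotientGroup.mk x) = QuotientGroup.mk (commEquiv e x) := rfl

/-- the functor `Aut G → Aut ([G,G]/Z([G,G]))` -/
noncomputable def pHom (G : Type*) [Group G] :
    MulAut G →* MulAut (commutator G ⧸ Subgroup.center (commutator G)) where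
  toFun e := pEquiv e
  map_one' := by
    ext x
    induction x using QuotientGroup.induction_on with
    | H x => rw [pEquiv_mk]; rfl
  map_mul' a b := by
    ext x
    induction x using QuotientGroup.induction_on with
    | H x => rw [pEquiv_mk]; rfl

theorem pHom_mk {G : Type*} [Group G] (e : MulAut G) (x : commutator G) :
    pHom G e (QuotientGroup.mk x) = QuotientGroup.mk (commEquiv e x) := rfl

variable {X : Type*} [Group X] (O : Subgroup X) {T : Type*} [Group T] (j : T →* X)
  (hj : ∀ t, j t ∈ Subgroup.normalizer (O : Set X))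

/-- the action on `PΩ` of a group mapping to the normaliser of `O` -/
noncomputable def psi : T →* MulAut (commutator ↥O ⧸ Subgroup.center (commutator ↥O)) :=
  (pHom ↥O).comp (O.normalizerMonoidHom.comp (j.codRestrict _ hj))

theorem psi_mk (t : T) (s s' : commutator ↥O) (h : ((s' : ↥O) : X) = j t * s * (j t)⁻¹) :
    psi O j hj t (QuotientGroup.mk s) = QuotientGroup.mk s' := by
  change pHom ↥O _ (QuotientGroup.mk s) = _
  rw [pHom_mk]
  congr 1
  apply Subtype.ext
  apply Subtype.ext
  rw [h]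
  rfl

/-- the conjugate of an element of the commutator subgroup -/
noncomputable def cj (t : T) (s : commutator ↥O) : commutator ↥O :=
  commEquiv (O.normalizerMonoidHom (j.codRestrict _ hj t)) s

theorem cj_coe (t : T) (s : commutator ↥O) :
    ((cj O j hj t s : ↥O) : X) = j t * s * (j t)⁻¹ := rfl

theorem psi_mk' (t : T) (s : commutator ↥O) :
    psi O j hj t (QuotientGroup.mk s) = QuotientGroup.mk (cj O j hj t s) := rfl

/-- `β` is induced by conjugation with `g` -/
def Ind (g : X) (β : MulAut (commutator ↥O ⧸ Subgroup.center (commutator ↥O))) : Prop :=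
  ∀ s s' : commutator ↥O, ((s' : ↥O) : X) = g * s * g⁻¹ →
    β (QuotientGroup.mk s) = QuotientGroup.mk s'

theorem ind_iff (t : T) (β : MulAut (commutator ↥O ⧸ Subgroup.center (commutator ↥O))) :
    Ind O (j t) β ↔ β = psi O j hj t := by
  constructor
  · intro h
    ext x
    induction x using QuotientGroup.induction_on with
    | H x => rw [psi_mk', h x (cj O j hj t x) (cj_coe O j hj t x)]
  · rintro rfl s s' h
    exact psi_mk O j hj t s s' h

theorem autSub_eq (S : Subgroup T) :
    autSubgroupOf (fun β => ∃ g, g ∈ S.map j ∧ Ind O g β) = S.map (psi O j hj) := by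
  have : {β : MulAut (commutator ↥O ⧸ Subgroup.center (commutator ↥O)) |
      ∃ g, g ∈ S.map j ∧ Ind O g β} = ((S.map (psi O j hj) : Subgroup _) : Set _) := by
    ext β
    constructor
    · rintro ⟨g, ⟨t, ht, rfl⟩, hI⟩
      exact ⟨t, ht, ((ind_iff O j hj t β).1 hI).symm⟩
    · rintro ⟨t, ht, rfl⟩
      exact ⟨j t, ⟨t, ht, rfl⟩, (ind_iff O j hj t _).2 rfl⟩
  rw [autSubgroupOf, this, Subgroup.closure_eq]

theorem psi_eq_conj (t : T) (s : commutator ↥O) (h : j t = ((s : ↥O) : X)) :
    psi O j hj t = MulAut.conj (QuotientGroup.mk s :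
      commutator ↥O ⧸ Subgroup.center (commutator ↥O)) := by
  ext x
  induction x using QuotientGroup.induction_on with
  | H x =>
    rw [psi_mk O j hj t x (s * x * s⁻¹) (by rw [h]; rfl), MulAut.conj_apply]
    rfl

theorem inn_eq (hr : ∀ s : commutator ↥O, ∃ t, j t = ((s : ↥O) : X)) :
    Inn (commutator ↥O ⧸ Subgroup.center (commutator ↥O)) =
      (((commutator ↥O).map O.subtype).comap j).map (psi O j hj) := by
  ext β
  constructor
  · rintro ⟨x, rfl⟩
    induction x using QuotientGroup.induction_on with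
    | H s =>
      obtain ⟨t, ht⟩ := hr s
      exact ⟨t, ⟨s.1, s.2, ht.symm⟩, psi_eq_conj O j hj t s ht⟩
  · rintro ⟨t, ⟨s, hs, hst⟩, rfl⟩
    exact ⟨QuotientGroup.mk ⟨s, hs⟩, (psi_eq_conj O j hj t ⟨s, hs⟩ hst.symm).symm⟩

theorem psi_eq_one_iff (t : T) : psi O j hj t = 1 ↔
    ∀ s : commutator ↥O, s⁻¹ * cj O j hj t s ∈ Subgroup.center (commutator ↥O) := by
  constructor
  · intro h s
    have h1 := psi_mk' O j hj t s
    rw [h, MulAut.one_apply] at h1
    exact QuotientGroup.eq.1 h1
  · intro h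
    ext x
    induction x using QuotientGroup.induction_on with
    | H s =>
      rw [psi_mk', MulAut.one_apply]
      exact (QuotientGroup.eq.2 (h s)).symm

end Abs

section Lift

variable {T A M : Type*} [Group T] [Group A] [Group M]

/-- descend a character of `T` to the image of `T` in `A` -/
theorem exists_lift (ψ : T →* A) (χ : T →* M) (hχ : Function.Surjective χ) (S : Subgroup T)
    (h : ∀ t, χ t = 1 ↔ ∃ s ∈ S, ψ t = ψ s) :
    ∃ φ : ↥((⊤ : Subgroup T).map ψ) →* M, Function.Surjective φ ∧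
      φ.ker = (S.map ψ).subgroupOf ((⊤ : Subgroup T).map ψ) := by
  have hmem : ∀ t, ψ t ∈ (⊤ : Subgroup T).map ψ := fun t => ⟨t, trivial, rfl⟩
  let ψ' : T →* ↥((⊤ : Subgroup T).map ψ) := ψ.codRestrict _ hmem
  have hs : Function.Surjective ψ' := by
    rintro ⟨_, t, -, rfl⟩
    exact ⟨t, rfl⟩
  have hk : ψ'.ker ≤ χ.ker := by
    intro t ht
    rw [MonoidHom.mem_ker] at ht ⊢
    rw [h]
    refine ⟨1, S.one_mem, ?_⟩
    rw [map_one]
    exact congrArg Subtype.val ht
  let φ := ψ'.liftOfSurjective hs ⟨χ, hk⟩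
  have hφ : ∀ t, φ (ψ' t) = χ t := fun t =>
    MonoidHom.liftOfRightInverse_comp_apply ψ' _ (Function.rightInverse_surjInv hs) ⟨χ, hk⟩ t
  refine ⟨φ, ?_, ?_⟩
  · intro m
    obtain ⟨t, rfl⟩ := hχ m
    exact ⟨ψ' t, hφ t⟩
  · ext x
    obtain ⟨t, rfl⟩ := hs x
    rw [MonoidHom.mem_ker, hφ, h, Subgroup.mem_subgroupOf]
    constructor
    · rintro ⟨s, hs, hts⟩
      exact ⟨s, hs, hts.symm⟩
    · rintro ⟨s, hs, hts⟩
      exact ⟨s, hs, hts.symm⟩

/-- relative index of images, the kernel inside the smaller group -/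
theorem relIndex_map_of_ker_le (ψ : T →* A) (H K : Subgroup T) (hk : ψ.ker ≤ H) (hHK : H ≤ K) :
    (H.map ψ).relIndex (K.map ψ) = H.relIndex K := by
  rw [Subgroup.relIndex_map_map, sup_eq_left.2 hk, sup_eq_left.2 (hk.trans hHK)]

/-- relative index of images, the kernel not inside the smaller group of prime index -/
theorem relIndex_map_of_not_le (ψ : T →* A) (H K : Subgroup T) (hHK : H ≤ K)
    (h2 : H.relIndex K = 2) (z : T) (hz : ψ z = 1) (hzK : z ∈ K) (hzH : z ∉ H) :
    (H.map ψ).relIndex (K.map ψ) = 1 := by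
  rw [Subgroup.relIndex_eq_one]
  rintro _ ⟨k, hk, rfl⟩
  by_cases hkH : k ∈ H
  · exact ⟨k, hkH, rfl⟩
  · refine ⟨k * z, ?_, by rw [map_mul, hz, mul_one]⟩
    have h3 : (H.subgroupOf K).index = 2 := h2
    have h4 := Subgroup.mul_mem_iff_of_index_two h3 (a := ⟨k, hk⟩) (b := ⟨z, hzK⟩)
    simp only [Subgroup.mem_subgroupOf] at h4
    exact h4.2 (by simp [hkH, hzH])

end Lift

end Cfsg.Agent.Lib.Helper16.POAut
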