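import Cfsg.Agent.S0206

set_option autoImplicit false

namespace Cfsg.Agent.Lib.Helper16.POAut

section D8

variable {G : Type*} [Group G]

theorem d8_of_two_invol (h8 : Nat.card G = 8) (x y : G) (hx : orderOf x = 2) (hy : orderOf y = 2)
    (hxy : x * y ≠ y * x) : Nonempty (G ≃* DihedralGroup 4) := by
  have : Finite G := Nat.finite_of_card_ne_zero (by rw [h8]; norm_num)
  have hx2 : x * x = 1 := by rw [← sq, ← hx, pow_orderOf_eq_one]
  have hy2 : y * y = 1 := by rw [← sq, ← hy, pow_orderOf_eq_one]
  have hne : x ≠ y := by rintro rfl; exact hxy rfl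
  obtain ⟨e⟩ := Cfsg.Agent.S0206.result x y hx hy hne
  set n := orderOf (x * y) with hn
  have hn0 : n ≠ 0 := (orderOf_pos (x * y)).ne'
  have : NeZero n := ⟨hn0⟩
  have hc : Nat.card ↥(Subgroup.closure ({x, y} : Set G)) = 2 * n := by
    rw [Nat.card_congr e.toEquiv, DihedralGroup.nat_card]
  have hdvd : 2 * n ∣ 8 := by
    rw [← hc, ← h8]
    exact Subgroup.card_subgroup_dvd_card _
  have hn4 : n ∣ 4 := by
    exact Nat.dvd_of_mul_dvd_mul_left (k := 2) (by norm_num) (by simpa using hdvd)
  have hle : n ≤ 4 := Nat.le_of_dvd (by norm_num) hn4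
  have hn' : n = 4 := by
    interval_cases n
    · exact absurd rfl hn0
    · exfalso
      have h1 : x * y = 1 := orderOf_eq_one_iff.1 hn.symm
      apply hxy
      have : y = x := by
        calc y = x * (x * y) := by rw [← mul_assoc, hx2, one_mul]
          _ = x := by rw [h1, mul_one]
      rw [this]
    · exfalso
      have h1 : (x * y) * (x * y) = 1 := by rw [← sq, hn, pow_orderOf_eq_one]
      apply hxy
      calc x * y = x * y * ((x * y) * (y * x)) := by
            rw [show x * y * (y * x) = x * (y * y) * x by group, hy2, mul_one, hx2, mul_one]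
        _ = (x * y) * (x * y) * (y * x) := by group
        _ = y * x := by rw [h1, one_mul]
    · omega
    · rfl
  have htop : Subgroup.closure ({x, y} : Set G) = ⊤ := by
    apply Subgroup.eq_top_of_card_eq
    rw [hc, hn', h8]
  rw [hn'] at e
  exact ⟨(Subgroup.topEquiv.symm.trans (MulEquiv.subgroupCongr htop.symm)).trans e⟩

theorem d8_of_card_eight (h8 : Nat.card G = 8) (x g : G) (hx : x * x = 1) (hxg : x * g ≠ g * x) :
    Nonempty (G ≃* DihedralGroup 4) := by
  classical
  have : Finite G := Nat.finite_of_card_ne_zero (by rw [h8]; norm_num)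
  have hx1 : x ≠ 1 := by rintro rfl; exact hxg (by rw [one_mul, mul_one])
  have hxo : orderOf x = 2 := orderOf_eq_prime (by rw [sq, hx]) hx1
  have hxi : x⁻¹ = x := inv_eq_of_mul_eq_one_left hx
  have hdvd : orderOf g ∣ 8 := by rw [← h8]; exact orderOf_dvd_natCard g
  have hle : orderOf g ≤ 8 := Nat.le_of_dvd (by norm_num) hdvd
  have hpos : 0 < orderOf g := orderOf_pos g
  have hcases : orderOf g = 1 ∨ orderOf g = 2 ∨ orderOf g = 4 ∨ orderOf g = 8 := by
    generalize orderOf g = k at *
    interval_cases k <;> simp_all <;> omega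
  rcases hcases with h | h | h | h
  · exfalso
    rw [orderOf_eq_one_iff] at h
    exact hxg (by rw [h, one_mul, mul_one])
  · exact d8_of_two_invol h8 x g hxo h hxg
  · have hg4 : g ^ 4 = 1 := by rw [← h, pow_orderOf_eq_one]
    have hg2 : g ^ 2 ≠ 1 := by
      intro h2
      have := orderOf_dvd_of_pow_eq_one h2
      rw [h] at this
      omega
    have hidx : (Subgroup.zpowers g).index = 2 := by
      have h1 := Subgroup.card_mul_index (Subgroup.zpowers g)
      rw [Nat.card_zpowers, h, h8] at h1
      omega
    have := Subgroup.normal_of_index_eq_two hidx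
    have hmem : x * g * x⁻¹ ∈ Subgroup.zpowers g :=
      Subgroup.Normal.conj_mem inferInstance g (Subgroup.mem_zpowers g) x
    rw [mem_zpowers_iff_mem_range_orderOf, h, Finset.mem_image] at hmem
    obtain ⟨k, hk, hgk⟩ := hmem
    rw [Finset.mem_range] at hk
    have hsq : x * g ^ 2 * x⁻¹ = (g ^ k) ^ 2 := by
      rw [hgk, sq, sq]; group
    have hk3 : k = 3 := by
      interval_cases k
      · exfalso
        rw [pow_zero] at hgk
        have : g = 1 := by
          have h5 : x * g = x := by rw [← mul_inv_eq_one, ← hgk]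
          exact mul_eq_left.1 h5
        rw [this] at hg2
        exact hg2 (one_pow 2)
      · exfalso
        rw [pow_one] at hgk
        exact hxg (mul_inv_eq_iff_eq_mul.1 hgk.symm)
      · exfalso
        rw [← pow_mul, hg4] at hsq
        apply hg2
        have h5 : x * g ^ 2 = x := by rw [← mul_inv_eq_one, hsq]
        exact mul_eq_left.1 h5
      · rfl
    subst hk3
    have hy2 : (x * g) * (x * g) = 1 := by
      calc (x * g) * (x * g) = (x * g * x⁻¹) * g := by rw [hxi]; group
        _ = g ^ 4 := by rw [← hgk]; group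
        _ = 1 := hg4
    have hy1 : x * g ≠ 1 := by
      intro h5
      have : g = x := by
        calc g = x * (x * g) := by rw [← mul_assoc, hx, one_mul]
          _ = x := by rw [h5, mul_one]
      exact hxg (by rw [this])
    apply d8_of_two_invol h8 x (x * g) hxo (orderOf_eq_prime (by rw [sq, hy2]) hy1)
    intro h5
    apply hxg
    exact mul_left_cancel (a := x) (by rw [h5]; group)
  · exfalso
    have : IsCyclic G := isCyclic_of_orderOf_eq_card g (by rw [h, h8])
    letI := IsCyclic.commGroup (α := G)
    exact hxg (mul_comm x g)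

/-- recognise a dihedral quotient of order eight -/
theorem exists_d8_quotient {A : Type*} [Group A] (N : Subgroup A) [N.Normal] (h8 : N.index = 8)
    (x g : A) (hx : x * x ∈ N) (hxg : g * x * g⁻¹ * x⁻¹ ∉ N) :
    ∃ φ : A →* DihedralGroup 4, Function.Surjective φ ∧ φ.ker = N := by
  obtain ⟨e⟩ := d8_of_card_eight (G := A ⧸ N) h8 (QuotientGroup.mk x) (QuotientGroup.mk g)
    (by rw [← QuotientGroup.mk_mul]; exact (QuotientGroup.eq_one_iff _).2 hx)
    (by
      intro h
      apply hxg
      rw [← QuotientGroup.eq_one_iff, QuotientGroup.mk_mul, QuotientGroup.mk_mul,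
        QuotientGroup.mk_mul, QuotientGroup.mk_inv, QuotientGroup.mk_inv, ← h]
      group)
  refine ⟨e.toMonoidHom.comp (QuotientGroup.mk' N), e.surjective.comp (QuotientGroup.mk'_surjective N),
    ?_⟩
  ext a
  rw [MonoidHom.mem_ker]
  change e (QuotientGroup.mk a) = 1 ↔ _
  rw [e.map_eq_one_iff, QuotientGroup.eq_one_iff]

end D8

end Cfsg.Agent.Lib.Helper16.POAut
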