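import Cfsg.Agent.Lib.Helper16.POAut8
import Cfsg.Agent.Lib.Helper16.POAut9

set_option autoImplicit false

namespace Cfsg.Agent.Lib.Helper16.POAut

open Cfsg.Agent.Lib.Helper16 Cfsg.Agent.Lib.Helper6 Module Cfsg Matrix

section Refl

variable {F V : Type*} [Field F] [AddCommGroup V] [Module F V] {Q : QuadraticForm F V}

theorem sim_reflE_conj (T : V ≃ₗ[F] V) (μ : F) (hμ : μ ≠ 0) (hT : ∀ v, Q (T v) = μ * Q v) (v : V) :
    T * reflE Q v * T⁻¹ = reflE Q (T v) := by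
  ext x
  have h1 : (T * reflE Q v * T⁻¹) x = T (reflE Q v (T⁻¹ x)) := rfl
  have h2 : T (T⁻¹ x) = x := by
    change (T * T⁻¹) x = x
    rw [mul_inv_cancel]; rfl
  have h3 : QuadraticMap.polarBilin Q x (T v) = μ * QuadraticMap.polarBilin Q (T⁻¹ x) v := by
    rw [← sim_polar T μ hT, h2]
  rw [h1, reflE_apply, reflE_apply, map_sub, map_smul, h2, h3, hT]
  congr 2
  rw [mul_inv]
  field_simp

end Refl

section Mat

variable {F : Type*} [Field F] {ι : Type} [Fintype ι] [DecidableEq ι] {Q : QuadraticForm F (ι → F)}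

theorem inn_eq_C : Inn (POmega F ⇑Q) =
    (((Omega F ⇑Q).map (isometryGroup F ⇑Q).subtype).comap (SimG Q).subtype).map (psiC Q) :=
  inn_eq (isometryGroup F ⇑Q) (SimG Q).subtype (sim_normalizes Q)
    (fun s => ⟨⟨s.1.1, iso_le_sim Q s.1.2⟩, rfl⟩)

theorem inn_le_pso [Fintype F] (h2 : (2 : F) ≠ 0)
    (hQ : (QuadraticMap.polarBilin Q).Nondegenerate) (hn : 2 ≤ finrank F (ι → F)) :
    Inn (POmega F ⇑Q) ≤ psoAut F ⇑Q := by
  rw [inn_eq_O, pso_eq]
  exact Subgroup.map_mono (relIndex_omega_so Q h2 hQ hn).1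

theorem pso_le_pgo : psoAut F ⇑Q ≤ pgoAut F ⇑Q := by
  rw [pso_eq_C, pgo_eq_C]
  exact Subgroup.map_mono le_top

/-- an isometry inducing an inner automorphism lies in `Ω` when `-1 ∈ Ω` -/
theorem mem_comm_of_inn [Fintype F] (h2 : (2 : F) ≠ 0)
    (hQ : (QuadraticMap.polarBilin Q).Nondegenerate)
    {e f : ι → F} (hp : HPair Q e f) (hn : 5 ≤ finrank F (ι → F))
    (hneg : negO Q ∈ commutator ↥(OG Q)) (w : ↥(SimG Q)) (hw : (w : GL ι F) ∈ isometryGroup F ⇑Q)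
    (hinn : psiC Q w ∈ Inn (POmega F ⇑Q)) : bridge Q ⟨w.1, hw⟩ ∈ commutator ↥(OG Q) := by
  rw [inn_eq_C] at hinn
  obtain ⟨s, ⟨s', hs', hss'⟩, hsw⟩ := hinn
  have h1 : psiC Q (w * s⁻¹) = 1 := by rw [map_mul, map_inv, hsw, mul_inv_cancel]
  obtain ⟨c, hc⟩ := ker_scalar Q h2 hQ hp hn _ _ (w * s⁻¹) (w * s⁻¹).2 h1
  have hs'c : bridge Q s' ∈ commutator ↥(OG Q) := (mem_Omega_iff Q s').1 hs'
  have hwx : ∀ x, ((w : GL ι F) : Matrix ι ι F) *ᵥ x = c • (((s' : GL ι F) : Matrix ι ι F) *ᵥ x) := by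
    intro x
    have h3 := hc (((s : GL ι F) : Matrix ι ι F) *ᵥ x)
    have h4 : ((SimG Q).subtype (w * s⁻¹) : GL ι F) = (w : GL ι F) * (s : GL ι F)⁻¹ := rfl
    rw [h4, Matrix.mulVec_mulVec, ← Units.val_mul, inv_mul_cancel_right] at h3
    rw [h3]
    have h5 : (s : GL ι F) = (s' : GL ι F) := hss'.symm
    rw [h5]
  have hcc : c * c = 1 := by
    have h3 := (mem_iso_iff Q _).1 hw
    obtain ⟨v0, hv0⟩ := represents_all Q hQ (by omega) 1 one_ne_zero
    have h4 := h3 v0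
    rw [hwx, QuadraticMap.map_smul, (mem_iso_iff Q _).1 s'.2, hv0, smul_eq_mul, mul_one] at h4
    exact h4
  rcases mul_self_eq_one_iff.1 hcc with rfl | rfl
  · rw [bridge_eq_of_mulVec Q ⟨w.1, hw⟩ (bridge Q s') (fun x => by
      rw [bridge_apply]; change ((w : GL ι F) : Matrix ι ι F) *ᵥ x = _; rw [hwx, one_smul])]
    exact hs'c
  · rw [bridge_eq_of_mulVec Q ⟨w.1, hw⟩ (negO Q * bridge Q s') (fun x => by
      change ((w : GL ι F) : Matrix ι ι F) *ᵥ x = (negO Q).1 ((bridge Q s').1 x)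
      rw [negO_apply, bridge_apply, hwx, neg_smul, one_smul])]
    exact Subgroup.mul_mem _ hneg hs'c

theorem pgo_mod_inn_d8 [Fintype F] (h2 : (2 : F) ≠ 0)
    (hQ : (QuadraticMap.polarBilin Q).Nondegenerate)
    {e f : ι → F} (hp : HPair Q e f) (hn : 5 ≤ finrank F (ι → F))
    (m : ℕ) (hcard : Fintype.card ι = 2 * m) (d : ↥(SimG Q)) (hd : ¬ IsSquare (mu Q d : F))
    (hneg : negO Q ∈ commutator ↥(OG Q)) :
    ∃ φ : ↥(pgoAut F ⇑Q) →* DihedralGroup 4, Function.Surjective φ ∧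
      φ.ker = (Inn (POmega F ⇑Q)).subgroupOf (pgoAut F ⇑Q) := by
  obtain ⟨v0, hv0⟩ := represents_all Q hQ (by omega) 1 one_ne_zero
  have h0 : Q v0 ≠ 0 := by rw [hv0]; exact one_ne_zero
  let r : ↥(SimG Q) := ⟨((bridge Q).symm (rO Q v0)).1, iso_le_sim Q ((bridge Q).symm (rO Q v0)).2⟩
  have hmem : ∀ t, psiC Q t ∈ pgoAut F ⇑Q := fun t => by
    rw [pgo_eq_C]; exact ⟨t, trivial, rfl⟩
  have hidx : ((Inn (POmega F ⇑Q)).subgroupOf (pgoAut F ⇑Q)).index = 8 := by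
    change (Inn (POmega F ⇑Q)).relIndex (pgoAut F ⇑Q) = 8
    rw [← Subgroup.relIndex_mul_relIndex _ _ _ (inn_le_pso h2 hQ (by omega)) pso_le_pgo,
      (relIndex_inn_pso Q h2 hQ hp hn ⟨m, by rw [hcard]; ring⟩).1 hneg]
    obtain ⟨φ, hφ1, hφ2⟩ := pgo_mod_pso h2 hQ hp hn m hcard d hd
    have : (psoAut F ⇑Q).relIndex (pgoAut F ⇑Q) = 4 := by
      change ((psoAut F ⇑Q).subgroupOf (pgoAut F ⇑Q)).index = 4
      rw [← hφ2, index_of_surj_ker φ hφ1]
      exact IsKleinFour.card_four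
    rw [this]
  have hrr : r * r = 1 := by
    apply Subtype.ext
    change ((bridge Q).symm (rO Q v0)).1 * ((bridge Q).symm (rO Q v0)).1 = 1
    rw [← Subgroup.coe_mul, ← map_mul, rO_mul_self, map_one]
    rfl
  apply exists_d8_quotient _ hidx ⟨psiC Q r, hmem r⟩ ⟨psiC Q d, hmem d⟩
  · rw [Subgroup.mem_subgroupOf]
    change psiC Q r * psiC Q r ∈ _
    rw [← map_mul, hrr, map_one]
    exact Subgroup.one_mem _
  · rw [Subgroup.mem_subgroupOf]
    change ¬ (psiC Q d * psiC Q r * (psiC Q d)⁻¹ * (psiC Q r)⁻¹ ∈ _)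
    rw [← map_inv, ← map_inv, ← map_mul, ← map_mul, ← map_mul]
    intro hinn
    have hw : ((d * r * d⁻¹ * r⁻¹ : ↥(SimG Q)) : GL ι F) ∈ isometryGroup F ⇑Q := by
      apply mem_iso_of_mu
      rw [mu_mul h0, mu_mul h0, mu_mul h0, ← muHom_apply h0 d⁻¹, ← muHom_apply h0 r⁻¹, map_inv,
        map_inv, muHom_apply, muHom_apply]
      rw [mul_comm (mu Q d), mul_inv_cancel_right, mul_inv_cancel]
    have h3 := mem_comm_of_inn h2 hQ hp hn hneg _ hw hinn
    have h4 : bridge Q ⟨_, hw⟩ = ([glEquiv F ι d.1 v0, v0].map (rO Q)).prod := by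
      apply Subtype.ext
      change glEquiv F ι ((d : GL ι F) * (r : GL ι F) * (d : GL ι F)⁻¹ * (r : GL ι F)⁻¹) = _
      have hr : glEquiv F ι (r : GL ι F) = reflE Q v0 :=
        congrArg Subtype.val ((bridge Q).apply_symm_apply (rO Q v0))
      rw [map_mul, map_mul, map_mul, map_inv, map_inv, hr,
        sim_reflE_conj (glEquiv F ι d.1) (mu Q d) (mu Q d).ne_zero (mu_spec Q d) v0]
      simp only [List.map_cons, List.map_nil, List.prod_cons, List.prod_nil, mul_one]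
      rw [Subgroup.coe_mul, rO_coe, rO_coe, inv_eq_of_mul_eq_one_left (reflE_mul_self Q v0)]
    rw [h4, prod_mem_comm_iff_odd Q h2 hQ _ (by
      intro v hv
      simp only [List.mem_cons, List.not_mem_nil, or_false] at hv
      rcases hv with rfl | rfl
      · rw [glEquiv_apply, mu_spec]
        exact mul_ne_zero (mu Q d).ne_zero h0
      · exact h0)] at h3
    apply hd
    have h5 := h3.2
    simp only [List.map_cons, List.map_nil, List.prod_cons, List.prod_nil, mul_one] at h5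
    rw [glEquiv_apply, mu_spec, hv0, mul_one, mul_one] at h5
    exact h5

theorem pgo_mod_inn_klein [Fintype F] (h2 : (2 : F) ≠ 0)
    (hQ : (QuadraticMap.polarBilin Q).Nondegenerate)
    {e f : ι → F} (hp : HPair Q e f) (hn : 5 ≤ finrank F (ι → F))
    (m : ℕ) (hcard : Fintype.card ι = 2 * m) (d : ↥(SimG Q)) (hd : ¬ IsSquare (mu Q d : F))
    (hneg : negO Q ∉ commutator ↥(OG Q)) :
    ∃ φ : ↥(pgoAut F ⇑Q) →* Multiplicative (ZMod 2 × ZMod 2), Function.Surjective φ ∧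
      φ.ker = (Inn (POmega F ⇑Q)).subgroupOf (pgoAut F ⇑Q) := by
  have h : Inn (POmega F ⇑Q) = psoAut F ⇑Q :=
    le_antisymm (inn_le_pso h2 hQ (by omega))
      (Subgroup.relIndex_eq_one.1 ((relIndex_inn_pso Q h2 hQ hp hn ⟨m, by rw [hcard]; ring⟩).2 hneg))
  rw [h]
  exact pgo_mod_pso h2 hQ hp hn m hcard d hd

end Mat

end Cfsg.Agent.Lib.Helper16.POAut
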