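import Mathlib

set_option autoImplicit false

namespace Cfsg.Agent.Lib.Helper16.POAut

section Quot

variable {A : Type*} [Group A]

theorem exists_cyclic_quotient (N : Subgroup A) [N.Normal] (n : ℕ) [NeZero n] (hidx : N.index = n)
    (hc : IsCyclic (A ⧸ N)) :
    ∃ φ : A →* Multiplicative (ZMod n), Function.Surjective φ ∧ φ.ker = N := by
  have hcard : Nat.card (A ⧸ N) = Nat.card (Multiplicative (ZMod n)) := by
    rw [Nat.card_eq_fintype_card (α := Multiplicative (ZMod n)), Fintype.card_multiplicative,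
      ZMod.card]
    exact hidx
  let e : A ⧸ N ≃* Multiplicative (ZMod n) := mulEquivOfCyclicCardEq hcard
  refine ⟨e.toMonoidHom.comp (QuotientGroup.mk' N),
    e.surjective.comp (QuotientGroup.mk'_surjective N), ?_⟩
  ext a
  rw [MonoidHom.mem_ker]
  change e (QuotientGroup.mk a) = 1 ↔ _
  rw [e.map_eq_one_iff, QuotientGroup.eq_one_iff]

theorem exists_c2_quotient (N : Subgroup A) (hidx : N.index = 2) :
    ∃ φ : A →* Multiplicative (ZMod 2), Function.Surjective φ ∧ φ.ker = N := by
  have := Subgroup.normal_of_index_eq_two hidx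
  have : Fact (Nat.Prime 2) := ⟨Nat.prime_two⟩
  exact exists_cyclic_quotient N 2 hidx (isCyclic_of_prime_card (p := 2) hidx)

theorem exists_c4_quotient (N : Subgroup A) [N.Normal] (hidx : N.index = 4) (w : A)
    (hw : w * w ∉ N) :
    ∃ φ : A →* Multiplicative (ZMod 4), Function.Surjective φ ∧ φ.ker = N := by
  apply exists_cyclic_quotient N 4 hidx
  have hcard : Nat.card (A ⧸ N) = 4 := hidx
  have : Finite (A ⧸ N) := Nat.finite_of_card_ne_zero (by rw [hcard]; norm_num)
  set g : A ⧸ N := QuotientGroup.mk w with hg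
  have hg2 : g ^ 2 ≠ 1 := by
    intro h
    apply hw
    rw [← QuotientGroup.eq_one_iff, QuotientGroup.mk_mul, ← sq]
    exact h
  have hdvd : orderOf g ∣ 4 := by rw [← hcard]; exact orderOf_dvd_natCard g
  have hle : orderOf g ≤ 4 := Nat.le_of_dvd (by norm_num) hdvd
  have hpos : 0 < orderOf g := orderOf_pos g
  have h4 : orderOf g = 4 := by
    have h12 : ¬ orderOf g ∣ 2 := fun h => hg2 (orderOf_dvd_iff_pow_eq_one.1 h)
    generalize orderOf g = k at *
    interval_cases k <;> simp_all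
  exact isCyclic_of_orderOf_eq_card g (by rw [h4, hcard])

theorem exists_klein_quotient (N : Subgroup A) [N.Normal] (hidx : N.index = 4) (x y : A)
    (hx : x * x ∈ N) (hy : y * y ∈ N) (hx1 : x ∉ N) (hy1 : y ∉ N) (hxy : x⁻¹ * y ∉ N) :
    ∃ φ : A →* Multiplicative (ZMod 2 × ZMod 2), Function.Surjective φ ∧ φ.ker = N := by
  classical
  have hcard : Nat.card (A ⧸ N) = 4 := hidx
  have : Finite (A ⧸ N) := Nat.finite_of_card_ne_zero (by rw [hcard]; norm_num)
  set X : A ⧸ N := QuotientGroup.mk x with hX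
  set Y : A ⧸ N := QuotientGroup.mk y with hY
  have hX2 : X ^ 2 = 1 := by
    rw [sq, hX, ← QuotientGroup.mk_mul]; exact (QuotientGroup.eq_one_iff _).2 hx
  have hY2 : Y ^ 2 = 1 := by
    rw [sq, hY, ← QuotientGroup.mk_mul]; exact (QuotientGroup.eq_one_iff _).2 hy
  have hX1 : X ≠ 1 := fun h => hx1 ((QuotientGroup.eq_one_iff _).1 h)
  have hY1 : Y ≠ 1 := fun h => hy1 ((QuotientGroup.eq_one_iff _).1 h)
  have hXY : X ≠ Y := fun h => hxy (QuotientGroup.eq.1 h)
  have hexp : ∀ g : A ⧸ N, g ^ 2 = 1 := by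
    intro g
    by_contra hg2
    have hdvd : orderOf g ∣ 4 := by rw [← hcard]; exact orderOf_dvd_natCard g
    have hle : orderOf g ≤ 4 := Nat.le_of_dvd (by norm_num) hdvd
    have hpos : 0 < orderOf g := orderOf_pos g
    have h4 : orderOf g = 4 := by
      have h12 : ¬ orderOf g ∣ 2 := fun h => hg2 (orderOf_dvd_iff_pow_eq_one.1 h)
      generalize orderOf g = k at *
      interval_cases k <;> simp_all
    have htop : Subgroup.zpowers g = ⊤ := by
      apply Subgroup.eq_top_of_card_eq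
      rw [Nat.card_zpowers, h4, hcard]
    have key : ∀ Z : A ⧸ N, Z ^ 2 = 1 → Z ≠ 1 → Z = g ^ 2 := by
      intro Z hZ2 hZ1
      have hmem : Z ∈ Subgroup.zpowers g := by rw [htop]; trivial
      rw [mem_zpowers_iff_mem_range_orderOf, h4, Finset.mem_image] at hmem
      obtain ⟨k, hk, rfl⟩ := hmem
      rw [Finset.mem_range] at hk
      rw [← pow_mul] at hZ2
      have h5 := orderOf_dvd_of_pow_eq_one hZ2
      rw [h4] at h5
      interval_cases k
      · exact absurd (pow_zero g) hZ1
      · omega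
      · rfl
      · omega
    exact hXY ((key X hX2 hX1).trans (key Y hY2 hY1).symm)
  have hK : IsKleinFour (A ⧸ N) := by
    refine ⟨hcard, ?_⟩
    have : Nontrivial (A ⧸ N) := ⟨⟨X, 1, hX1⟩⟩
    rw [Monoid.exponent_eq_prime_iff Nat.prime_two]
    intro g hg
    exact orderOf_eq_prime (hexp g) hg
  obtain ⟨e⟩ : Nonempty (A ⧸ N ≃* Multiplicative (ZMod 2 × ZMod 2)) := IsKleinFour.nonempty_mulEquiv
  refine ⟨e.toMonoidHom.comp (QuotientGroup.mk' N),
    e.surjective.comp (QuotientGroup.mk'_surjective N), ?_⟩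
  ext a
  rw [MonoidHom.mem_ker]
  change e (QuotientGroup.mk a) = 1 ↔ _
  rw [e.map_eq_one_iff, QuotientGroup.eq_one_iff]

end Quot

end Cfsg.Agent.Lib.Helper16.POAut
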