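import Cfsg.Agent.Lib.Helper16.POAut10
import Cfsg.Agent.Lib.Helper16.POAut11

set_option autoImplicit false

namespace Cfsg.Agent.Lib.Helper16.POAut

open Cfsg.Agent.Lib.Helper16 Cfsg.Agent.Lib.Helper6 Module Cfsg Matrix

section Mat

variable {F : Type*} [Field F] {ι : Type} [Fintype ι] [DecidableEq ι] {Q : QuadraticForm F (ι → F)}

/-- inclusion of the isometry group in the similarity group -/
def incl (Q : QuadraticForm F (ι → F)) : ↥(isometryGroup F ⇑Q) →* ↥(SimG Q) :=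
  Subgroup.inclusion (iso_le_sim Q)

/-- a reflection as a similarity -/
noncomputable def rC (Q : QuadraticForm F (ι → F)) (v : ι → F) : ↥(SimG Q) :=
  incl Q ((bridge Q).symm (rO Q v))

theorem rC_mul_self (v : ι → F) : rC Q v * rC Q v = 1 := by
  rw [rC, ← map_mul, ← map_mul, rO_mul_self, map_one, map_one]

theorem rC_inv (v : ι → F) : (rC Q v)⁻¹ = rC Q v := inv_eq_of_mul_eq_one_left (rC_mul_self v)

theorem mu_incl {v0 : ι → F} (h0 : Q v0 ≠ 0) (w : ↥(isometryGroup F ⇑Q)) : mu Q (incl Q w) = 1 :=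
  mu_of_iso h0 _ w.2

theorem det_rC (v : ι → F) (hv : Q v ≠ 0) :
    Matrix.GeneralLinearGroup.det ((rC Q v : ↥(SimG Q)) : GL ι F) = -1 := by
  apply Units.ext
  rw [Matrix.GeneralLinearGroup.val_det_apply]
  change (((bridge Q).symm (rO Q v) : GL ι F) : Matrix ι ι F).det = _
  rw [bridge_symm_rO, det_reflectionMatrix Q v hv]
  simp

theorem neg_one_ne_one_units (h2 : (2 : F) ≠ 0) : (-1 : Fˣ) ≠ 1 := by
  intro h
  have := congrArg Units.val h
  rw [Units.val_neg, Units.val_one] at this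
  exact h2 (by linear_combination -this)

theorem rC_not_mem (h2 : (2 : F) ≠ 0) {v0 : ι → F} (h0 : Q v0 ≠ 0) (m : ℕ) (v : ι → F)
    (hv : Q v ≠ 0) : rC Q v ∉ (delta h0 m).ker := by
  rw [mem_ker_delta, det_rC v hv, rC, mu_incl h0, one_pow]
  exact neg_one_ne_one_units h2

theorem delta_prop (hQ : (QuadraticMap.polarBilin Q).Nondegenerate) {v0 : ι → F} (h0 : Q v0 ≠ 0)
    (m : ℕ) (hcard : Fintype.card ι = 2 * m) (a b : ↥(SimG Q)) (ha : a ∉ (delta h0 m).ker)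
    (hb : b ∉ (delta h0 m).ker) : a * b ∈ (delta h0 m).ker := by
  rw [mem_ker_delta] at ha hb ⊢
  have ha' := (det_cases hQ m hcard a).resolve_left ha
  have hb' := (det_cases hQ m hcard b).resolve_left hb
  rw [Subgroup.coe_mul, map_mul, ha', hb', mu_mul h0, mul_pow, neg_mul_neg]

theorem psiC_incl_mem_inn (w : ↥(isometryGroup F ⇑Q)) (h : bridge Q w ∈ commutator ↥(OG Q)) :
    psiC Q (incl Q w) ∈ Inn (POmega F ⇑Q) := by
  rw [inn_eq_C]
  exact ⟨incl Q w, ⟨w, (mem_Omega_iff Q w).2 h, rfl⟩, rfl⟩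

theorem sq_mem_comm [Fintype F] (h2 : (2 : F) ≠ 0)
    (hQ : (QuadraticMap.polarBilin Q).Nondegenerate) (hn : 2 ≤ finrank F (ι → F)) (g : ↥(OG Q)) :
    g * g ∈ commutator ↥(OG Q) := by
  obtain ⟨φ, -, hk, -, -⟩ := exists_eps_theta_surj Q h2 hQ hn
  rw [← hk, MonoidHom.mem_ker, map_mul]
  exact Prod.ext (Int.units_mul_self _) (Int.units_mul_self _)

theorem comm_not_inn [Fintype F] (h2 : (2 : F) ≠ 0)
    (hQ : (QuadraticMap.polarBilin Q).Nondegenerate)
    {e f : ι → F} (hp : HPair Q e f) (hn : 5 ≤ finrank F (ι → F))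
    (hneg : negO Q ∈ commutator ↥(OG Q)) {v0 : ι → F} (hv0 : Q v0 = 1)
    (d : ↥(SimG Q)) (hd : ¬ IsSquare (mu Q d : F)) :
    psiC Q (d * rC Q v0 * d⁻¹ * (rC Q v0)⁻¹) ∉ Inn (POmega F ⇑Q) := by
  have h0 : Q v0 ≠ 0 := by rw [hv0]; exact one_ne_zero
  set r := rC Q v0 with hr
  intro hinn
  have hw : ((d * r * d⁻¹ * r⁻¹ : ↥(SimG Q)) : GL ι F) ∈ isometryGroup F ⇑Q := by
    apply mem_iso_of_mu
    rw [mu_mul h0, mu_mul h0, mu_mul h0, ← muHom_apply h0 d⁻¹, ← muHom_apply h0 r⁻¹, map_inv,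
      map_inv, muHom_apply, muHom_apply]
    rw [mul_comm (mu Q d), mul_inv_cancel_right, mul_inv_cancel]
  have h3 := mem_comm_of_inn h2 hQ hp hn hneg _ hw hinn
  have h4 : bridge Q ⟨_, hw⟩ = ([glEquiv F ι d.1 v0, v0].map (rO Q)).prod := by
    apply Subtype.ext
    change glEquiv F ι ((d : GL ι F) * (r : GL ι F) * (d : GL ι F)⁻¹ * (r : GL ι F)⁻¹) = _
    have hr : glEquiv F ι (r : GL ι F) = reflE Q v0 :=
      congrArg Subtype.val ((bridge Q).apply_symm_apply (rO Q v0))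
    rw [map_mul, map_mul, map_mul, map_inv, map_inv, hr,
      sim_reflE_conj (glEquiv F ι d.1) (mu Q d) (mu Q d).ne_zero (mu_spec Q d) v0]
    simp only [List.map_cons, List.map_nil, List.prod_cons, List.prod_nil, mul_one]
    rw [Subgroup.coe_mul, rO_coe, rO_coe, inv_eq_of_mul_eq_one_left (reflE_mul_self Q v0)]
  rw [h4, prod_mem_comm_iff_odd Q h2 hQ _ (by
    intro v hv
    simp only [List.mem_cons, List.not_mem_nil, or_false] at hv
    rcases hv with rfl | rfl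
    · rw [glEquiv_apply, mu_spec]
      exact mul_ne_zero (mu Q d).ne_zero h0
    · exact h0)] at h3
  apply hd
  have h5 := h3.2
  simp only [List.map_cons, List.map_nil, List.prod_cons, List.prod_nil, mul_one] at h5
  rw [glEquiv_apply, mu_spec, hv0, mul_one, mul_one] at h5
  exact h5

/-- the image of the similarities with `det = μ^m` -/
noncomputable def IDaut {v0 : ι → F} (h0 : Q v0 ≠ 0) (m : ℕ) : Subgroup (MulAut (POmega F ⇑Q)) :=
  (delta h0 m).ker.map (psiC Q)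

theorem SOC_le_ker {v0 : ι → F} (h0 : Q v0 ≠ 0) (m : ℕ) : SOC Q ≤ (delta h0 m).ker := by
  intro s hs
  rw [mem_SOC] at hs
  rw [mem_ker_delta, hs.2, mu_of_iso h0 s hs.1, one_pow]

theorem ker_delta_of_psi [Fintype F] (h2 : (2 : F) ≠ 0)
    (hQ : (QuadraticMap.polarBilin Q).Nondegenerate)
    {e f : ι → F} (hp : HPair Q e f) (hn : 5 ≤ finrank F (ι → F))
    {v0 : ι → F} (h0 : Q v0 ≠ 0) (m : ℕ) (hcard : Fintype.card ι = 2 * m) (t s : ↥(SimG Q))
    (hs : s ∈ (delta h0 m).ker) (hts : psiC Q t = psiC Q s) : t ∈ (delta h0 m).ker := by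
  have h1 : psiC Q (t * s⁻¹) = 1 := by rw [map_mul, map_inv, hts, mul_inv_cancel]
  obtain ⟨c, hc⟩ := ker_scalar Q h2 hQ hp hn _ _ (t * s⁻¹) (t * s⁻¹).2 h1
  have hc' : ∀ x, (((t * s⁻¹ : ↥(SimG Q)) : GL ι F) : Matrix ι ι F) *ᵥ x = c • x := hc
  have hc0 : c ≠ 0 := by
    rintro rfl
    have h3 := mu_spec Q (t * s⁻¹) v0
    rw [hc', zero_smul, map_zero] at h3
    exact (mul_ne_zero (mu Q (t * s⁻¹)).ne_zero h0) h3.symm
  obtain ⟨hw1, hw2⟩ := scalar_data h0 (t * s⁻¹) (Units.mk0 c hc0) hc'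
  have hw : t * s⁻¹ ∈ (delta h0 m).ker := by
    rw [mem_ker_delta, hw1, hw2, hcard, pow_mul]
  have hts' : t = (t * s⁻¹) * s := by group
  rw [hts']
  exact Subgroup.mul_mem _ hw hs

theorem mem_IDaut_iff [Fintype F] (h2 : (2 : F) ≠ 0)
    (hQ : (QuadraticMap.polarBilin Q).Nondegenerate)
    {e f : ι → F} (hp : HPair Q e f) (hn : 5 ≤ finrank F (ι → F))
    {v0 : ι → F} (h0 : Q v0 ≠ 0) (m : ℕ) (hcard : Fintype.card ι = 2 * m) (t : ↥(SimG Q)) :
    psiC Q t ∈ IDaut h0 m ↔ t ∈ (delta h0 m).ker := by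
  constructor
  · rintro ⟨s, hs, hst⟩
    exact ker_delta_of_psi h2 hQ hp hn h0 m hcard t s hs hst.symm
  · intro h
    exact ⟨t, h, rfl⟩

theorem relIndex_ID_pgo [Fintype F] (h2 : (2 : F) ≠ 0)
    (hQ : (QuadraticMap.polarBilin Q).Nondegenerate)
    {e f : ι → F} (hp : HPair Q e f) (hn : 5 ≤ finrank F (ι → F))
    {v0 : ι → F} (h0 : Q v0 ≠ 0) (m : ℕ) (hcard : Fintype.card ι = 2 * m) :
    (IDaut h0 m).relIndex (pgoAut F ⇑Q) = 2 := by
  have hsurj : Function.Surjective (signHom (delta h0 m).ker (delta_prop hQ h0 m hcard)) := by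
    intro a
    rcases Int.units_eq_one_or a with rfl | rfl
    · exact ⟨1, map_one _⟩
    · exact ⟨rC Q v0, (signHom_eq_neg _ _ _).2 (rC_not_mem h2 h0 m v0 h0)⟩
  obtain ⟨φ, hφ1, hφ2⟩ := exists_lift (psiC Q) _ hsurj (delta h0 m).ker (by
    intro t
    rw [signHom_eq_one]
    constructor
    · intro h; exact ⟨t, h, rfl⟩
    · rintro ⟨s, hs, hts⟩
      exact ker_delta_of_psi h2 hQ hp hn h0 m hcard t s hs hts)
  rw [pgo_eq_C]
  change ((IDaut h0 m).subgroupOf _).index = 2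
  rw [IDaut, ← hφ2, index_of_surj_ker φ hφ1]
  simp

theorem id_structure [Fintype F] (h2 : (2 : F) ≠ 0)
    (hQ : (QuadraticMap.polarBilin Q).Nondegenerate)
    {e f : ι → F} (hp : HPair Q e f) (hn : 5 ≤ finrank F (ι → F))
    {v0 : ι → F} (hv0 : Q v0 = 1) (h0 : Q v0 ≠ 0) (m : ℕ) (hcard : Fintype.card ι = 2 * m)
    (g₀ : ↥(SimG Q)) (hg₀ : ¬ IsSquare (mu Q g₀ : F)) (c₀ : F)
    (hc₀ : ∀ x, (((g₀ * g₀ : ↥(SimG Q)) : GL ι F) : Matrix ι ι F) *ᵥ x = c₀ • x) :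
    (negO Q ∉ commutator ↥(OG Q) →
      ∃ φ : ↥(IDaut h0 m) →* Multiplicative (ZMod 2), Function.Surjective φ ∧
        φ.ker = (Inn (POmega F ⇑Q)).subgroupOf (IDaut h0 m)) ∧
    (negO Q ∈ commutator ↥(OG Q) → g₀ ∈ (delta h0 m).ker →
      ∃ φ : ↥(IDaut h0 m) →* Multiplicative (ZMod 2 × ZMod 2), Function.Surjective φ ∧
        φ.ker = (Inn (POmega F ⇑Q)).subgroupOf (IDaut h0 m)) ∧
    (negO Q ∈ commutator ↥(OG Q) → g₀ ∉ (delta h0 m).ker →
      ∃ φ : ↥(IDaut h0 m) →* Multiplicative (ZMod 4), Function.Surjective φ ∧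
        φ.ker = (Inn (POmega F ⇑Q)).subgroupOf (IDaut h0 m)) := by
  have hev : Even (Fintype.card ι) := ⟨m, by rw [hcard]; ring⟩
  have hInnPso := inn_le_pso (Q := Q) h2 hQ (by omega)
  have hPsoID : psoAut F ⇑Q ≤ IDaut h0 m := by
    rw [pso_eq_C]; exact Subgroup.map_mono (SOC_le_ker h0 m)
  have hIDpgo : IDaut h0 m ≤ pgoAut F ⇑Q := by
    rw [pgo_eq_C]; exact Subgroup.map_mono le_top
  have r1 : (psoAut F ⇑Q).relIndex (pgoAut F ⇑Q) = 4 := by
    obtain ⟨φ, hφ1, hφ2⟩ := pgo_mod_pso h2 hQ hp hn m hcard g₀ hg₀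
    change ((psoAut F ⇑Q).subgroupOf (pgoAut F ⇑Q)).index = 4
    rw [← hφ2, index_of_surj_ker φ hφ1]
    exact IsKleinFour.card_four
  have r2 := relIndex_ID_pgo h2 hQ hp hn h0 m hcard
  have r3 : (psoAut F ⇑Q).relIndex (IDaut h0 m) = 2 := by
    have := Subgroup.relIndex_mul_relIndex _ _ _ hPsoID hIDpgo
    rw [r1, r2] at this
    omega
  have r4 := Subgroup.relIndex_mul_relIndex _ _ _ hInnPso hPsoID
  rw [r3] at r4
  have hg₀sq : psiC Q g₀ * psiC Q g₀ = 1 := by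
    rw [← map_mul]; exact psi_scalar Q _ _ (g₀ * g₀) c₀ hc₀
  have hg₀pso : psiC Q g₀ ∉ psoAut F ⇑Q := by
    intro h
    rw [pso_eq_C] at h
    obtain ⟨s, hs, hsg⟩ := h
    have := (chi_ker h2 hQ hp hn h0 m hcard g₀).2 ⟨s, hs, hsg.symm⟩
    rw [chi_eq_one, isSquare_units_iff] at this
    exact hg₀ this.1
  refine ⟨?_, ?_, ?_⟩
  · intro hneg
    rw [(relIndex_inn_pso Q h2 hQ hp hn hev).2 hneg] at r4
    exact exists_c2_quotient _ r4.symm
  · intro hneg hmem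
    rw [(relIndex_inn_pso Q h2 hQ hp hn hev).1 hneg] at r4
    obtain ⟨v1, hv1⟩ := represents_all Q hQ (by omega) (mu Q g₀ : F) (mu Q g₀).ne_zero
    have h1 : Q v1 ≠ 0 := by rw [hv1]; exact (mu Q g₀).ne_zero
    set zO : ↥(isometryGroup F ⇑Q) := (bridge Q).symm (rO Q v0 * rO Q v1) with hzO
    have hzpso : psiC Q (incl Q zO) ∈ psoAut F ⇑Q := by
      rw [pso_eq_C]
      refine ⟨incl Q zO, ?_, rfl⟩
      rw [SetLike.mem_coe, mem_SOC]
      refine ⟨zO.2, ?_⟩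
      have : incl Q zO = rC Q v0 * rC Q v1 := by
        rw [rC, rC, ← map_mul, ← map_mul]
      rw [this, Subgroup.coe_mul, map_mul, det_rC v0 h0, det_rC v1 h1, neg_mul_neg, one_mul]
    apply exists_klein_quotient _ r4.symm ⟨psiC Q (incl Q zO), hPsoID hzpso⟩
      ⟨psiC Q g₀, ⟨g₀, hmem, rfl⟩⟩
    · rw [Subgroup.mem_subgroupOf]
      change psiC Q (incl Q zO) * psiC Q (incl Q zO) ∈ _
      rw [← map_mul, ← map_mul]
      apply psiC_incl_mem_inn
      rw [map_mul]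
      exact sq_mem_comm h2 hQ (by omega) _
    · rw [Subgroup.mem_subgroupOf]
      change psiC Q g₀ * psiC Q g₀ ∈ _
      rw [hg₀sq]
      exact Subgroup.one_mem _
    · rw [Subgroup.mem_subgroupOf]
      intro hinn
      have h3 := mem_comm_of_inn h2 hQ hp hn hneg (incl Q zO) zO.2 hinn
      have h4 : bridge Q ⟨(incl Q zO).1, zO.2⟩ = ([v0, v1].map (rO Q)).prod := by
        change bridge Q zO = _
        rw [hzO, MulEquiv.apply_symm_apply]
        simp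
      rw [h4, prod_mem_comm_iff_odd Q h2 hQ _ (by
        intro v hv
        simp only [List.mem_cons, List.not_mem_nil, or_false] at hv
        rcases hv with rfl | rfl
        · exact h0
        · exact h1)] at h3
      have h5 := h3.2
      simp only [List.map_cons, List.map_nil, List.prod_cons, List.prod_nil, mul_one] at h5
      rw [hv0, hv1, one_mul] at h5
      exact hg₀ h5
    · rw [Subgroup.mem_subgroupOf]
      intro hinn
      exact hg₀pso (hInnPso hinn)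
    · rw [Subgroup.mem_subgroupOf]
      intro hinn
      change (psiC Q (incl Q zO))⁻¹ * psiC Q g₀ ∈ _ at hinn
      apply hg₀pso
      have := Subgroup.mul_mem _ hzpso (hInnPso hinn)
      rwa [mul_inv_cancel_left] at this
  · intro hneg hmem
    rw [(relIndex_inn_pso Q h2 hQ hp hn hev).1 hneg] at r4
    have hrg : rC Q v0 * g₀ ∈ (delta h0 m).ker :=
      delta_prop hQ h0 m hcard _ _ (rC_not_mem h2 h0 m v0 h0) hmem
    apply exists_c4_quotient _ r4.symm ⟨psiC Q (rC Q v0 * g₀), ⟨_, hrg, rfl⟩⟩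
    rw [Subgroup.mem_subgroupOf]
    intro hinn
    change psiC Q (rC Q v0 * g₀) * psiC Q (rC Q v0 * g₀) ∈ _ at hinn
    apply comm_not_inn h2 hQ hp hn hneg hv0 g₀ hg₀
    have hrsq : psiC Q (rC Q v0) * psiC Q (rC Q v0) = 1 := by
      rw [← map_mul, rC_mul_self, map_one]
    have hginv : (psiC Q g₀)⁻¹ = psiC Q g₀ := inv_eq_of_mul_eq_one_left hg₀sq
    have hrinv : (psiC Q (rC Q v0))⁻¹ = psiC Q (rC Q v0) := inv_eq_of_mul_eq_one_left hrsq
    have h6 := Subgroup.inv_mem _ hinn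
    rw [map_mul] at h6
    rw [map_mul, map_mul, map_mul, map_inv, map_inv, hginv, hrinv]
    have h7 : (psiC Q (rC Q v0) * psiC Q g₀ * (psiC Q (rC Q v0) * psiC Q g₀))⁻¹ =
        psiC Q g₀ * psiC Q (rC Q v0) * psiC Q g₀ * psiC Q (rC Q v0) := by
      rw [_root_.mul_inv_rev, _root_.mul_inv_rev, hginv, hrinv]
      group
    rwa [h7] at h6

end Mat

end Cfsg.Agent.Lib.Helper16.POAut
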