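import Cfsg.Agent.Lib.Helper16.POAut12
import Cfsg.Agent.Lib.Helper16.Orth21

set_option autoImplicit false

namespace Cfsg.Agent.Lib.Helper16.POAut

open Cfsg.Agent.Lib.Helper16 Cfsg.Agent.Lib.Helper6 Module Cfsg Matrix

section Gen

variable {F V : Type*} [Field F] [AddCommGroup V] [Module F V] {Q : QuadraticForm F V}

local notation "P" => QuadraticMap.polarBilin Q

theorem ts_finrank_le [FiniteDimensional F V] (hQ : (P).Nondegenerate) (U : Submodule F V)
    (hU : ∀ u ∈ U, Q u = 0) : 2 * finrank F U ≤ finrank F V := by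
  have h1 : U ≤ LinearMap.BilinForm.orthogonal (P) U := by
    intro x hx
    rw [LinearMap.BilinForm.mem_orthogonal_iff]
    intro y hy
    exact ts_polar Q hU hy hx
  have h2 := Submodule.finrank_mono h1
  have h3 := LinearMap.BilinForm.finrank_orthogonal hQ U
  have h4 := Submodule.finrank_le U
  omega

theorem mts_map_sim {U : Submodule F V} (hU : IsMTS Q U) (T : V ≃ₗ[F] V) (μ : F)
    (hT : ∀ v, Q (T v) = μ * Q v) : IsMTS Q (U.map T.toLinearMap) := by
  constructor
  · rintro _ ⟨u, hu, rfl⟩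
    change Q (T u) = 0
    rw [hT, hU.1 u hu, mul_zero]
  · rw [LinearEquiv.finrank_map_eq]; exact hU.2

/-- the parity of `codim (U ∩ TU)` does not depend on `U` -/
theorem sim_parity_indep [FiniteDimensional F V] (hQ : (P).Nondegenerate) {U W : Submodule F V}
    (hU : IsMTS Q U) (hW : IsMTS Q W) (T : V ≃ₗ[F] V) (μ : F) (hT : ∀ v, Q (T v) = μ * Q v) :
    Even (finrank F U - finrank F ↥(U ⊓ U.map T.toLinearMap)) ↔
      Even (finrank F W - finrank F ↥(W ⊓ W.map T.toLinearMap)) := by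
  have hTU := mts_map_sim hU T μ hT
  have hTW := mts_map_sim hW T μ hT
  have t1 := IsMTS.three hQ hU hW hTW
  have t2 := IsMTS.three hQ hU hTU hTW
  have e1 : finrank F ↥(U.map T.toLinearMap ⊓ W.map T.toLinearMap) = finrank F ↥(U ⊓ W) := by
    rw [← Submodule.map_inf _ T.injective, LinearEquiv.finrank_map_eq]
  rw [e1] at t2
  have e2 := hU.finrank_eq hW
  have b1 : finrank F ↥(U ⊓ W) ≤ finrank F U := Submodule.finrank_mono inf_le_left
  have b2 : finrank F ↥(W ⊓ W.map T.toLinearMap) ≤ finrank F W := Submodule.finrank_mono inf_le_left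
  have b3 : finrank F ↥(U ⊓ W.map T.toLinearMap) ≤ finrank F U := Submodule.finrank_mono inf_le_left
  have b4 : finrank F ↥(U ⊓ U.map T.toLinearMap) ≤ finrank F U := Submodule.finrank_mono inf_le_left
  rw [Nat.even_iff] at t1 t2 ⊢
  rw [Nat.even_iff]
  omega

end Gen

section Mat

variable {F : Type*} [Field F] {ι : Type} [Fintype ι] [DecidableEq ι] {Q : QuadraticForm F (ι → F)}

theorem maxTS_iff (hQ : (QuadraticMap.polarBilin Q).Nondegenerate) {U₀ : Submodule F (ι → F)}
    (hU₀ : IsMTS Q U₀) (U : Submodule F (ι → F)) : IsMaxTotallySingular ⇑Q U ↔ IsMTS Q U := by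
  constructor
  · rintro ⟨h1, h2⟩
    have h3 := ts_finrank_le hQ U h1
    have h4 := hU₀.2
    obtain ⟨W, hW, hUW⟩ := hU₀.exists_ge hQ U h1 (by omega)
    rw [← h2 W hW.1 hUW]
    exact hW
  · intro hU
    refine ⟨hU.1, ?_⟩
    intro W hW hUW
    symm
    apply Submodule.eq_of_le_of_finrank_le hUW
    have h3 := ts_finrank_le hQ W hW
    have h4 := hU.2
    omega

theorem image_eq_map (g : GL ι F) (U : Submodule F (ι → F)) :
    imageSubmodule (g : Matrix ι ι F) U = U.map (glEquiv F ι g).toLinearMap := by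
  rw [imageSubmodule]
  congr 1

/-- isometries: parity of the codimension is the determinant -/
theorem iso_parity [Fintype F] (h2 : (2 : F) ≠ 0) (hQ : (QuadraticMap.polarBilin Q).Nondegenerate)
    {U : Submodule F (ι → F)} (hU : IsMTS Q U) (h : ↥(isometryGroup F ⇑Q)) :
    Even (finrank F U - finrank F ↥(U ⊓ U.map (glEquiv F ι h.1).toLinearMap)) ↔
      ((h : GL ι F) : Matrix ι ι F).det = 1 := by
  obtain ⟨vs, hvs, hg⟩ := exists_list_refl Q hQ (Or.inl (card_ne_two_of_two_ne_zero h2)) (bridge Q h)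
  have hg' : h = (bridge Q).symm ((vs.map (rO Q)).prod) := by
    rw [← hg, MulEquiv.symm_apply_apply]
  have hE : glEquiv F ι h.1 = (vs.map (reflE Q)).prod := by
    rw [← coe_prod_rO, ← hg]
    rfl
  have hpar := IsMTS.parity hQ hU hU vs hvs
  rw [inf_idem] at hpar
  rw [hE]
  have hdet : ((h : GL ι F) : Matrix ι ι F).det = (-1) ^ vs.length := by
    rw [hg', bridge_symm_prod, det_prod_reflectionMatrix Q vs hvs]
  rw [hdet, neg_one_pow_eq_one_iff_even (fun h => h2 (by linear_combination -h))]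
  have b : finrank F ↥(U ⊓ U.map ((vs.map (reflE Q)).prod).toLinearMap) ≤ finrank F U :=
    Submodule.finrank_mono inf_le_left
  rw [Nat.even_iff, Nat.even_iff]
  omega

/-- for a similarity, preserving the classes can be tested on one subspace -/
theorem psc_iff_one (hQ : (QuadraticMap.polarBilin Q).Nondegenerate) {U₀ : Submodule F (ι → F)}
    (hU₀ : IsMTS Q U₀) (g : ↥(SimG Q)) :
    PreservesSingularClasses ⇑Q ((g : GL ι F) : Matrix ι ι F) ↔
      Even (finrank F U₀ - finrank F ↥(U₀ ⊓ U₀.map (glEquiv F ι g.1).toLinearMap)) := by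
  unfold PreservesSingularClasses SameParityClass
  constructor
  · intro h
    have := h U₀ ((maxTS_iff hQ hU₀ U₀).2 hU₀)
    rwa [image_eq_map] at this
  · intro h U hU
    rw [image_eq_map]
    exact (sim_parity_indep hQ hU₀ ((maxTS_iff hQ hU₀ U).1 hU) (glEquiv F ι g.1) (mu Q g)
      (mu_spec Q g)).1 h

/-- if `g = D h` with `D` a similarity stabilising `U₀` and `h` an isometry -/
theorem psc_iff_det [Fintype F] (h2 : (2 : F) ≠ 0) (hQ : (QuadraticMap.polarBilin Q).Nondegenerate)
    {U₀ : Submodule F (ι → F)} (hU₀ : IsMTS Q U₀) (D : ↥(SimG Q))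
    (hD : U₀.map (glEquiv F ι D.1).toLinearMap = U₀) (h : ↥(isometryGroup F ⇑Q)) :
    PreservesSingularClasses ⇑Q (((D * incl Q h : ↥(SimG Q)) : GL ι F) : Matrix ι ι F) ↔
      ((h : GL ι F) : Matrix ι ι F).det = 1 := by
  rw [psc_iff_one hQ hU₀, ← iso_parity h2 hQ hU₀ h]
  have h1 : glEquiv F ι ((D * incl Q h : ↥(SimG Q)) : GL ι F) =
      glEquiv F ι D.1 * glEquiv F ι h.1 := map_mul _ _ _
  rw [h1, map_mul_eq]
  have e0 : U₀ ⊓ (U₀.map (glEquiv F ι h.1).toLinearMap).map (glEquiv F ι D.1).toLinearMap =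
      (U₀ ⊓ U₀.map (glEquiv F ι h.1).toLinearMap).map (glEquiv F ι D.1).toLinearMap := by
    rw [Submodule.map_inf _ (glEquiv F ι D.1).injective, hD]
  rw [e0, LinearEquiv.finrank_map_eq]

end Mat

end Cfsg.Agent.Lib.Helper16.POAut
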