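import Cfsg.Agent.Lib.Helper16.POAut1

set_option autoImplicit false

namespace Cfsg.Agent.Lib.Helper16.POAut

open Cfsg.Agent.Lib.Helper16 Cfsg.Agent.Lib.Helper6 Module

section Sim

variable {F V : Type*} [Field F] [AddCommGroup V] [Module F V] {Q : QuadraticForm F V}

local notation "P" => QuadraticMap.polarBilin Q

theorem sim_polar (T : V ≃ₗ[F] V) (μ : F) (hT : ∀ v, Q (T v) = μ * Q v) (x y : V) :
    P (T x) (T y) = μ * P x y := by
  rw [QuadraticMap.polarBilin_apply_apply, QuadraticMap.polarBilin_apply_apply, QuadraticMap.polar,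
    QuadraticMap.polar, ← map_add, hT, hT, hT]
  ring

theorem sieg_sign (h2 : (2 : F) ≠ 0) (T : V ≃ₗ[F] V) (w u : V) (hw : Q w = 0) (huw : P u w = 0)
    (hw0 : w ≠ 0) (h : ∀ x, T (siegL Q w u x) = - siegL Q w u (T x)) : False := by
  have hww : P w w = 0 := by rw [wq_self, hw, mul_zero]
  have hwu : P w u = 0 := by rw [wq_symm]; exact huw
  have h1 := h w
  rw [siegL_apply, siegL_apply, hww, hwu] at h1
  simp only [mul_zero, sub_zero, neg_zero, zero_smul, add_zero] at h1
  set y := T w with hy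
  have h3 : (2 : F) • y = -((P y u - Q u * P y w) • w) - (-P y w) • u := by
    rw [two_smul]
    nth_rewrite 1 [h1]
    abel
  have e1 := congrArg (fun v => P v w) h3
  simp only [map_smul, map_sub, map_neg, LinearMap.smul_apply, LinearMap.sub_apply,
    LinearMap.neg_apply, hww, huw, smul_eq_mul, mul_zero, neg_zero, sub_zero] at e1
  have hyw : P y w = 0 := (mul_eq_zero.1 e1).resolve_left h2
  rw [hyw] at h3
  have e2 := congrArg (fun v => P v u) h3
  simp only [map_smul, map_sub, map_neg, LinearMap.smul_apply, LinearMap.sub_apply,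
    LinearMap.neg_apply, hwu, smul_eq_mul, mul_zero, neg_zero, sub_zero, zero_smul,
    LinearMap.zero_apply] at e2
  have hyu : P y u = 0 := (mul_eq_zero.1 e2).resolve_left h2
  rw [hyu] at h3
  simp only [mul_zero, sub_zero, neg_zero, zero_smul] at h3
  have hy0 : y = 0 := (smul_eq_zero.1 h3).resolve_left h2
  exact hw0 (T.map_eq_zero_iff.1 hy0)

theorem sim_fix_point [FiniteDimensional F V] (hQ : (P).Nondegenerate) (hn : 4 ≤ finrank F V)
    (T : V ≃ₗ[F] V) (μ : F) (hT : ∀ v, Q (T v) = μ * Q v) (w : V)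
    (hz : ∀ u, P u w = 0 → ∀ x, T (siegL Q w u x) = siegL Q w u (T x)) :
    ∃ c : F, T w = c • w := by
  set w' := T.symm w with hw'
  have hzw' : T w' = w := T.apply_symm_apply w
  obtain ⟨u, hu1, hu2⟩ : ∃ u ∈ LinearMap.ker (P w), u ∉ Submodule.span F ({w, w'} : Set V) := by
    by_contra hcon
    push Not at hcon
    have h1 : LinearMap.ker (P w) ≤ Submodule.span F ({w, w'} : Set V) := hcon
    have h2 := Submodule.finrank_mono h1
    have h3 := finrank_span_pair_le (F := F) w w'
    have h4 := finrank_ker_polar_ge (Q := Q) w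
    omega
  have huw : P u w = 0 := by rw [wq_symm]; exact hu1
  obtain ⟨x, hxX, hxu⟩ := wq_exists_orth Q hQ _ u hu2
  have hxw : P x w = 0 := by
    rw [wq_symm]; exact hxX w (Submodule.subset_span (by simp))
  have hxw' : P x w' = 0 := by
    rw [wq_symm]; exact hxX w' (Submodule.subset_span (by simp))
  have h1 := hz u huw x
  have hzx : P (T x) w = 0 := by
    rw [← hzw', sim_polar T μ hT, hxw', mul_zero]
  rw [siegL_apply, siegL_apply, hxw, hzx] at h1
  simp only [mul_zero, sub_zero, neg_zero, zero_smul, add_zero, map_add, map_smul] at h1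
  have h2 : P x u • T w = P (T x) u • w := add_left_cancel h1
  refine ⟨(P x u)⁻¹ * P (T x) u, ?_⟩
  rw [mul_smul, ← h2, smul_smul, inv_mul_cancel₀ hxu, one_smul]

theorem sim_scalar_of_fix [Finite F] [FiniteDimensional F V] (hQ : (P).Nondegenerate) {e f : V}
    (hp : HPair Q e f) (hn : 3 ≤ finrank F V) (T : V ≃ₗ[F] V) (μ : F) (hμ : μ ≠ 0)
    (hT : ∀ v, Q (T v) = μ * Q v)
    (hz : ∀ w, Q w = 0 → ∃ c : F, T w = c • w) : ∃ c : F, ∀ x, T x = c • x := by
  obtain ⟨a, ha⟩ := hz e hp.he
  obtain ⟨b, hb⟩ := hz f hp.hf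
  have hab : a * b = μ := by
    have := sim_polar T μ hT e f
    rw [ha, hb, map_smul, map_smul, LinearMap.smul_apply, hp.hef] at this
    simpa [mul_comm] using this
  have ha0 : a ≠ 0 := by rintro rfl; apply hμ; rw [← hab, zero_mul]
  have hb0 : b ≠ 0 := by rintro rfl; apply hμ; rw [← hab, mul_zero]
  have key : ∀ w ∈ perp2 Q e f, T w = b • w ∧ (Q w ≠ 0 → a = b) := by
    intro w hw
    obtain ⟨hw1, hw2⟩ := (mem_perp2 Q).1 hw
    have hs : Q ((-Q w) • e + (1 : F) • f + w) = 0 := by rw [hp.Q_comb _ _ _ hw]; ring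
    obtain ⟨l, hl⟩ := hz _ hs
    rw [map_add, map_add, map_smul, map_smul, ha, hb] at hl
    have h1 : P e (T w) = 0 := by
      have := sim_polar T μ hT e w
      rw [ha, map_smul, LinearMap.smul_apply, hw1, smul_eq_mul, mul_zero] at this
      exact (mul_eq_zero.1 this).resolve_left ha0
    have h2 : P f (T w) = 0 := by
      have := sim_polar T μ hT f w
      rw [hb, map_smul, LinearMap.smul_apply, hw2, smul_eq_mul, mul_zero] at this
      exact (mul_eq_zero.1 this).resolve_left hb0
    have e1 := congrArg (P e) hl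
    have e2 := congrArg (P f) hl
    simp only [map_add, map_smul, smul_eq_mul, hp.ee, hp.hef, hp.fe, hp.ff, h1, h2, hw1, hw2, mul_zero,
      mul_one, one_mul, add_zero, zero_add] at e1 e2
    subst e1
    constructor
    · have h3 : T w = b • ((-Q w) • e + (1 : F) • f + w) - ((-Q w) • a • e + (1 : F) • b • f) := by
        rw [← hl]; abel
      rw [h3]
      have h4 : (-Q w) • a • e = (b * -Q w) • e := by rw [smul_smul, e2]
      rw [h4]
      module
    · intro hq
      have : (-Q w) * (a - b) = 0 := by linear_combination e2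
      rcases mul_eq_zero.1 this with h | h
      · exact absurd (neg_eq_zero.1 h) hq
      · exact sub_eq_zero.1 h
  obtain ⟨w0, hw0, hq0⟩ : ∃ w0 ∈ perp2 Q e f, Q w0 ≠ 0 := by
    by_contra hcon
    push Not at hcon
    have hfr := hp.finrank_add
    have : Nontrivial (perp2 Q e f) := Module.nontrivial_of_finrank_pos (R := F) (by omega)
    obtain ⟨x, hx⟩ := exists_ne (0 : perp2 Q e f)
    apply hx
    apply (hp.nondeg hQ).1 x
    intro y
    rw [QuadraticMap.polarBilin_apply_apply, QuadraticMap.polar, qRes_apply, qRes_apply, qRes_apply,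
      hcon _ (x + y).2, hcon _ x.2, hcon _ y.2]
    simp
  have hab' : a = b := (key w0 hw0).2 hq0
  subst hab'
  refine ⟨a, ?_⟩
  intro x
  conv_lhs => rw [hp.eq_comb x]
  rw [map_add, map_add, map_smul, map_smul, ha, hb, (key _ (hp.π x).2).1]
  conv_rhs => rw [hp.eq_comb x]
  module

/-- a similitude commuting up to sign with all Siegel maps is a scalar -/
theorem sim_scalar [Finite F] [FiniteDimensional F V] (h2 : (2 : F) ≠ 0) (hQ : (P).Nondegenerate)
    {e f : V} (hp : HPair Q e f) (hn : 4 ≤ finrank F V) (T : V ≃ₗ[F] V) (μ : F) (hμ : μ ≠ 0)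
    (hT : ∀ v, Q (T v) = μ * Q v)
    (hS : ∀ w u, Q w = 0 → P u w = 0 → (∀ x, T (siegL Q w u x) = siegL Q w u (T x)) ∨
      (∀ x, T (siegL Q w u x) = - siegL Q w u (T x))) : ∃ c : F, ∀ x, T x = c • x := by
  apply sim_scalar_of_fix hQ hp (by omega) T μ hμ hT
  intro w hw
  by_cases hw0 : w = 0
  · exact ⟨0, by rw [hw0, map_zero, smul_zero]⟩
  apply sim_fix_point hQ hn T μ hT w
  intro u huw
  rcases hS w u hw huw with h | h
  · exact h
  · exact (sieg_sign h2 T w u hw huw hw0 h).elim

end Sim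

end Cfsg.Agent.Lib.Helper16.POAut
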