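import Cfsg.Agent.Lib.Helper16.POAut2

set_option autoImplicit false

namespace Cfsg.Agent.Lib.Helper16.POAut

open Cfsg.Agent.Lib.Helper16 Cfsg.Agent.Lib.Helper6 Module Cfsg Matrix

section Mat

variable {F : Type*} [Field F] {ι : Type} [Fintype ι] [DecidableEq ι] (Q : QuadraticForm F (ι → F))

theorem mem_iso_iff (g : GL ι F) :
    g ∈ isometryGroup F ⇑Q ↔ ∀ v, Q ((g : Matrix ι ι F) *ᵥ v) = Q v :=
  mem_isometryGroup_iff Q g

theorem iso_le_sim : isometryGroup F ⇑Q ≤ Geo.quadSimilarityGroup (F := F) ⇑Q := fun g hg =>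
  ⟨1, fun v => by rw [(mem_iso_iff Q g).1 hg v]; simp⟩

theorem sim_conj_mem {g h : GL ι F} (hg : g ∈ Geo.quadSimilarityGroup (F := F) ⇑Q)
    (hh : h ∈ isometryGroup F ⇑Q) : g * h * g⁻¹ ∈ isometryGroup F ⇑Q := by
  rw [mem_iso_iff] at hh ⊢
  obtain ⟨c, hc⟩ := hg
  intro v
  rw [Units.val_mul, Units.val_mul, ← Matrix.mulVec_mulVec, ← Matrix.mulVec_mulVec, hc, hh, ← hc,
    Matrix.mulVec_mulVec, ← Units.val_mul, mul_inv_cancel, Units.val_one, Matrix.one_mulVec]

theorem sim_normalizes (t : ↥(Geo.quadSimilarityGroup (F := F) ⇑Q)) :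
    (Geo.quadSimilarityGroup (F := F) ⇑Q).subtype t ∈
      Subgroup.normalizer (isometryGroup F ⇑Q : Set (GL ι F)) := by
  rw [Subgroup.mem_normalizer_iff]
  intro h
  constructor
  · exact sim_conj_mem Q t.2
  · intro hh
    have := sim_conj_mem Q (inv_mem t.2) hh
    simpa [mul_assoc] using this

theorem iso_normalizes (t : ↥(isometryGroup F ⇑Q)) :
    (isometryGroup F ⇑Q).subtype t ∈
      Subgroup.normalizer (isometryGroup F ⇑Q : Set (GL ι F)) :=
  Subgroup.le_normalizer t.2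

theorem induced_iff (g : GL ι F) (β : POmega F ⇑Q ≃* POmega F ⇑Q) :
    IsInducedBySemilinearPOmega ⇑Q g (RingEquiv.refl F) β ↔ Ind (isometryGroup F ⇑Q) g β := by
  unfold IsInducedBySemilinearPOmega Ind
  refine forall_congr' fun s => forall_congr' fun s' => ?_
  have hmap : ((((s : ↥(isometryGroup F ⇑Q)) : GL ι F) : Matrix ι ι F)).map (RingEquiv.refl F) =
      (((s : ↥(isometryGroup F ⇑Q)) : GL ι F) : Matrix ι ι F) := Matrix.ext fun _ _ => rfl
  rw [hmap, Units.ext_iff, Units.val_mul, Units.val_mul]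

/-- the action of the similarity group on `PΩ` -/
noncomputable def psiC : ↥(Geo.quadSimilarityGroup (F := F) ⇑Q) →* MulAut (POmega F ⇑Q) :=
  psi (isometryGroup F ⇑Q) (Geo.quadSimilarityGroup (F := F) ⇑Q).subtype (sim_normalizes Q)

/-- the action of the isometry group on `PΩ` -/
noncomputable def psiO : ↥(isometryGroup F ⇑Q) →* MulAut (POmega F ⇑Q) :=
  psi (isometryGroup F ⇑Q) (isometryGroup F ⇑Q).subtype (iso_normalizes Q)

theorem aut_eq_C (S : Subgroup ↥(Geo.quadSimilarityGroup (F := F) ⇑Q)) :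
    autSubgroupOf (fun β : POmega F ⇑Q ≃* POmega F ⇑Q =>
      ∃ g : GL ι F, g ∈ S.map (Geo.quadSimilarityGroup (F := F) ⇑Q).subtype ∧
        IsInducedBySemilinearPOmega ⇑Q g (RingEquiv.refl F) β) = S.map (psiC Q) := by
  rw [psiC, ← autSub_eq]
  congr 1
  funext β
  simp only [induced_iff]

theorem aut_eq_O (S : Subgroup ↥(isometryGroup F ⇑Q)) :
    autSubgroupOf (fun β : POmega F ⇑Q ≃* POmega F ⇑Q =>
      ∃ g : GL ι F, g ∈ S.map (isometryGroup F ⇑Q).subtype ∧
        IsInducedBySemilinearPOmega ⇑Q g (RingEquiv.refl F) β) = S.map (psiO Q) := by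
  rw [psiO, ← autSub_eq]
  congr 1
  funext β
  simp only [induced_iff]

/-- general kernel computation -/
theorem ker_scalar [Fintype F] (h2 : (2 : F) ≠ 0) (hQ : (QuadraticMap.polarBilin Q).Nondegenerate)
    {e f : ι → F} (hp : HPair Q e f) (hn : 5 ≤ finrank F (ι → F))
    {T : Type*} [Group T] (j : T →* GL ι F)
    (hj : ∀ t, j t ∈ Subgroup.normalizer (isometryGroup F ⇑Q : Set (GL ι F)))
    (t : T) (ht : j t ∈ Geo.quadSimilarityGroup (F := F) ⇑Q)
    (h1 : psi (isometryGroup F ⇑Q) j hj t = 1) :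
    ∃ c : F, ∀ x, ((j t : GL ι F) : Matrix ι ι F) *ᵥ x = c • x := by
  obtain ⟨μ, hμ⟩ := ht
  rw [psi_eq_one_iff] at h1
  apply sim_scalar h2 hQ hp (by omega) (glEquiv F ι (j t)) μ μ.ne_zero hμ
  intro w u hw huw
  set s₀ := siegO Q w u hw huw with hs₀
  have hs₀m : s₀ ∈ commutator ↥(OG Q) := siegO_mem_comm Q hQ (Or.inr (by omega)) w u hw huw
  let s : commutator ↥(isometryGroup F ⇑Q) := ⟨(bridge Q).symm s₀, by
    rw [← mulEquiv_mem_comm (bridge Q), MulEquiv.apply_symm_apply]; exact hs₀m⟩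
  have hc := h1 s
  set c := s⁻¹ * cj (isometryGroup F ⇑Q) j hj t s with hcdef
  have hc' : commEquiv (bridge Q) c ∈ Subgroup.center (commutator ↥(OG Q)) := by
    rw [← map_center_equiv (commEquiv (bridge Q))]
    exact ⟨c, hc, rfl⟩
  have hcases := center_comm_cases hQ hn hp _ hc'
  rw [commEquiv_coe] at hcases
  have hE : glEquiv F ι ((c : ↥(isometryGroup F ⇑Q)) : GL ι F) = (bridge Q (c : ↥(isometryGroup F ⇑Q))).1 := rfl
  have hsE : glEquiv F ι ((s : ↥(isometryGroup F ⇑Q)) : GL ι F) = s₀.1 :=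
    congrArg Subtype.val ((bridge Q).apply_symm_apply s₀)
  have hrel : j t * ((s : ↥(isometryGroup F ⇑Q)) : GL ι F) =
      ((s : ↥(isometryGroup F ⇑Q)) : GL ι F) * ((c : ↥(isometryGroup F ⇑Q)) : GL ι F) * j t := by
    have : ((c : ↥(isometryGroup F ⇑Q)) : GL ι F) =
        (((s : ↥(isometryGroup F ⇑Q)) : GL ι F))⁻¹ *
          (j t * ((s : ↥(isometryGroup F ⇑Q)) : GL ι F) * (j t)⁻¹) := rfl
    rw [this]
    group
  have hrel2 := congrArg (glEquiv F ι) hrel
  rw [map_mul, map_mul, map_mul, hsE, hE] at hrel2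
  rcases hcases with h | h
  · left
    intro x
    have := congrArg (fun g : (ι → F) ≃ₗ[F] (ι → F) => g x) hrel2
    rw [h] at this
    exact this
  · right
    intro x
    have := congrArg (fun g : (ι → F) ≃ₗ[F] (ι → F) => g x) hrel2
    rw [h] at this
    have h3 : glEquiv F ι (j t) (s₀.1 x) = s₀.1 ((negO Q).1 (glEquiv F ι (j t) x)) := this
    rw [negO_apply, map_neg] at h3
    exact h3

/-- scalars act trivially -/
theorem psi_scalar {T : Type*} [Group T] (j : T →* GL ι F)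
    (hj : ∀ t, j t ∈ Subgroup.normalizer (isometryGroup F ⇑Q : Set (GL ι F)))
    (t : T) (c : F) (hc : ∀ x, ((j t : GL ι F) : Matrix ι ι F) *ᵥ x = c • x) :
    psi (isometryGroup F ⇑Q) j hj t = 1 := by
  rw [psi_eq_one_iff]
  intro s
  have : cj (isometryGroup F ⇑Q) j hj t s = s := by
    apply Subtype.ext
    apply Subtype.ext
    rw [cj_coe, mul_inv_eq_iff_eq_mul]
    apply Units.ext
    rw [Units.val_mul, Units.val_mul]
    apply matrix_ext_mulVec
    intro x
    rw [← Matrix.mulVec_mulVec, ← Matrix.mulVec_mulVec, hc, hc, Matrix.mulVec_smul]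
  rw [this, inv_mul_cancel]
  exact Subgroup.one_mem _

end Mat

end Cfsg.Agent.Lib.Helper16.POAut
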