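import Cfsg.Agent.Lib.Helper16.POAut3

set_option autoImplicit false

namespace Cfsg.Agent.Lib.Helper16.POAut

open Cfsg.Agent.Lib.Helper16 Cfsg.Agent.Lib.Helper6 Module Cfsg Matrix

section Mat

variable {F : Type*} [Field F] {ι : Type} [Fintype ι] [DecidableEq ι] (Q : QuadraticForm F (ι → F))

/-- the special orthogonal group inside the orthogonal group -/
def SOsub : Subgroup ↥(isometryGroup F ⇑Q) :=
  (specialIsometryGL F ⇑Q).subgroupOf (isometryGroup F ⇑Q)

theorem mem_SOsub (g : ↥(isometryGroup F ⇑Q)) :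
    g ∈ SOsub Q ↔ ((g : GL ι F) : Matrix ι ι F).det = 1 := by
  rw [SOsub, Subgroup.mem_subgroupOf, specialIsometryGL, Subgroup.mem_inf, Geo.specialLinear,
    MonoidHom.mem_ker, Units.ext_iff]
  constructor
  · rintro ⟨-, h⟩
    exact h
  · intro h
    exact ⟨g.2, h⟩

theorem pso_eq : psoAut F ⇑Q = (SOsub Q).map (psiO Q) := by
  have h : specialIsometryGL F ⇑Q ≤ isometryGroup F ⇑Q := inf_le_left
  rw [← aut_eq_O, SOsub, Subgroup.map_subgroupOf_eq_of_le h]
  rfl

theorem po_eq : poAut F ⇑Q = (⊤ : Subgroup ↥(isometryGroup F ⇑Q)).map (psiO Q) := by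
  rw [← aut_eq_O, ← MonoidHom.range_eq_map, Subgroup.range_subtype]
  rfl

theorem inn_eq_O : Inn (POmega F ⇑Q) = (Omega F ⇑Q).map (psiO Q) := by
  have h := inn_eq (isometryGroup F ⇑Q) (isometryGroup F ⇑Q).subtype (iso_normalizes Q)
    (fun s => ⟨s.1, rfl⟩)
  rw [Subgroup.comap_map_eq_self_of_injective (Subgroup.subtype_injective _)] at h
  exact h

theorem det_eq_one_iff [Fintype F] (h2 : (2 : F) ≠ 0)
    (hQ : (QuadraticMap.polarBilin Q).Nondegenerate) (ε : ↥(OG Q) →* ℤˣ)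
    (hε : ∀ v, Q v ≠ 0 → ε (rO Q v) = -1) (g : ↥(isometryGroup F ⇑Q)) :
    ((g : GL ι F) : Matrix ι ι F).det = 1 ↔ ε (bridge Q g) = 1 := by
  obtain ⟨vs, hvs, hg⟩ := exists_list_refl Q hQ (Or.inl (card_ne_two_of_two_ne_zero h2)) (bridge Q g)
  have hg' : g = (bridge Q).symm ((vs.map (rO Q)).prod) := by
    rw [← hg, MulEquiv.symm_apply_apply]
  rw [hg, hom_prod_len Q ε vs (fun v hv => hε v (hvs v hv)), neg_one_pow_units, hg',
    bridge_symm_prod, det_prod_reflectionMatrix Q vs hvs]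
  exact neg_one_pow_eq_one_iff_even (fun h => h2 (by linear_combination -h))

theorem relIndex_omega_so [Fintype F] (h2 : (2 : F) ≠ 0)
    (hQ : (QuadraticMap.polarBilin Q).Nondegenerate) (hn : 2 ≤ finrank F (ι → F)) :
    Omega F ⇑Q ≤ SOsub Q ∧ (Omega F ⇑Q).relIndex (SOsub Q) = 2 := by
  obtain ⟨φ, hs, hk, hr1, hr2⟩ := exists_eps_theta_surj Q h2 hQ hn
  let ε : ↥(OG Q) →* ℤˣ := (MonoidHom.fst ℤˣ ℤˣ).comp φ
  have hε : ∀ v, Q v ≠ 0 → ε (rO Q v) = -1 := by
    intro v hv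
    change (φ (rO Q v)).1 = -1
    by_cases hsq : IsSquare (Q v)
    · rw [hr1 v hv hsq]
    · rw [hr2 v hv hsq]
  have hSO : SOsub Q = (ε.comp (bridge Q).toMonoidHom).ker := by
    ext g
    rw [mem_SOsub, det_eq_one_iff Q h2 hQ ε hε, MonoidHom.mem_ker]
    rfl
  have hOm : Omega F ⇑Q = (φ.comp (bridge Q).toMonoidHom).ker := by
    ext g
    rw [mem_Omega_iff, ← hk, MonoidHom.mem_ker, MonoidHom.mem_ker]
    rfl
  have hle : Omega F ⇑Q ≤ SOsub Q := by
    rw [hSO, hOm]
    intro g hg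
    rw [MonoidHom.mem_ker] at hg ⊢
    change (φ (bridge Q g)).1 = 1
    have : φ (bridge Q g) = 1 := hg
    rw [this]; rfl
  refine ⟨hle, ?_⟩
  have h4 : (Omega F ⇑Q).index = 4 := by
    have hs' : Function.Surjective (φ.comp (bridge Q).toMonoidHom) :=
      hs.comp (bridge Q).surjective
    rw [hOm, index_of_surj_ker _ hs', Nat.card_prod]
    simp
  have h5 : (SOsub Q).index = 2 := by
    have hs' : Function.Surjective (ε.comp (bridge Q).toMonoidHom) :=
      (Prod.fst_surjective.comp hs).comp (bridge Q).surjective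
    rw [hSO, index_of_surj_ker _ hs']
    simp
  have h6 := Subgroup.relIndex_mul_index hle
  rw [h4, h5] at h6
  omega

theorem relIndex_inn_pso [Fintype F] (h2 : (2 : F) ≠ 0)
    (hQ : (QuadraticMap.polarBilin Q).Nondegenerate) {e f : ι → F} (hp : HPair Q e f)
    (hn : 5 ≤ finrank F (ι → F)) (hev : Even (Fintype.card ι)) :
    (negO Q ∈ commutator ↥(OG Q) → (Inn (POmega F ⇑Q)).relIndex (psoAut F ⇑Q) = 2) ∧
      (negO Q ∉ commutator ↥(OG Q) → (Inn (POmega F ⇑Q)).relIndex (psoAut F ⇑Q) = 1) := by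
  obtain ⟨hle, hri⟩ := relIndex_omega_so Q h2 hQ (by omega)
  rw [inn_eq_O, pso_eq]
  constructor
  · intro hneg
    rw [relIndex_map_of_ker_le _ _ _ _ hle, hri]
    intro g hg
    rw [MonoidHom.mem_ker] at hg
    obtain ⟨c, hc⟩ := ker_scalar Q h2 hQ hp hn _ _ g (iso_le_sim Q g.2) hg
    have hc' : ∀ x, ((g : GL ι F) : Matrix ι ι F) *ᵥ x = c • x := hc
    have hcc : c * c = 1 := by
      have h3 := OG_polar Q (bridge Q g).2 e f
      rw [bridge_apply, bridge_apply, hc', hc', map_smul, map_smul, LinearMap.smul_apply, hp.hef] at h3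
      simpa using h3
    rw [mem_Omega_iff]
    rcases mul_self_eq_one_iff.1 hcc with rfl | rfl
    · rw [bridge_eq_of_mulVec Q g 1 (fun x => by rw [hc', one_smul]; rfl)]
      exact Subgroup.one_mem _
    · rw [bridge_eq_of_mulVec Q g (negO Q) (fun x => by rw [hc', negO_apply, neg_smul, one_smul])]
      exact hneg
  · intro hneg
    have hzc : ∀ x, ((((bridge Q).symm (negO Q) : ↥(isometryGroup F ⇑Q)) : GL ι F) : Matrix ι ι F) *ᵥ x
        = (-1 : F) • x := by
      intro x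
      rw [bridge_symm_mulVec, negO_apply, neg_smul, one_smul]
    apply relIndex_map_of_not_le _ _ _ hle hri ((bridge Q).symm (negO Q))
    · exact psi_scalar Q _ _ _ (-1) hzc
    · rw [mem_SOsub, bridge_symm_coe Q (-1) (negO Q) (fun x => by
        rw [Matrix.neg_mulVec, Matrix.one_mulVec, negO_apply]), Matrix.det_neg, Matrix.det_one,
        hev.neg_one_pow, one_mul]
    · rw [mem_Omega_iff, MulEquiv.apply_symm_apply]
      exact hneg

end Mat

end Cfsg.Agent.Lib.Helper16.POAut
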