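import Cfsg.Agent.Lib.Helper16.POAut4

set_option autoImplicit false

namespace Cfsg.Agent.Lib.Helper16.POAut

open Cfsg.Agent.Lib.Helper16 Cfsg.Agent.Lib.Helper6 Module Cfsg Matrix

section Sign

variable {T : Type*} [Group T]

open Classical in
/-- the sign character of a subgroup of index at most two -/
noncomputable def signHom (H : Subgroup T) (h : ∀ a b, a ∉ H → b ∉ H → a * b ∈ H) : T →* ℤˣ :=
  MonoidHom.mk' (fun t => if t ∈ H then 1 else -1) (by
    intro a b
    by_cases ha : a ∈ H <;> by_cases hb : b ∈ H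
    · simp [ha, hb, H.mul_mem ha hb]
    · have : a * b ∉ H := fun hab => hb (by simpa using H.mul_mem (H.inv_mem ha) hab)
      simp [ha, hb, this]
    · have : a * b ∉ H := fun hab => ha (by simpa using H.mul_mem hab (H.inv_mem hb))
      simp [ha, hb, this]
    · simp [ha, hb, h a b ha hb])

theorem signHom_eq_one (H : Subgroup T) (h : ∀ a b, a ∉ H → b ∉ H → a * b ∈ H) (t : T) :
    signHom H h t = 1 ↔ t ∈ H := by
  classical
  simp only [signHom, MonoidHom.mk'_apply]
  by_cases ht : t ∈ H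
  · simp [ht]
  · simp [ht]

theorem signHom_eq_neg (H : Subgroup T) (h : ∀ a b, a ∉ H → b ∉ H → a * b ∈ H) (t : T) :
    signHom H h t = -1 ↔ t ∉ H := by
  rw [← signHom_eq_one H h]
  rcases Int.units_eq_one_or (signHom H h t) with h1 | h1 <;> simp [h1]

theorem surj_of_two (χ : T →* ℤˣ × ℤˣ) (r d : T) (hr : χ r = (1, -1)) (hd : (χ d).1 = -1) :
    Function.Surjective χ := by
  have hd' : χ d = (-1, 1) ∨ χ d = (-1, -1) := by
    rcases Int.units_eq_one_or (χ d).2 with h | h
    · left; exact Prod.ext hd h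
    · right; exact Prod.ext hd h
  rintro ⟨a, b⟩
  rcases Int.units_eq_one_or a with rfl | rfl <;> rcases Int.units_eq_one_or b with rfl | rfl
  · exact ⟨1, map_one _⟩
  · exact ⟨r, hr⟩
  · rcases hd' with h | h
    · exact ⟨d, h⟩
    · exact ⟨d * r, by rw [map_mul, h, hr]; rfl⟩
  · rcases hd' with h | h
    · exact ⟨d * r, by rw [map_mul, h, hr]; rfl⟩
    · exact ⟨d, h⟩

instance kleinUnits : IsKleinFour (ℤˣ × ℤˣ) where
  card_four := by rw [Nat.card_prod]; simp
  exponent_two := by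
    have : Nontrivial (ℤˣ × ℤˣ) := ⟨⟨1, (-1, 1), by decide⟩⟩
    rw [Monoid.exponent_eq_prime_iff Nat.prime_two]
    intro g hg
    apply orderOf_eq_prime _ hg
    exact Prod.ext (Int.units_sq _) (Int.units_sq _)

theorem exists_klein_equiv : Nonempty (ℤˣ × ℤˣ ≃* Multiplicative (ZMod 2 × ZMod 2)) :=
  IsKleinFour.nonempty_mulEquiv

end Sign

section Mu

variable {F : Type*} [Field F] {ι : Type} [Fintype ι] [DecidableEq ι] (Q : QuadraticForm F (ι → F))

/-- the similarity group -/
abbrev SimG : Subgroup (GL ι F) := Geo.quadSimilarityGroup (F := F) ⇑Q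

noncomputable def mu (g : ↥(SimG Q)) : Fˣ := Classical.choose g.2

theorem mu_spec (g : ↥(SimG Q)) (v : ι → F) :
    Q (((g : GL ι F) : Matrix ι ι F) *ᵥ v) = (mu Q g : F) * Q v := Classical.choose_spec g.2 v

variable {Q}

theorem mu_unique {v0 : ι → F} (h0 : Q v0 ≠ 0) (g : ↥(SimG Q)) (c : F)
    (hc : Q (((g : GL ι F) : Matrix ι ι F) *ᵥ v0) = c * Q v0) : (mu Q g : F) = c := by
  have h := mu_spec Q g v0
  rw [hc] at h
  exact (mul_right_cancel₀ h0 h).symm

theorem mu_mul {v0 : ι → F} (h0 : Q v0 ≠ 0) (g h : ↥(SimG Q)) : mu Q (g * h) = mu Q g * mu Q h := by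
  apply Units.ext
  rw [Units.val_mul]
  apply mu_unique h0
  rw [Subgroup.coe_mul, Units.val_mul, ← Matrix.mulVec_mulVec, mu_spec, mu_spec, mul_assoc]

noncomputable def muHom {v0 : ι → F} (h0 : Q v0 ≠ 0) : ↥(SimG Q) →* Fˣ := MonoidHom.mk' (mu Q) (mu_mul h0)

theorem muHom_apply {v0 : ι → F} (h0 : Q v0 ≠ 0) (g : ↥(SimG Q)) : muHom h0 g = mu Q g := rfl

theorem sim_polarM (g : ↥(SimG Q)) (x y : ι → F) :
    QuadraticMap.polarBilin Q (((g : GL ι F) : Matrix ι ι F) *ᵥ x)
      (((g : GL ι F) : Matrix ι ι F) *ᵥ y) = (mu Q g : F) * QuadraticMap.polarBilin Q x y :=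
  sim_polar (glEquiv F ι g.1) (mu Q g) (mu_spec Q g) x y

theorem det_sq (hQ : (QuadraticMap.polarBilin Q).Nondegenerate) (g : ↥(SimG Q)) :
    (((g : GL ι F) : Matrix ι ι F).det) ^ 2 = (mu Q g : F) ^ (Fintype.card ι) := by
  set B := LinearMap.BilinForm.toMatrix' (QuadraticMap.polarBilin Q) with hB
  have hdet : B.det ≠ 0 := by
    have := (LinearMap.BilinForm.nondegenerate_toMatrix'_iff (B := QuadraticMap.polarBilin Q)).2 hQ
    exact (Matrix.nondegenerate_iff_det_ne_zero).1 this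
  have h1 : (((g : GL ι F) : Matrix ι ι F))ᵀ * B * ((g : GL ι F) : Matrix ι ι F) =
      (mu Q g : F) • B := by
    have h3 : LinearMap.BilinForm.comp (QuadraticMap.polarBilin Q)
        (Matrix.toLin' ((g : GL ι F) : Matrix ι ι F))
        (Matrix.toLin' ((g : GL ι F) : Matrix ι ι F)) = (mu Q g : F) • QuadraticMap.polarBilin Q := by
      apply LinearMap.ext
      intro x
      apply LinearMap.ext
      intro y
      rw [LinearMap.BilinForm.comp_apply, Matrix.toLin'_apply, Matrix.toLin'_apply, sim_polarM]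
      rfl
    have h4 := LinearMap.BilinForm.toMatrix'_comp (QuadraticMap.polarBilin Q)
      (Matrix.toLin' ((g : GL ι F) : Matrix ι ι F)) (Matrix.toLin' ((g : GL ι F) : Matrix ι ι F))
    rw [h3, LinearMap.toMatrix'_toLin', map_smul] at h4
    exact h4.symm
  have h2 := congrArg Matrix.det h1
  rw [Matrix.det_mul, Matrix.det_mul, Matrix.det_transpose, Matrix.det_smul] at h2
  apply mul_right_cancel₀ hdet
  linear_combination h2

end Mu

end Cfsg.Agent.Lib.Helper16.POAut
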