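import Cfsg.Agent.Lib.Helper16.POAut7

set_option autoImplicit false

namespace Cfsg.Agent.Lib.Helper16.POAut

open Cfsg.Agent.Lib.Helper16 Cfsg.Agent.Lib.Helper6 Module Cfsg Matrix

section Ex

variable {F : Type*} [Field F] {ι : Type} [Fintype ι] [DecidableEq ι] {Q : QuadraticForm F (ι → F)}

theorem exists_sim_of_linear (hQ : (QuadraticMap.polarBilin Q).Nondegenerate)
    {v0 : ι → F} (h0 : Q v0 ≠ 0) (T : (ι → F) →ₗ[F] (ι → F)) (l : F) (hl : l ≠ 0)
    (hT : ∀ v, Q (T v) = l * Q v) :
    ∃ d : ↥(SimG Q), (mu Q d : F) = l ∧ ∀ x, ((d : GL ι F) : Matrix ι ι F) *ᵥ x = T x := by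
  have hinj : Function.Injective T := by
    rw [injective_iff_map_eq_zero]
    intro v hv
    apply nondeg_left Q hQ v
    intro w
    have h1 : QuadraticMap.polar Q (T v) (T w) = l * QuadraticMap.polar Q v w := by
      rw [QuadraticMap.polar, QuadraticMap.polar, ← map_add, hT, hT, hT]
      ring
    rw [hv] at h1
    simp only [QuadraticMap.polar, zero_add, map_zero, sub_zero, sub_self] at h1
    have h3 := (mul_eq_zero.1 h1.symm).resolve_left hl
    simpa [QuadraticMap.polar] using h3
  obtain ⟨g, hg⟩ := exists_gl_of_equiv (LinearEquiv.ofInjectiveEndo T hinj)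
  have hg' : ∀ x, (g : Matrix ι ι F) *ᵥ x = T x := fun x => by rw [hg]; rfl
  refine ⟨⟨g, Units.mk0 l hl, fun v => by rw [hg', hT]; rfl⟩, ?_, hg'⟩
  apply mu_unique h0
  rw [hg', hT]

end Ex

section Std

variable {F : Type*} [Field F] [Fintype F]

theorem exists_sim_plus (m : ℕ) (hm : 1 ≤ m) (l : F) (hl : l ≠ 0) :
    ∃ d : ↥(SimG (qPlus m F)), (mu (qPlus m F) d : F) = l := by
  have hQ : (QuadraticMap.polarBilin (qPlus m F)).Nondegenerate := qPlus_nondeg
  have hfr : Module.finrank F (Fin m ⊕ Fin m → F) = 2 * m := finrank_plus'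
  obtain ⟨v0, hv0⟩ := represents_all (qPlus m F) hQ (by omega) 1 one_ne_zero
  have h0 : qPlus m F v0 ≠ 0 := by rw [hv0]; exact one_ne_zero
  let T : (Fin m ⊕ Fin m → F) →ₗ[F] (Fin m ⊕ Fin m → F) :=
    { toFun := fun v => Sum.elim (fun i => l * v (Sum.inl i)) (fun i => v (Sum.inr i))
      map_add' := by
        intro x y
        ext k
        rcases k with i | i
        · simp [mul_add]
        · simp
      map_smul' := by
        intro c x
        ext k
        rcases k with i | i
        · simp; ring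
        · simp }
  obtain ⟨d, hd, -⟩ := exists_sim_of_linear hQ h0 T l hl (by
    intro v
    rw [qPlus_apply, qPlus_apply, quadFormPlus, quadFormPlus, Finset.mul_sum]
    apply Finset.sum_congr rfl
    intro i _
    change l * v (Sum.inl i) * v (Sum.inr i) = _
    ring)
  exact ⟨d, hd⟩

theorem exists_sim_minus (m : ℕ) (a b : F)
    (hab : ∀ z₁ z₂ : F, z₁ ^ 2 + a * z₁ * z₂ + b * z₂ ^ 2 = 0 → z₁ = 0 ∧ z₂ = 0)
    (l : F) (hl : l ≠ 0) :
    ∃ d : ↥(SimG (qMinus m F a b)), (mu (qMinus m F a b) d : F) = l := by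
  have hQ : (QuadraticMap.polarBilin (qMinus m F a b)).Nondegenerate := qMinus_nondeg a b hab
  have hfr : Module.finrank F ((Fin m ⊕ Fin m) ⊕ Fin 2 → F) = 2 * m + 2 := finrank_minus'
  obtain ⟨v0, hv0⟩ := represents_all (qMinus m F a b) hQ (by omega) 1 one_ne_zero
  have h0 : qMinus m F a b v0 ≠ 0 := by rw [hv0]; exact one_ne_zero
  obtain ⟨c, hc⟩ := represents_all (qMinus 0 F a b) (qMinus_nondeg a b hab)
    (by rw [finrank_minus']) l hl
  rw [qMinus_apply, quadFormMinus] at hc
  simp only [Finset.univ_eq_empty, Finset.sum_empty, zero_add] at hc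
  set c1 := c (Sum.inr 0) with hc1
  set c2 := c (Sum.inr 1) with hc2
  let T : ((Fin m ⊕ Fin m) ⊕ Fin 2 → F) →ₗ[F] ((Fin m ⊕ Fin m) ⊕ Fin 2 → F) :=
    { toFun := fun v => Sum.elim
        (Sum.elim (fun i => l * v (Sum.inl (Sum.inl i))) (fun i => v (Sum.inl (Sum.inr i))))
        ![c1 * v (Sum.inr 0) - b * c2 * v (Sum.inr 1),
          c1 * v (Sum.inr 1) + c2 * v (Sum.inr 0) + a * c2 * v (Sum.inr 1)]
      map_add' := by
        intro x y
        ext k
        rcases k with (i | i) | i
        · simp [mul_add]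
        · simp
        · fin_cases i
          · simp; ring
          · simp; ring
      map_smul' := by
        intro r x
        ext k
        rcases k with (i | i) | i
        · simp; ring
        · simp
        · fin_cases i
          · simp; ring
          · simp; ring }
  obtain ⟨d, hd, -⟩ := exists_sim_of_linear hQ h0 T l hl (by
    intro v
    rw [qMinus_apply, qMinus_apply, quadFormMinus, quadFormMinus, mul_add, Finset.mul_sum]
    congr 1
    · apply Finset.sum_congr rfl
      intro i _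
      change l * v (Sum.inl (Sum.inl i)) * v (Sum.inl (Sum.inr i)) = _
      ring
    · change (c1 * v (Sum.inr 0) - b * c2 * v (Sum.inr 1)) ^ 2 +
        a * (c1 * v (Sum.inr 0) - b * c2 * v (Sum.inr 1)) *
          (c1 * v (Sum.inr 1) + c2 * v (Sum.inr 0) + a * c2 * v (Sum.inr 1)) +
        b * (c1 * v (Sum.inr 1) + c2 * v (Sum.inr 0) + a * c2 * v (Sum.inr 1)) ^ 2 = _
      rw [← hc]
      ring)
  exact ⟨d, hd⟩

end Std

end Cfsg.Agent.Lib.Helper16.POAut
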