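import Mathlib
import Cfsg.Agent.S0751
import Cfsg.Agent.Lib.Helper6.UGen
import Cfsg.Agent.Lib.Helper12.Transv

set_option autoImplicit false

namespace Cfsg.Agent.Lib.Helper16

open Cfsg Cfsg.Agent.Lib.Helper6 Module Matrix

variable {F : Type*} [Field F] {n : ℕ} {σ : F ≃+* F} {f : (Fin n → F) → (Fin n → F) → F}

/-- the shape of a unitary transvection -/
theorem ut_form (hf : Cfsg.Geo.IsUnitaryForm σ f) (A : Matrix (Fin n) (Fin n) F)
    (hA : ∀ x y, f (A *ᵥ x) (A *ᵥ y) = f x y) (h1 : (A - 1).rank = 1)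
    (h2 : (A - 1) * (A - 1) = 0) :
    ∃ (v : Fin n → F) (c : F), v ≠ 0 ∧ f v v = 0 ∧ c ≠ 0 ∧ σ c = -c ∧
      ∀ x, A *ᵥ x = x + (c * f x v) • v := by
  obtain ⟨u, φ, hN⟩ := Cfsg.Agent.Lib.Helper12.exists_vecMulVec_of_rank_one (A - 1) h1
  have hAx : ∀ x, A *ᵥ x = x + (φ ⬝ᵥ x) • u := by
    intro x
    have : A = 1 + vecMulVec u φ := by rw [← hN]; abel
    rw [this, rk1_mulVec]
  have hNx : ∀ x, (A - 1) *ᵥ x = (φ ⬝ᵥ x) • u := by
    intro x
    rw [sub_mulVec, one_mulVec, hAx]; abel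
  have hu : u ≠ 0 := by
    rintro rfl
    rw [hN] at h1
    simp at h1
  obtain ⟨x₀, hx₀⟩ : ∃ x₀, φ ⬝ᵥ x₀ ≠ 0 := by
    by_contra hc
    push Not at hc
    have : A - 1 = 0 := by
      rw [Matrix.ext_iff_mulVec]
      intro x
      rw [hNx, hc]; simp
    rw [this] at h1
    simp at h1
  have hφu : φ ⬝ᵥ u = 0 := by
    have := congrArg (fun M => M *ᵥ x₀) h2
    simp only [← Matrix.mulVec_mulVec, hNx, Matrix.zero_mulVec, dotProduct_smul, smul_eq_mul,
      smul_smul] at this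
    rcases smul_eq_zero.1 this with h | h
    · exact (mul_eq_zero.1 h).resolve_left hx₀
    · exact absurd h hu
  have hE : ∀ x y, (φ ⬝ᵥ x) * f u y + σ (φ ⬝ᵥ y) * f x u + (φ ⬝ᵥ x) * σ (φ ⬝ᵥ y) * f u u = 0 := by
    intro x y
    have := hA x y
    rw [hAx, hAx] at this
    simp only [hf.add_left, uf_add_right hf, hf.smul_left, uf_smul_right hf] at this
    linear_combination this
  have huu : f u u = 0 := by
    have := hE x₀ u
    rw [hφu, map_zero] at this
    simp only [zero_mul, mul_zero, add_zero] at this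
    exact (mul_eq_zero.1 this).resolve_left hx₀
  obtain ⟨y₀, hy₀⟩ : ∃ y₀, f u y₀ ≠ 0 := by
    by_contra hc
    push Not at hc
    exact hu (uf_nondeg_left hf hc)
  have hφ : ∀ x, φ ⬝ᵥ x = (-σ (φ ⬝ᵥ y₀) / f u y₀) * f x u := by
    intro x
    have := hE x y₀
    rw [huu, mul_zero, add_zero] at this
    field_simp
    linear_combination this
  set c := -σ (φ ⬝ᵥ y₀) / f u y₀ with hc
  have hc0 : c ≠ 0 := by
    intro h0
    apply hx₀
    rw [hφ, h0, zero_mul]
  refine ⟨u, c, hu, huu, hc0, ?_, fun x => by rw [hAx, hφ]⟩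
  have := hE y₀ y₀
  rw [huu, mul_zero, add_zero, hφ y₀, map_mul, ← hf.herm u y₀] at this
  have h3 : f y₀ u ≠ 0 := uf_ne_zero_symm hf hy₀
  have h4 : (c + σ c) * (f y₀ u * f u y₀) = 0 := by linear_combination this
  have h5 := (mul_eq_zero.1 h4).resolve_right (mul_ne_zero h3 hy₀)
  linear_combination h5

/-- Witt for a single isotropic vector -/
theorem ut_witt [Finite F] (hf : Cfsg.Geo.IsUnitaryForm σ f) (v v' : Fin n → F) (hv : v ≠ 0)
    (hv' : v' ≠ 0) (h0 : f v v = 0) (h0' : f v' v' = 0) :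
    ∃ G : GL (Fin n) F, G ∈ uIso f ∧ (G : Matrix (Fin n) (Fin n) F) *ᵥ v = v' := by
  let B : (Fin n → F) →ₛₗ[(σ : F →+* F)] (Fin n → F) →ₗ[F] F :=
    LinearMap.mk₂'ₛₗ (σ : F →+* F) (RingHom.id F) (fun x y => f y x)
      (fun x y z => uf_add_right hf z x y) (fun c x y => uf_smul_right hf c y x)
      (fun x y z => hf.add_left y z x) (fun c x y => hf.smul_left c y x)
  have hBapp : ∀ x y, B x y = f y x := fun x y => rfl
  have hS : B.IsSymm := ⟨fun x y => by
    rw [hBapp, hBapp]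
    exact (hf.herm x y).symm⟩
  have hB : B.Nondegenerate := by
    constructor
    · intro x hx
      exact uf_nondeg_right hf (fun y => hx y)
    · intro y hy
      exact uf_nondeg_left hf (fun x => hy x)
  let φ : Submodule.span F {v} ≃ₗ[F] Submodule.span F {v'} :=
    (LinearEquiv.toSpanNonzeroSingleton F (Fin n → F) v hv).symm ≪≫ₗ
      (LinearEquiv.toSpanNonzeroSingleton F (Fin n → F) v' hv')
  have hφ : ∀ x x' : Submodule.span F {v}, B (φ x : Fin n → F) (φ x' : Fin n → F) =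
      B (x : Fin n → F) (x' : Fin n → F) := by
    intro x x'
    obtain ⟨a, ha⟩ := Submodule.mem_span_singleton.1 x.2
    obtain ⟨a', ha'⟩ := Submodule.mem_span_singleton.1 x'.2
    obtain ⟨b, hb⟩ := Submodule.mem_span_singleton.1 (φ x).2
    obtain ⟨b', hb'⟩ := Submodule.mem_span_singleton.1 (φ x').2
    rw [hBapp, hBapp, ← ha, ← ha', ← hb, ← hb']
    simp only [hf.smul_left, uf_smul_right hf, h0, h0', mul_zero]
  obtain ⟨g, hg1, hg2⟩ := Cfsg.Agent.S0751.result (σ : F →+* F)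
    (by
      intro h
      apply hf.ne_refl
      ext a
      exact congrArg (fun e : F →+* F => e a) h)
    (fun a => hf.involutive a) B hS hB _ _ φ hφ
  obtain ⟨G, hG⟩ := Cfsg.Agent.Lib.Helper12.exists_GL_of_linearEquiv g
  refine ⟨G, ?_, ?_⟩
  · intro x y
    show f ((G : Matrix (Fin n) (Fin n) F) *ᵥ x) ((G : Matrix (Fin n) (Fin n) F) *ᵥ y) = f x y
    rw [hG, hG]
    exact hg1 y x
  · rw [hG]
    have := hg2 ⟨v, Submodule.mem_span_singleton_self v⟩
    rw [this]
    have h1 : (LinearEquiv.toSpanNonzeroSingleton F (Fin n → F) v hv).symm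
        ⟨v, Submodule.mem_span_singleton_self v⟩ = 1 := by
      rw [← LinearEquiv.toSpanNonzeroSingleton_one F (Fin n → F) v hv,
        LinearEquiv.symm_apply_apply]
    simp [φ, h1]

/-- isometries fixing an isotropic vector, of any determinant of norm one -/
theorem ut_detfix (hf : Cfsg.Geo.IsUnitaryForm σ f) (hn : 3 ≤ n) (v : Fin n → F)
    (δ : F) (hδ : δ * σ δ = 1) :
    ∃ H : GL (Fin n) F, H ∈ uIso f ∧ (H : Matrix (Fin n) (Fin n) F) *ᵥ v = v ∧
      (H : Matrix (Fin n) (Fin n) F).det = δ := by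
  obtain ⟨w, hw1, hw2⟩ : ∃ w, f w v = 0 ∧ f w w ≠ 0 := by
    by_contra hc
    push Not at hc
    have h1 : ∀ x ∈ LinearMap.ker (uMap f ![v]), f x x = 0 := by
      intro x hx
      rw [mem_ker_uMap hf] at hx
      exact hc x (hx 0)
    have h2 := uf_ti_bound hf _ (uf_polarize hf _ h1)
    have h3 := finrank_ker_uMap (f := f) ![v]
    rw [Fintype.card_fin] at h2 h3
    omega
  have hN : σ (f w w) = f w w := uf_self_fixed hf w
  have ha : (δ - 1) / f w w + σ ((δ - 1) / f w w) +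
      (δ - 1) / f w w * σ ((δ - 1) / f w w) * f w w = 0 := by
    rw [map_div₀, map_sub, map_one, hN]
    field_simp
    linear_combination hδ
  refine ⟨uR hf w _ ha, uR_mem hf w _ ha, uR_fix hf w _ ha (uf_eq_zero_symm hf hw1), ?_⟩
  rw [uR_det]
  field_simp
  ring

end Cfsg.Agent.Lib.Helper16
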