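import Mathlib
import Cfsg.Agent.S0755
import Cfsg.Agent.Lib.Helper16.UTransv

set_option autoImplicit false

namespace Cfsg.Agent.Lib.Helper16

open Cfsg Cfsg.Agent.Lib.Helper6 Module Matrix

variable {F : Type*} [Field F] {n : ℕ} {σ : F ≃+* F} {f : (Fin n → F) → (Fin n → F) → F}

theorem uf_sum_left (hf : Cfsg.Geo.IsUnitaryForm σ f) {κ : Type*} (s : Finset κ) (c : κ → F)
    (x : κ → Fin n → F) (v : Fin n → F) :
    f (∑ i ∈ s, c i • x i) v = ∑ i ∈ s, c i * f (x i) v := by
  classical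
  induction s using Finset.induction_on with
  | empty => simp [uf_zero_left hf]
  | insert a s ha ih => rw [Finset.sum_insert ha, Finset.sum_insert ha, hf.add_left, hf.smul_left, ih]

/-- Witt for totally isotropic families -/
theorem ut_witt_ti [Finite F] (hf : Cfsg.Geo.IsUnitaryForm σ f) {k : ℕ} (v v' : Fin k → Fin n → F)
    (hv : LinearIndependent F v) (hv' : LinearIndependent F v')
    (h0 : ∀ i j, f (v i) (v j) = 0) (h0' : ∀ i j, f (v' i) (v' j) = 0) :
    ∃ G : GL (Fin n) F, G ∈ uIso f ∧ ∀ i, (G : Matrix (Fin n) (Fin n) F) *ᵥ v i = v' i := by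
  let B : (Fin n → F) →ₛₗ[(σ : F →+* F)] (Fin n → F) →ₗ[F] F :=
    LinearMap.mk₂'ₛₗ (σ : F →+* F) (RingHom.id F) (fun x y => f y x)
      (fun x y z => uf_add_right hf z x y) (fun c x y => uf_smul_right hf c y x)
      (fun x y z => hf.add_left y z x) (fun c x y => hf.smul_left c y x)
  have hBapp : ∀ x y, B x y = f y x := fun x y => rfl
  have hS : B.IsSymm := ⟨fun x y => by
    rw [hBapp, hBapp]
    exact (hf.herm x y).symm⟩
  have hB : B.Nondegenerate := by
    constructor
    · intro x hx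
      exact uf_nondeg_right hf (fun y => hx y)
    · intro y hy
      exact uf_nondeg_left hf (fun x => hy x)
  have hti : ∀ (w : Fin k → Fin n → F), (∀ i j, f (w i) (w j) = 0) →
      ∀ x ∈ Submodule.span F (Set.range w), ∀ y ∈ Submodule.span F (Set.range w), f x y = 0 := by
    intro w hw x hx y hy
    induction hx using Submodule.span_induction with
    | mem x hx =>
      obtain ⟨i, rfl⟩ := hx
      induction hy using Submodule.span_induction with
      | mem y hy => obtain ⟨j, rfl⟩ := hy; exact hw i j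
      | zero => exact uf_zero_right hf _
      | add y z _ _ h1 h2 => rw [uf_add_right hf, h1, h2, add_zero]
      | smul c y _ h1 => rw [uf_smul_right hf, h1, mul_zero]
    | zero => exact uf_zero_left hf _
    | add x z _ _ h1 h2 => rw [hf.add_left, h1, h2, add_zero]
    | smul c x _ h1 => rw [hf.smul_left, h1, mul_zero]
  let φ := hv.linearCombinationEquiv.symm ≪≫ₗ hv'.linearCombinationEquiv
  have hφ : ∀ x x' : Submodule.span F (Set.range v), B (φ x : Fin n → F) (φ x' : Fin n → F) =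
      B (x : Fin n → F) (x' : Fin n → F) := by
    intro x x'
    rw [hBapp, hBapp, hti v h0 _ x'.2 _ x.2, hti v' h0' _ (φ x').2 _ (φ x).2]
  obtain ⟨g, hg1, hg2⟩ := Cfsg.Agent.S0751.result (σ : F →+* F)
    (by
      intro h
      apply hf.ne_refl
      ext a
      exact congrArg (fun e : F →+* F => e a) h)
    (fun a => hf.involutive a) B hS hB _ _ φ hφ
  obtain ⟨G, hG⟩ := Cfsg.Agent.Lib.Helper12.exists_GL_of_linearEquiv g
  refine ⟨G, ?_, ?_⟩
  · intro x y
    show f ((G : Matrix (Fin n) (Fin n) F) *ᵥ x) ((G : Matrix (Fin n) (Fin n) F) *ᵥ y) = f x y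
    rw [hG, hG]
    exact hg1 y x
  · intro i
    rw [hG]
    have h1 : hv.linearCombinationEquiv (Finsupp.single i 1) =
        ⟨v i, Submodule.subset_span (Set.mem_range_self i)⟩ := by
      apply Subtype.ext; simp
    have h2 : (hv'.linearCombinationEquiv (Finsupp.single i 1) : Fin n → F) = v' i := by simp
    have h3 := hg2 ⟨v i, Submodule.subset_span (Set.mem_range_self i)⟩
    rw [← h1] at h3
    simp only [φ, LinearEquiv.trans_apply, LinearEquiv.symm_apply_apply] at h3
    rw [h2, h1] at h3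
    exact h3

/-- normal form of a unitary involution in characteristic two -/
theorem ui_form [Finite F] (hf : Cfsg.Geo.IsUnitaryForm σ f) (h2 : (2 : F) = 0)
    (A : Matrix (Fin n) (Fin n) F) (hA : ∀ x y, f (A *ᵥ x) (A *ᵥ y) = f x y) (hA2 : A * A = 1)
    (ℓ : ℕ) (hℓ : (A - 1).rank = ℓ) :
    ∃ (r b : Fin ℓ → Fin n → F), LinearIndependent F r ∧ (∀ i j, f (r i) (r j) = 0) ∧
      (∀ i j, f (r i) (b j) = if i = j then 1 else 0) ∧
      ∀ z, A *ᵥ z = z + ∑ j, f z (r j) • r j := by
  classical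
  let N : (Fin n → F) →ₗ[F] (Fin n → F) := (A - 1).mulVecLin
  have hN : ∀ x, N x = A *ᵥ x - x := by
    intro x
    simp [N, sub_mulVec]
  have hAA : ∀ x, A *ᵥ (A *ᵥ x) = x := by
    intro x
    rw [Matrix.mulVec_mulVec, hA2, one_mulVec]
  have hNN : ∀ x, N (N x) = 0 := by
    intro x
    rw [hN, hN, Matrix.mulVec_sub, hAA]
    have : x - A *ᵥ x - (A *ᵥ x - x) = (2 : F) • (x - A *ᵥ x) := by rw [two_smul]; abel
    rw [this, h2, zero_smul]
  have hadj : ∀ x y, f (N x) y = f x (N y) := by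
    intro x y
    rw [hN, hN, uf_sub_left hf, uf_sub_right hf]
    have : f (A *ᵥ x) y = f x (A *ᵥ y) := by
      conv_lhs => rw [← hAA y]
      rw [hA]
    rw [this]
  obtain ⟨C, hC⟩ := Submodule.exists_isCompl (LinearMap.ker N)
  have hCd : finrank F C = ℓ := by
    have h1 := Submodule.finrank_add_eq_of_isCompl hC
    have h3 := LinearMap.finrank_range_add_finrank_ker N
    have h4 : finrank F (LinearMap.range N) = ℓ := hℓ
    omega
  have hdec : ∀ z : Fin n → F, ∃ k ∈ LinearMap.ker N, ∃ c ∈ C, z = k + c := by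
    intro z
    have : z ∈ LinearMap.ker N ⊔ C := by rw [hC.sup_eq_top]; trivial
    obtain ⟨k, hk, c, hc, h⟩ := Submodule.mem_sup.1 this
    exact ⟨k, hk, c, hc, h.symm⟩
  let B' : C →ₛₗ[(σ : F →+* F)] C →ₗ[F] F :=
    LinearMap.mk₂'ₛₗ (σ : F →+* F) (RingHom.id F) (fun x y => f (N (y : Fin n → F)) (x : Fin n → F))
      (fun x y z => by simp [uf_add_right hf]) (fun c x y => by simp [uf_smul_right hf])
      (fun x y z => by simp [hf.add_left]) (fun c x y => by simp [hf.smul_left])
  have hB'app : ∀ x y : C, B' x y = f (N (y : Fin n → F)) (x : Fin n → F) := fun x y => rfl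
  have hS : B'.IsSymm := ⟨fun x y => by
    rw [hB'app, hB'app]
    show σ (f (N (y : Fin n → F)) (x : Fin n → F)) = _
    rw [← hf.herm, hadj]⟩
  have hsep : ∀ x : C, (∀ y : C, f (y : Fin n → F) (N (x : Fin n → F)) = 0) → x = 0 := by
    intro x hx
    have h1 : N (x : Fin n → F) = 0 := by
      apply uf_nondeg_right hf
      intro z
      obtain ⟨k, hk, c, hc, rfl⟩ := hdec z
      rw [hf.add_left, hx ⟨c, hc⟩, add_zero, ← hadj, LinearMap.mem_ker.1 hk, uf_zero_left hf]
    have h3 : (x : Fin n → F) ∈ LinearMap.ker N ⊓ C := ⟨LinearMap.mem_ker.2 h1, x.2⟩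
    rw [hC.inf_eq_bot] at h3
    exact Subtype.ext ((Submodule.mem_bot F).1 h3)
  have hB : B'.Nondegenerate := by
    constructor
    · intro x hx
      apply hsep
      intro y
      have := hx y
      rw [hB'app, hadj] at this
      exact this
    · intro y hy
      apply hsep
      intro x
      have := hy x
      rw [hB'app] at this
      exact uf_eq_zero_symm hf this
  obtain ⟨b₀, hb₀⟩ := Cfsg.Agent.S0755.result (σ : F →+* F)
    (by
      intro h
      apply hf.ne_refl
      ext a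
      exact congrArg (fun e : F →+* F => e a) h)
    (fun a => hf.involutive a) B' hS hB
  let b : Basis (Fin ℓ) F C := b₀.reindex (finCongr hCd)
  have hb : ∀ i j, f (N (b j : Fin n → F)) (b i : Fin n → F) = if i = j then 1 else 0 := by
    intro i j
    have := hb₀ ((finCongr hCd).symm i) ((finCongr hCd).symm j)
    rw [hB'app] at this
    simp only [b, Basis.reindex_apply]
    rw [this]
    simp
  refine ⟨fun j => N (b j : Fin n → F), fun j => (b j : Fin n → F), ?_, ?_, ?_, ?_⟩
  · rw [Fintype.linearIndependent_iff]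
    intro c hc j
    have h1 := congrArg (fun x => f x (b j : Fin n → F)) hc
    simp only [uf_sum_left hf, uf_zero_left hf, hb] at h1
    simpa using h1
  · intro i j
    rw [hadj, hNN, uf_zero_right hf]
  · intro i j
    rw [hb j i]
    simp [eq_comm]
  · intro z
    have hz : A *ᵥ z = z + N z := by rw [hN]; abel
    rw [hz]
    congr 1
    obtain ⟨k, hk, c, hc, rfl⟩ := hdec z
    have hrep : c = ∑ i, b.repr ⟨c, hc⟩ i • (b i : Fin n → F) := by
      have h := congrArg (fun x : C => (x : Fin n → F)) (b.sum_repr ⟨c, hc⟩)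
      simp only [Submodule.coe_sum, Submodule.coe_smul] at h
      exact h.symm
    have hNc : N c = ∑ i, b.repr ⟨c, hc⟩ i • N (b i : Fin n → F) := by
      conv_lhs => rw [hrep]
      rw [map_sum]
      simp
    rw [map_add, LinearMap.mem_ker.1 hk, zero_add]
    have hcoef : ∀ j, f (k + c) (N (b j : Fin n → F)) = b.repr ⟨c, hc⟩ j := by
      intro j
      rw [← hadj, map_add, LinearMap.mem_ker.1 hk, zero_add, hNc, uf_sum_left hf]
      simp only [hb]
      simp
    simp only [hcoef]
    exact hNc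

/-- the scalar `l` of norm one on a hyperbolic plane, extended by the identity -/
theorem ui_plane (hf : Cfsg.Geo.IsUnitaryForm σ f) (r x : Fin n → F) (hrr : f r r = 0)
    (hxx : f x x = 0) (hrx : f r x = 1) (l : F) (hl : l * σ l = 1) :
    ∃ H : GL (Fin n) F, H ∈ uIso f ∧ (H : Matrix (Fin n) (Fin n) F).det = l ^ 2 ∧
      ∀ z, (H : Matrix (Fin n) (Fin n) F) *ᵥ z =
        z + ((l - 1) * f z x) • r + ((l - 1) * f z r) • x := by
  have hxr : f x r = 1 := by rw [hf.herm, hrx, map_one]
  have hl0 : l ≠ 0 := by rintro rfl; simp at hl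
  obtain ⟨M, hM⟩ : ∃ M : Matrix (Fin n) (Fin n) F,
    M = (1 + vecMulVec r ((l - 1) • uPhi f x)) * (1 + vecMulVec x ((l - 1) • uPhi f r)) := ⟨_, rfl⟩
  have hdet : M.det = l ^ 2 := by
    rw [hM, det_mul, rk1_det, rk1_det, smul_dotProduct, smul_dotProduct, uPhi_dot hf, uPhi_dot hf,
      hrx, hxr]
    simp only [smul_eq_mul]
    ring
  have hMz : ∀ z, M *ᵥ z = z + ((l - 1) * f z x) • r + ((l - 1) * f z r) • x := by
    intro z
    rw [hM, ← Matrix.mulVec_mulVec, rk1_mulVec, rk1_mulVec, smul_dotProduct, smul_dotProduct,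
      uPhi_dot hf, uPhi_dot hf, hf.add_left, hf.smul_left, hxx]
    simp only [smul_eq_mul, mul_zero, add_zero]
    abel
  refine ⟨Matrix.GeneralLinearGroup.mkOfDetNeZero M (by rw [hdet]; exact pow_ne_zero _ hl0),
    ?_, hdet, hMz⟩
  intro z y
  show f (M *ᵥ z) (M *ᵥ y) = f z y
  rw [hMz, hMz]
  simp only [hf.add_left, uf_add_right hf, hf.smul_left, uf_smul_right hf, hrr, hxx, hrx, hxr,
    map_mul, map_sub, map_one]
  rw [← hf.herm x y, ← hf.herm r y]
  linear_combination (f z x * f r y + f z r * f x y) * hl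

/-- two unitary involutions in characteristic two of the same rank are conjugate by a unitary
matrix of determinant one -/
theorem ui_conj [Finite F] (hf : Cfsg.Geo.IsUnitaryForm σ f) (h2 : (2 : F) = 0)
    (hsq : ∀ a : F, IsSquare a)
    (hdet : ∀ G : GL (Fin n) F, G ∈ uIso f →
      (G : Matrix (Fin n) (Fin n) F).det * σ (G : Matrix (Fin n) (Fin n) F).det = 1)
    (A B : Matrix (Fin n) (Fin n) F) (hA : ∀ x y, f (A *ᵥ x) (A *ᵥ y) = f x y)
    (hB : ∀ x y, f (B *ᵥ x) (B *ᵥ y) = f x y) (hA2 : A * A = 1) (hB2 : B * B = 1) (hA1 : A ≠ 1)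
    (hrk : (A - 1).rank = (B - 1).rank) :
    ∃ M : Matrix (Fin n) (Fin n) F, M.det = 1 ∧ (∀ x y, f (M *ᵥ x) (M *ᵥ y) = f x y) ∧
      M * A = B * M := by
  classical
  obtain ⟨r, b, hr1, hr2, hr3, hr4⟩ := ui_form hf h2 A hA hA2 _ rfl
  obtain ⟨r', b', hr1', hr2', hr3', hr4'⟩ := ui_form hf h2 B hB hB2 _ hrk.symm
  have hpos : 0 < (A - 1).rank := by
    rcases Nat.eq_zero_or_pos (A - 1).rank with h | h
    · exfalso
      apply hA1
      rw [Matrix.ext_iff_mulVec]
      intro z
      rw [hr4 z, one_mulVec]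
      have : IsEmpty (Fin (A - 1).rank) := by rw [h]; infer_instance
      simp
    · exact h
  obtain ⟨G₁, hG₁, hG₁r⟩ := ut_witt_ti hf r r' hr1 hr1' hr2 hr2'
  have hd₁ := hdet G₁ hG₁
  have hd0 : (G₁ : Matrix (Fin n) (Fin n) F).det ≠ 0 := by
    intro h0; rw [h0, zero_mul] at hd₁; exact zero_ne_one hd₁
  obtain ⟨l, hl⟩ := hsq ((G₁ : Matrix (Fin n) (Fin n) F).det)⁻¹
  have hlσ : l * σ l = 1 := by
    have h1 : (l * σ l) * (l * σ l) = 1 := by
      have : (l * l) * σ (l * l) = 1 := by rw [← hl, map_inv₀, ← mul_inv, hd₁, inv_one]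
      rw [map_mul] at this
      linear_combination this
    have h3 : (l * σ l - 1) * (l * σ l - 1) = 0 := by
      linear_combination h1 + (1 - l * σ l) * h2
    have := mul_self_eq_zero.1 h3
    linear_combination this
  let j₀ : Fin (A - 1).rank := ⟨0, hpos⟩
  obtain ⟨τ, hτ⟩ := uf_trace_surj hf (-f (b' j₀) (b' j₀))
    (by rw [map_neg, uf_self_fixed hf])
  have hbr : f (b' j₀) (r' j₀) = 1 := by rw [hf.herm, hr3', if_pos rfl, map_one]
  obtain ⟨H, hH, hHdet, hHz⟩ := ui_plane hf (r' j₀) (b' j₀ + τ • r' j₀) (hr2' _ _)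
    (by
      simp only [hf.add_left, uf_add_right hf, hf.smul_left, uf_smul_right hf, hr2', hbr, hr3',
        if_pos]
      linear_combination hτ)
    (by
      simp only [uf_add_right hf, uf_smul_right hf, hr2', hr3', if_pos]
      ring) l hlσ
  obtain ⟨M, hM⟩ : ∃ M : Matrix (Fin n) (Fin n) F,
    M = ((H * G₁ : GL (Fin n) F) : Matrix (Fin n) (Fin n) F) := ⟨_, rfl⟩
  have hMiso : ∀ x y, f (M *ᵥ x) (M *ᵥ y) = f x y := by rw [hM]; exact mul_mem hH hG₁
  have hMr : ∀ j, M *ᵥ r j = (if j = j₀ then l else 1) • r' j := by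
    intro j
    rw [hM, Units.val_mul, ← Matrix.mulVec_mulVec, hG₁r, hHz]
    simp only [uf_add_right hf, uf_smul_right hf, hr2', hr3', mul_zero, add_zero, zero_smul]
    by_cases hj : j = j₀
    · subst hj
      rw [if_pos rfl, if_pos rfl, mul_one, sub_smul, one_smul]; abel
    · rw [if_neg hj, if_neg hj, mul_zero, zero_smul, add_zero, one_smul]
  refine ⟨M, ?_, hMiso, ?_⟩
  · rw [hM, Units.val_mul, det_mul, hHdet, pow_two, ← hl, inv_mul_cancel₀ hd0]
  · rw [Matrix.ext_iff_mulVec]
    intro z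
    rw [← Matrix.mulVec_mulVec, ← Matrix.mulVec_mulVec, hr4, hr4', Matrix.mulVec_add,
      Matrix.mulVec_sum]
    congr 1
    apply Finset.sum_congr rfl
    intro j _
    rw [Matrix.mulVec_smul, hMr, smul_smul]
    congr 1
    have h1 : f (M *ᵥ z) ((if j = j₀ then l else 1) • r' j) = f z (r j) := by
      rw [← hMr, hMiso]
    rw [uf_smul_right hf] at h1
    by_cases hj : j = j₀
    · rw [if_pos hj] at h1 ⊢
      linear_combination (-l) * h1 + (f (M *ᵥ z) (r' j)) * hlσ
    · rw [if_neg hj] at h1 ⊢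
      rw [map_one, one_mul] at h1
      rw [mul_one, h1]

end Cfsg.Agent.Lib.Helper16
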